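import Cfsg.Agent.Solv.Core
import Cfsg.Agent.H20.RankOneNilp

/-!
Local balance criteria: abstract group theory.
-/

set_option autoImplicit false

namespace Cfsg.Agent.LB

open Subgroup

variable {Γ : Type*} [Group Γ]

/-- the subgroup generated by the `r`-elements of `D` commuting with `β` -/
def MM (r : ℕ) (D : Subgroup Γ) (β : Γ) : Subgroup Γ := closure {x | x ∈ D ∧ x * β = β * x ∧ ∃ k : ℕ, x ^ r ^ k = 1}

theorem MM_le (r : ℕ) (D : Subgroup Γ) (β : Γ) : MM r D β ≤ D := by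
  rw [MM, closure_le]; exact fun x hx => hx.1

theorem MM_comm (r : ℕ) (D : Subgroup Γ) (β : Γ) {x : Γ} (hx : x ∈ MM r D β) : x * β = β * x := by
  have : MM r D β ≤ centralizer {β} := by
    rw [MM, closure_le]
    intro x hx
    rw [SetLike.mem_coe, mem_centralizer_singleton_iff]
    exact hx.2.1
  exact mem_centralizer_singleton_iff.1 (this hx)

theorem mem_MM (r : ℕ) (D : Subgroup Γ) (β : Γ) {x : Γ} (h1 : x ∈ D) (h2 : x * β = β * x) {k : ℕ} (h3 : x ^ r ^ k = 1) :
    x ∈ MM r D β := subset_closure ⟨h1, h2, k, h3⟩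

theorem conj_mem_MM (r : ℕ) (D : Subgroup Γ) (hD : D.Normal) (β : Γ) {c : Γ} (hc : c * β = β * c) {x : Γ}
    (hx : x ∈ MM r D β) : c * x * c⁻¹ ∈ MM r D β := by
  have : MM r D β ≤ (MM r D β).comap (MulAut.conj c).toMonoidHom := by
    conv_lhs => rw [MM]
    rw [closure_le]
    rintro x ⟨h1, h2, k, h3⟩
    refine mem_MM r D β (k := k) (hD.conj_mem x h1 c) ?_ ?_
    · have h4 : c⁻¹ * β = β * c⁻¹ := by rw [inv_mul_eq_iff_eq_mul, ← mul_assoc, hc, mul_inv_cancel_right]
      change c * x * c⁻¹ * β = β * (c * x * c⁻¹)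
      rw [mul_assoc, h4, ← mul_assoc, mul_assoc c x β, h2, ← mul_assoc, hc, mul_assoc β c x, mul_assoc β]
    · change (MulAut.conj c x) ^ r ^ k = 1
      rw [← map_pow, h3, map_one]
  exact this hx

/-- the two conditions used to show that the `p'`-core of the centralizer is trivial -/
def Good (p r : ℕ) (D : Subgroup Γ) (β : Γ) : Prop :=
  (∀ Y : Subgroup Γ, Y ≤ MM r D β → (Nat.card Y).Coprime p →
    (∀ c, c * β = β * c → ∀ y ∈ Y, c * y * c⁻¹ ∈ Y) → Y = ⊥) ∧
  (∀ x, x * β = β * x → (orderOf x).Coprime p → (∀ m ∈ MM r D β, x * m = m * x) → x = 1)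

theorem conj_MM (r : ℕ) (D : Subgroup Γ) (hD : D.Normal) (α β : Γ) {x : Γ} (hx : x ∈ MM r D β) :
    α * x * α⁻¹ ∈ MM r D (α * β * α⁻¹) := by
  have : MM r D β ≤ (MM r D (α * β * α⁻¹)).comap (MulAut.conj α).toMonoidHom := by
    conv_lhs => rw [MM]
    rw [closure_le]
    rintro x ⟨h1, h2, k, h3⟩
    refine mem_MM r D _ (k := k) (hD.conj_mem x h1 α) ?_ ?_
    · change MulAut.conj α x * MulAut.conj α β = MulAut.conj α β * MulAut.conj α x
      rw [← map_mul, h2, map_mul]
    · change (MulAut.conj α x) ^ r ^ k = 1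
      rw [← map_pow, h3, map_one]
  exact this hx

theorem Good.conj {p r : ℕ} {D : Subgroup Γ} (hD : D.Normal) {α β : Γ} (h : Good p r D (α * β * α⁻¹)) : Good p r D β := by
  have key : ∀ c : Γ, c * (α * β * α⁻¹) = (α * β * α⁻¹) * c → (α⁻¹ * c * α) * β = β * (α⁻¹ * c * α) := by
    intro c hc
    have := congrArg (fun z => α⁻¹ * z * α) hc
    calc (α⁻¹ * c * α) * β = α⁻¹ * (c * (α * β * α⁻¹)) * α := by group
      _ = _ := this
      _ = _ := by group
  have key' : ∀ c : Γ, c * β = β * c → (α * c * α⁻¹) * (α * β * α⁻¹) = (α * β * α⁻¹) * (α * c * α⁻¹) := by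
    intro c hc
    calc (α * c * α⁻¹) * (α * β * α⁻¹) = α * (c * β) * α⁻¹ := by group
      _ = _ := by rw [hc]
      _ = _ := by group
  have back : ∀ m ∈ MM r D (α * β * α⁻¹), α⁻¹ * m * α ∈ MM r D β := by
    intro m hm
    have := conj_MM r D hD α⁻¹ (α * β * α⁻¹) hm
    rw [inv_inv] at this
    rwa [show α⁻¹ * (α * β * α⁻¹) * α = β by group] at this
  refine ⟨?_, ?_⟩
  · intro Y hY hc hn
    have h1 := h.1 (Y.map (MulAut.conj α).toMonoidHom) ?_ ?_ ?_
    · rw [Subgroup.map_eq_bot_iff_of_injective _ (MulAut.conj α).injective] at h1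
      exact h1
    · rintro _ ⟨y, hy, rfl⟩
      exact conj_MM r D hD α β (hY hy)
    · rw [Nat.card_congr (Y.equivMapOfInjective (MulAut.conj α).toMonoidHom (MulAut.conj α).injective).symm.toEquiv]
      exact hc
    · rintro c hcc _ ⟨y, hy, rfl⟩
      refine ⟨(α⁻¹ * c * α) * y * (α⁻¹ * c * α)⁻¹, hn _ (key c hcc) y hy, ?_⟩
      change α * ((α⁻¹ * c * α) * y * (α⁻¹ * c * α)⁻¹) * α⁻¹ = c * (α * y * α⁻¹) * c⁻¹
      group
  · intro x hx ho hm
    have h1 := h.2 (α * x * α⁻¹) (key' x hx) ?_ ?_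
    · rwa [mul_inv_eq_one, mul_eq_left] at h1
    · change (orderOf (MulAut.conj α x)).Coprime p
      have := orderOf_injective (MulAut.conj α).toMonoidHom (MulAut.conj α).injective x
      change orderOf ((MulAut.conj α) x) = orderOf x at this
      rwa [this]
    · intro m hm'
      have h2 := hm _ (back m hm')
      calc α * x * α⁻¹ * m = α * (x * (α⁻¹ * m * α)) * α⁻¹ := by group
        _ = _ := by rw [h2]
        _ = _ := by group

/-- the `p'`-core of the centralizer is trivial if the conditions hold -/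
theorem core_eq_bot [Finite Γ] {p r : ℕ} {D : Subgroup Γ} (hD : D.Normal) {β : Γ} (h : Good p r D β)
    (𝒢 : Subgroup Γ) (h𝒢 : ∀ x ∈ D, (∃ k : ℕ, x ^ r ^ k = 1) → x ∈ 𝒢) :
    Cfsg.pPrimeCore p ↥(𝒢 ⊓ Subgroup.centralizer {β}) = ⊥ := by
  set C := 𝒢 ⊓ Subgroup.centralizer {β} with hC
  have hMC : MM r D β ≤ C := by
    refine le_inf ?_ ?_
    · rw [MM, closure_le]
      exact fun x hx => h𝒢 x hx.1 hx.2.2
    · intro x hx
      rw [mem_centralizer_singleton_iff]
      exact MM_comm r D β hx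
  set X : Subgroup Γ := (Cfsg.pPrimeCore p ↥C).map C.subtype with hX
  have hXcard : (Nat.card X).Coprime p := by
    rw [hX, Nat.card_congr ((Cfsg.pPrimeCore p ↥C).equivMapOfInjective C.subtype C.subtype_injective).symm.toEquiv]
    exact Cfsg.Agent.Solv.pPrimeCore_card_coprime p
  have hXn : ∀ c ∈ C, ∀ x ∈ X, c * x * c⁻¹ ∈ X := by
    rintro c hc _ ⟨x, hx, rfl⟩
    have hn : (Cfsg.pPrimeCore p ↥C).Normal := by infer_instance
    exact ⟨_, hn.conj_mem x hx ⟨c, hc⟩, rfl⟩
  have hXC : X ≤ C := by rintro _ ⟨x, hx, rfl⟩; exact x.2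
  -- the core of `M`
  have hY0 : (Cfsg.pPrimeCore p ↥(MM r D β)).map (MM r D β).subtype = ⊥ := by
    apply h.1
    · rintro _ ⟨x, hx, rfl⟩; exact x.2
    · rw [Nat.card_congr ((Cfsg.pPrimeCore p ↥(MM r D β)).equivMapOfInjective _ (Subgroup.subtype_injective _)).symm.toEquiv]
      exact Cfsg.Agent.Solv.pPrimeCore_card_coprime p
    · rintro c hc _ ⟨y, hy, rfl⟩
      let e : ↥(MM r D β) ≃* ↥(MM r D β) :=
        { toFun := fun m => ⟨c * m * c⁻¹, conj_mem_MM r D hD β hc m.2⟩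
          invFun := fun m => ⟨c⁻¹ * m * c, by
            have := conj_mem_MM r D hD β (c := c⁻¹)
              (by rw [inv_mul_eq_iff_eq_mul, ← mul_assoc, hc, mul_inv_cancel_right]) m.2
            rwa [inv_inv] at this⟩
          left_inv := fun m => Subtype.ext (by simp only []; group)
          right_inv := fun m => Subtype.ext (by simp only []; group)
          map_mul' := fun a b => Subtype.ext (by simp only [Subgroup.coe_mul]; group) }
      have h1 := Cfsg.Agent.Solv.map_pPrimeCore p e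
      have h2 : e y ∈ Cfsg.pPrimeCore p ↥(MM r D β) := by
        rw [← h1]; exact ⟨y, hy, rfl⟩
      exact ⟨e y, h2, rfl⟩
  have hXM : ∀ x ∈ X, x ∈ MM r D β → x = 1 := by
    intro x hx hxM
    have h1 : (X ⊓ MM r D β).subgroupOf (MM r D β) ≤ Cfsg.pPrimeCore p ↥(MM r D β) := by
      apply Cfsg.Agent.Solv.le_pPrimeCore
      · refine ⟨?_⟩
        intro m hm g
        rw [mem_subgroupOf] at hm ⊢
        exact ⟨hXn _ (hMC g.2) _ hm.1, (MM r D β).mul_mem ((MM r D β).mul_mem g.2 m.2) ((MM r D β).inv_mem g.2)⟩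
      · rw [Nat.card_congr (subgroupOfEquivOfLe inf_le_right).toEquiv]
        exact Nat.Coprime.coprime_dvd_left (Subgroup.card_dvd_of_le inf_le_left) hXcard
    have h2 : x ∈ (Cfsg.pPrimeCore p ↥(MM r D β)).map (MM r D β).subtype :=
      ⟨⟨x, hxM⟩, h1 (by rw [mem_subgroupOf]; exact ⟨hx, hxM⟩), rfl⟩
    rw [hY0] at h2
    exact h2
  have hX1 : X = ⊥ := by
    rw [eq_bot_iff]
    intro x hx
    rw [mem_bot]
    have hxC := hXC hx
    have hxb : x * β = β * x := mem_centralizer_singleton_iff.1 hxC.2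
    apply h.2 x hxb
    · exact Nat.Coprime.coprime_dvd_left (Subgroup.orderOf_dvd_natCard X hx) hXcard
    · intro m hm
      have h1 : x * m * x⁻¹ * m⁻¹ ∈ X := by
        have := X.mul_mem hx (hXn m (hMC hm) x⁻¹ (X.inv_mem hx))
        rwa [← mul_assoc, ← mul_assoc] at this
      have h2 : x * m * x⁻¹ * m⁻¹ ∈ MM r D β := (MM r D β).mul_mem (conj_mem_MM r D hD β hxb hm) ((MM r D β).inv_mem hm)
      have h3 := hXM _ h1 h2
      rw [mul_inv_eq_one, mul_inv_eq_iff_eq_mul] at h3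
      exact h3
  rw [hX, Subgroup.map_eq_bot_iff_of_injective _ C.subtype_injective] at hX1
  exact hX1

/-- the easy direction -/
theorem core_ne_bot {K : Type*} [Group K] [Finite K] (hZ : Subgroup.center K = ⊥) (hnn : ¬ Group.IsNilpotent K)
    {p : ℕ} (hp : p.Prime) (𝒢 : Subgroup (MulAut K)) (hinn : ∀ k : K, MulAut.conj k ∈ 𝒢) (β : MulAut K)
    (hord : orderOf β = p)
    (h : Nat.Coprime p (Nat.card ↥(MonoidHom.eqLocus β.toMonoidHom (MonoidHom.id K)))) :
    Cfsg.pPrimeCore p ↥(𝒢 ⊓ Subgroup.centralizer {β}) ≠ ⊥ := by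
  intro hbot
  set C := 𝒢 ⊓ Subgroup.centralizer {β} with hC
  set L := MonoidHom.eqLocus β.toMonoidHom (MonoidHom.id K) with hL
  have hmemL : ∀ k : K, k ∈ L ↔ β k = k := fun k => Iff.rfl
  have hconj : ∀ (γ : MulAut K) (k : K), γ * MulAut.conj k * γ⁻¹ = MulAut.conj (γ k) := by
    intro γ k
    ext x
    change γ (k * (γ⁻¹ x) * k⁻¹) = γ k * x * (γ k)⁻¹
    rw [map_mul, map_mul, map_inv, MulAut.apply_inv_self]
  have hinj : Function.Injective (MulAut.conj : K →* MulAut K) := by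
    rw [← MonoidHom.ker_eq_bot_iff, eq_bot_iff]
    intro k hk
    rw [← hZ, Subgroup.mem_center_iff]
    intro g
    have := congrArg (fun f : MulAut K => f g) hk
    change k * g * k⁻¹ = g at this
    rw [mul_inv_eq_iff_eq_mul] at this
    exact this.symm
  have hmem : ∀ k ∈ L, MulAut.conj k ∈ C := by
    intro k hk
    refine ⟨hinn k, ?_⟩
    change MulAut.conj k ∈ Subgroup.centralizer {β}
    rw [mem_centralizer_singleton_iff]
    have := hconj β k
    rw [(hmemL k).1 hk, mul_inv_eq_iff_eq_mul] at this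
    exact this.symm
  let N : Subgroup ↥C := (L.map (MulAut.conj : K →* MulAut K)).subgroupOf C
  have hN : N ≤ Cfsg.pPrimeCore p ↥C := by
    apply Cfsg.Agent.Solv.le_pPrimeCore
    · refine ⟨?_⟩
      intro x hx g
      rw [mem_subgroupOf] at hx ⊢
      obtain ⟨k, hk, hkx⟩ := hx
      refine ⟨(g : MulAut K) k, ?_, ?_⟩
      · rw [SetLike.mem_coe, hmemL]
        have h1 : (g : MulAut K) * β = β * g := mem_centralizer_singleton_iff.1 g.2.2
        have h2 := congrArg (fun f : MulAut K => f k) h1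
        change (g : MulAut K) (β k) = β ((g : MulAut K) k) at h2
        rw [← h2, (hmemL k).1 hk]
      · rw [Subgroup.coe_mul, Subgroup.coe_mul, ← hkx]
        exact (hconj g k).symm
    · rw [Nat.card_congr (subgroupOfEquivOfLe (by rintro _ ⟨k, hk, rfl⟩; exact hmem k hk)).toEquiv]
      rw [Nat.card_congr (L.equivMapOfInjective _ hinj).symm.toEquiv]
      exact h.symm
  have hL1 : ∃ k : K, β k = k ∧ k ≠ 1 := by
    by_contra hcon
    push Not at hcon
    apply hnn
    refine Cfsg.Agent.H20.RO.isNilpotent_fpf hp β ?_ hcon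
    intro g
    rw [← hord, pow_orderOf_eq_one]
    rfl
  obtain ⟨k, hk, hk1⟩ := hL1
  have h1 : (⟨MulAut.conj k, hmem k hk⟩ : ↥C) ∈ N := by
    rw [mem_subgroupOf]
    exact ⟨k, hk, rfl⟩
  have h2 := hN h1
  rw [hbot, mem_bot] at h2
  apply hk1
  apply hinj
  rw [map_one]
  exact congrArg Subtype.val h2

end Cfsg.Agent.LB
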