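import Cfsg.Agent.LB.Abs
import Cfsg.Agent.AutPSL.Cent
import Cfsg.Agent.AutPSL.CentGF
import Cfsg.Agent.AutPSL.Main

/-!
Local balance criterion for `PSL_n(q)`: general facts.
-/

set_option autoImplicit false

namespace Cfsg.Agent.LB

open Matrix Cfsg.Agent.AutPSL Cfsg.Agent.AutLie

variable {F : Type*} [Field F] {n : ℕ}

/-- `r`-power roots in finite fields of characteristic `r` -/
theorem exists_root (F : Type*) [Field F] [Finite F] (r : ℕ) [Fact r.Prime] [CharP F r] (k : ℕ) (c : Fˣ) : ∃ d : Fˣ, d ^ r ^ k = c := by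
  have hinj : Function.Injective (fun x : F => x ^ r ^ k) := by
    intro x y hxy
    have : (iterateFrobenius F r k) x = (iterateFrobenius F r k) y := by
      rw [iterateFrobenius_def, iterateFrobenius_def]; exact hxy
    exact (iterateFrobenius F r k).injective this
  obtain ⟨d, hd⟩ := (Finite.injective_iff_surjective.1 hinj) (c : F)
  have hd0 : d ≠ 0 := by
    rintro rfl
    have : (0 : F) ^ r ^ k = 0 := zero_pow (pow_ne_zero k (Fact.out : r.Prime).ne_zero)
    simp only [this] at hd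
    exact c.ne_zero hd.symm
  exact ⟨Units.mk0 d hd0, Units.ext hd⟩

theorem eq_one_of_pow {F : Type*} [Field F] (r : ℕ) [Fact r.Prime] [CharP F r] {k : ℕ} {c : Fˣ} (h : c ^ r ^ k = 1) : c = 1 := by
  apply Units.ext
  have h1 : (iterateFrobenius F r k) (c : F) = (iterateFrobenius F r k) 1 := by
    rw [iterateFrobenius_def, iterateFrobenius_def, one_pow, ← Units.val_pow_eq_pow_val, h, Units.val_one]
  exact (iterateFrobenius F r k).injective h1

theorem scalar_pow (c : Fˣ) (k : ℕ) :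
    (Matrix.GeneralLinearGroup.scalar (Fin n) c) ^ k = Matrix.GeneralLinearGroup.scalar (Fin n) (c ^ k) := (map_pow _ _ _).symm

theorem scalar_comm (c : Fˣ) (g : GL (Fin n) F) :
    g * Matrix.GeneralLinearGroup.scalar (Fin n) c = Matrix.GeneralLinearGroup.scalar (Fin n) c * g := by
  have := scalar_mem_center (n := n) c
  exact Subgroup.mem_center_iff.1 this g

/-- lifting elements of `r`-power order -/
theorem exists_lift [Finite F] (hn : 2 ≤ n) (r : ℕ) [Fact r.Prime] [CharP F r] {k : ℕ} (g : GL (Fin n) F)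
    (h : (diagHom n F g) ^ r ^ k = 1) : ∃ g' : GL (Fin n) F, diagHom n F g' = diagHom n F g ∧ g' ^ r ^ k = 1 := by
  rw [← map_pow, ← map_one (diagHom n F), diagHom_eq_iff hn] at h
  obtain ⟨c, hc⟩ := h
  rw [one_mul] at hc
  obtain ⟨d, hd⟩ := exists_root F r k c⁻¹
  refine ⟨g * Matrix.GeneralLinearGroup.scalar (Fin n) d, (diagHom_eq_iff hn _ _).2 ⟨d, rfl⟩, ?_⟩
  rw [Commute.mul_pow (scalar_comm d g), hc, scalar_pow, hd, ← map_mul, mul_inv_cancel, map_one]

theorem det_of_pow (r : ℕ) [Fact r.Prime] [CharP F r] {k : ℕ} {g : GL (Fin n) F} (h : g ^ r ^ k = 1) :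
    Matrix.GeneralLinearGroup.det g = 1 := by
  apply eq_one_of_pow r (k := k)
  rw [← map_pow, h, map_one]

/-- elements of `r`-power order are inner -/
theorem mem_of_pow [Finite F] (hn : 2 ≤ n) (r : ℕ) [Fact r.Prime] [CharP F r]
    (𝒢 : Subgroup (MulAut (Matrix.ProjectiveSpecialLinearGroup (Fin n) F)))
    (hinn : ∀ k : Matrix.ProjectiveSpecialLinearGroup (Fin n) F, MulAut.conj k ∈ 𝒢) :
    ∀ x ∈ (diagHom n F).range, (∃ k : ℕ, x ^ r ^ k = 1) → x ∈ 𝒢 := by
  rintro _ ⟨g, rfl⟩ ⟨k, hk⟩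
  obtain ⟨g', h1, h2⟩ := exists_lift hn r g hk
  have h3 : diagHom n F g' ∈ Cfsg.Inn (Matrix.ProjectiveSpecialLinearGroup (Fin n) F) := by
    rw [diagHom_mem_inn hn]
    exact ⟨1, by rw [det_of_pow r h2, one_pow]⟩
  rw [h1] at h3
  obtain ⟨t, ht⟩ := h3
  rw [← ht]
  exact hinn t

/-- elements of `M` come from products of unipotent matrices -/
theorem MM_lift [Finite F] (hn : 2 ≤ n) (r : ℕ) [Fact r.Prime] [CharP F r]
    (β : MulAut (Matrix.ProjectiveSpecialLinearGroup (Fin n) F)) :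
    MM r (diagHom n F).range β ≤
      (Subgroup.closure {g : GL (Fin n) F | (∃ k : ℕ, g ^ r ^ k = 1) ∧ diagHom n F g * β = β * diagHom n F g}).map (diagHom n F) := by
  rw [MM, Subgroup.closure_le]
  rintro _ ⟨⟨g, rfl⟩, h2, k, h3⟩
  obtain ⟨g', h4, h5⟩ := exists_lift hn r g h3
  exact ⟨g', Subgroup.subset_closure ⟨⟨k, h5⟩, by rw [h4]; exact h2⟩, h4⟩

/-- commuting with a unipotent element -/
theorem commute_unip [Finite F] (hn : 2 ≤ n) (r : ℕ) [Fact r.Prime] [CharP F r] {g m : GL (Fin n) F} {τ : F ≃+* F} {k : ℕ}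
    (hm : m ^ r ^ k = 1) (h : cAut g τ * diagHom n F m = diagHom n F m * cAut g τ) : g * mapGL τ m = m * g := by
  rw [diagHom_apply, cAut_mul, cAut_mul, cAut_eq_iff (by rw [Fintype.card_fin]; exact hn)] at h
  obtain ⟨-, c, hc⟩ := h
  have e1 : mapGL (RingEquiv.refl F) g = g := by apply Units.ext; ext i j; rfl
  rw [e1] at hc
  have h1 : g * mapGL τ m * g⁻¹ = m * Matrix.GeneralLinearGroup.scalar (Fin n) c := by
    rw [hc, mul_assoc m g, scalar_comm c g, mul_assoc m, mul_inv_cancel_right]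
  have h2 : (g * mapGL τ m * g⁻¹) ^ r ^ k = 1 := by
    rw [conj_pow, ← map_pow, hm, map_one, mul_one, mul_inv_cancel]
  rw [h1, Commute.mul_pow (scalar_comm c m), hm, one_mul, scalar_pow, ← map_one (Matrix.GeneralLinearGroup.scalar (Fin n) : Fˣ →* _)] at h2
  have h3 := eq_one_of_pow r (scalar_injective (n := n) (by omega) h2)
  rw [h3, map_one, mul_one] at h1
  rw [mul_inv_eq_iff_eq_mul] at h1
  exact h1

/-- automorphisms of odd order are semilinear -/
theorem semilinear_of_odd [Finite F] (hn : 2 ≤ n) {x : MulAut (Matrix.ProjectiveSpecialLinearGroup (Fin n) F)}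
    (h : (orderOf x).Coprime 2) : ∃ (g : GL (Fin n) F) (τ : F ≃+* F), x = cAut g τ ∧ Odd (orderOf (τ : RingAut F)) := by
  have hodd : Odd (orderOf x) := Nat.coprime_two_right.1 h
  rcases typeHom_spec hn x with ⟨_, g, h2⟩ | ⟨h1, h3, g, h2⟩
  · refine ⟨g, _, h2, ?_⟩
    have h4 : (typeHom hn x).1 ^ orderOf x = 1 := by
      rw [← Prod.pow_fst, ← map_pow, pow_orderOf_eq_one, map_one]; rfl
    exact hodd.of_dvd_nat (orderOf_dvd_of_pow_eq_one h4)
  · exfalso
    have h4 : (typeHom hn x).2 ^ orderOf x = 1 := by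
      rw [← Prod.pow_snd, ← map_pow, pow_orderOf_eq_one, map_one]; rfl
    have h5 := orderOf_dvd_of_pow_eq_one h4
    have h6 : orderOf (typeHom hn x).2 = 2 := by
      have : ∀ z : Multiplicative (ZMod 2), z ≠ 1 → z ^ 2 = 1 := by decide
      exact orderOf_eq_prime (this _ h1) h1
    rw [h6] at h5
    exact (Nat.not_even_iff_odd.2 hodd) (even_iff_two_dvd.2 h5)

/-- a semilinear automorphism acting as a scalar on a spanning set with trivial field automorphism is trivial -/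
theorem cAut_eq_one_of_smul (hn : 2 ≤ n) {g : GL (Fin n) F} {α : F} (h : (g : Matrix (Fin n) (Fin n) F) = α • (1 : Matrix _ _ F)) :
    cAut g (RingEquiv.refl F) = 1 := by
  rw [cAut_eq_one_iff (by rw [Fintype.card_fin]; exact hn)]
  have hα : α ≠ 0 := by
    rintro rfl
    rw [zero_smul] at h
    have h1 := g.det_ne_zero
    have : Nonempty (Fin n) := ⟨⟨0, by omega⟩⟩
    rw [h, Matrix.det_zero] at h1
    exact h1 rfl
  refine ⟨rfl, Units.mk0 α hα, ?_⟩
  apply Units.ext
  rw [h, Matrix.GeneralLinearGroup.coe_scalar, Matrix.scalar_apply, Matrix.smul_one_eq_diagonal]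
  rfl

/-- odd powers are scalar -/
theorem odd_scalar (hn : 2 ≤ n) {p : ℕ} {Y : Subgroup (MulAut (Matrix.ProjectiveSpecialLinearGroup (Fin n) F))} [Finite Y] (hc : (Nat.card Y).Coprime 2)
    (g : GL (Fin n) F) (hg : g ∈ Y.comap (diagHom n F)) :
    ∃ m : ℕ, Odd m ∧ ∃ c : F, ((g ^ m : GL (Fin n) F) : Matrix (Fin n) (Fin n) F) = c • (1 : Matrix _ _ F) := by
  refine ⟨Nat.card Y, Nat.coprime_two_right.1 hc, ?_⟩
  have h1 : (diagHom n F g) ^ Nat.card Y = 1 := by
    have := pow_card_eq_one' (x := (⟨diagHom n F g, hg⟩ : Y))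
    exact congrArg Subtype.val this
  rw [← map_pow, diagHom_apply, cAut_eq_one_iff (by rw [Fintype.card_fin]; exact hn)] at h1
  obtain ⟨-, c, hc⟩ := h1
  refine ⟨c, ?_⟩
  rw [hc, Matrix.GeneralLinearGroup.coe_scalar, Matrix.scalar_apply, Matrix.smul_one_eq_diagonal]

end Cfsg.Agent.LB
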