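import Mathlib

/-!
Commutators in `GL_2(2)` and `GL_2(3)`.
-/

set_option autoImplicit false

namespace Cfsg.Agent.LB

open Matrix

/-- adjugate of a 2x2 matrix given by entries -/
def ad2 {R : Type*} [CommRing R] (M : R × R × R × R) : R × R × R × R := (M.2.2.2, -M.2.1, -M.2.2.1, M.1)
/-- product of 2x2 matrices given by entries -/
def mu2 {R : Type*} [CommRing R] (M N : R × R × R × R) : R × R × R × R :=
  (M.1 * N.1 + M.2.1 * N.2.2.1, M.1 * N.2.1 + M.2.1 * N.2.2.2, M.2.2.1 * N.1 + M.2.2.2 * N.2.2.1, M.2.2.1 * N.2.1 + M.2.2.2 * N.2.2.2)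
/-- scalar -/
def sc2 {R : Type*} [CommRing R] (M : R × R × R × R) : Prop := M.2.1 = 0 ∧ M.2.2.1 = 0 ∧ M.1 = M.2.2.2
instance {R : Type*} [CommRing R] [DecidableEq R] (M : R × R × R × R) : Decidable (sc2 M) := by unfold sc2; infer_instance

/-- the commutator -/
def co2 {R : Type*} [CommRing R] (M N : R × R × R × R) : R × R × R × R := mu2 (mu2 (mu2 M N) (ad2 M)) (ad2 N)

theorem dec3 : ∀ a b c d : ZMod 3, a * d - b * c ≠ 0 → ¬ sc2 (a, b, c, d) →
    ∃ x y z u : ZMod 3, x * u - y * z = 1 ∧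
      sc2 (mu2 (co2 (a,b,c,d) (x,y,z,u)) (co2 (a,b,c,d) (x,y,z,u))) ∧ ¬ sc2 (co2 (a,b,c,d) (x,y,z,u)) := by
  decide +kernel

theorem dec2 : ∀ a b c d : ZMod 2, a * d - b * c ≠ 0 → ¬ sc2 (a, b, c, d) →
    ∃ x y z u : ZMod 2, x * u - y * z = 1 ∧
      sc2 (mu2 (co2 (a,b,c,d) (x,y,z,u)) (mu2 (co2 (a,b,c,d) (x,y,z,u)) (co2 (a,b,c,d) (x,y,z,u)))) ∧
      ¬ sc2 (co2 (a,b,c,d) (x,y,z,u)) := by
  decide +kernel

section
variable {R R' : Type*} [CommRing R] [CommRing R'] (e : R ≃+* R')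

/-- the matrix -/
def toM (M : R × R × R × R) : Matrix (Fin 2) (Fin 2) R := !![M.1, M.2.1; M.2.2.1, M.2.2.2]

theorem toM_mul (M N : R × R × R × R) : toM (mu2 M N) = toM M * toM N := by
  rw [toM, toM, toM, Matrix.mul_fin_two]; rfl

theorem toM_ad (M : R × R × R × R) : toM (ad2 M) = (toM M).adjugate := by
  rw [toM, toM, Matrix.adjugate_fin_two_of]; rfl

theorem toM_sc {M : R × R × R × R} : sc2 M ↔ ∃ c : R, toM M = c • (1 : Matrix _ _ R) := by
  constructor
  · rintro ⟨h1, h2, h3⟩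
    refine ⟨M.1, ?_⟩
    ext i j
    fin_cases i <;> fin_cases j <;> simp [toM, h1, h2, h3]
  · rintro ⟨c, hc⟩
    have h00 := congrFun (congrFun hc 0) 0
    have h01 := congrFun (congrFun hc 0) 1
    have h10 := congrFun (congrFun hc 1) 0
    have h11 := congrFun (congrFun hc 1) 1
    simp [toM] at h00 h01 h10 h11
    exact ⟨h01, h10, by rw [h00, h11]⟩

/-- transport -/
def em (M : R × R × R × R) : R' × R' × R' × R' := (e M.1, e M.2.1, e M.2.2.1, e M.2.2.2)

theorem em_mu (M N : R × R × R × R) : em e (mu2 M N) = mu2 (em e M) (em e N) := by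
  simp [em, mu2]

theorem em_ad (M : R × R × R × R) : em e (ad2 M) = ad2 (em e M) := by
  simp [em, ad2]

theorem em_co (M N : R × R × R × R) : em e (co2 M N) = co2 (em e M) (em e N) := by
  rw [co2, em_mu, em_mu, em_mu, em_ad, em_ad]; rfl

theorem em_sc (M : R × R × R × R) : sc2 (em e M) ↔ sc2 M := by
  simp [em, sc2]

end

/-- **commutators in small groups** -/
theorem small_case {K : Type*} [Field K] [Fintype K] {p : ℕ}
    (h : (Fintype.card K = 2 ∧ p = 3) ∨ (Fintype.card K = 3 ∧ p = 2)) (g : GL (Fin 2) K)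
    (hg : ¬ ∃ c : K, (g : Matrix (Fin 2) (Fin 2) K) = c • (1 : Matrix _ _ K)) :
    ∃ t : Matrix.SpecialLinearGroup (Fin 2) K,
      (∃ c : K, (((g * Matrix.SpecialLinearGroup.toGL t * g⁻¹ * (Matrix.SpecialLinearGroup.toGL t)⁻¹) ^ p : GL (Fin 2) K) :
        Matrix (Fin 2) (Fin 2) K) = c • (1 : Matrix _ _ K)) ∧
      ¬ ∃ c : K, ((g * Matrix.SpecialLinearGroup.toGL t * g⁻¹ * (Matrix.SpecialLinearGroup.toGL t)⁻¹ : GL (Fin 2) K) :
        Matrix (Fin 2) (Fin 2) K) = c • (1 : Matrix _ _ K) := by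
  set a := (g : Matrix (Fin 2) (Fin 2) K) 0 0 with ha
  set b := (g : Matrix (Fin 2) (Fin 2) K) 0 1 with hb
  set c := (g : Matrix (Fin 2) (Fin 2) K) 1 0 with hc
  set d := (g : Matrix (Fin 2) (Fin 2) K) 1 1 with hd
  have hgM : (g : Matrix (Fin 2) (Fin 2) K) = toM (a, b, c, d) := by
    ext i j; fin_cases i <;> fin_cases j <;> rfl
  have hdet : a * d - b * c = (g : Matrix (Fin 2) (Fin 2) K).det := by rw [Matrix.det_fin_two]
  have hdet0 : (g : Matrix (Fin 2) (Fin 2) K).det ≠ 0 := g.det_ne_zero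
  have hns : ¬ sc2 (a, b, c, d) := by rw [toM_sc, ← hgM]; exact hg
  -- the general construction
  have main : ∀ x y z u : K, x * u - y * z = 1 → (∃ s : K, (toM (co2 (a, b, c, d) (x, y, z, u))) ^ p = s • (1 : Matrix _ _ K)) →
      ¬ sc2 (co2 (a, b, c, d) (x, y, z, u)) → ∃ t : Matrix.SpecialLinearGroup (Fin 2) K,
      (∃ c : K, (((g * Matrix.SpecialLinearGroup.toGL t * g⁻¹ * (Matrix.SpecialLinearGroup.toGL t)⁻¹) ^ p : GL (Fin 2) K) :
        Matrix (Fin 2) (Fin 2) K) = c • (1 : Matrix _ _ K)) ∧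
      ¬ ∃ c : K, ((g * Matrix.SpecialLinearGroup.toGL t * g⁻¹ * (Matrix.SpecialLinearGroup.toGL t)⁻¹ : GL (Fin 2) K) :
        Matrix (Fin 2) (Fin 2) K) = c • (1 : Matrix _ _ K) := by
    rintro x y z u hxu ⟨s, hs⟩ hn
    have hdt : (toM (x, y, z, u)).det = 1 := by rw [toM, Matrix.det_fin_two_of]; exact hxu
    let t : Matrix.SpecialLinearGroup (Fin 2) K := ⟨toM (x, y, z, u), hdt⟩
    have ht1 : ((Matrix.SpecialLinearGroup.toGL t : GL (Fin 2) K) : Matrix (Fin 2) (Fin 2) K) = toM (x, y, z, u) := rfl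
    have ht2 : (((Matrix.SpecialLinearGroup.toGL t)⁻¹ : GL (Fin 2) K) : Matrix (Fin 2) (Fin 2) K) = toM (ad2 (x, y, z, u)) := by
      rw [← map_inv, toM_ad]
      change ((t⁻¹ : Matrix.SpecialLinearGroup (Fin 2) K) : Matrix (Fin 2) (Fin 2) K) = _
      rw [Matrix.SpecialLinearGroup.coe_inv]
    have hg2 : (((g⁻¹ : GL (Fin 2) K) : Matrix (Fin 2) (Fin 2) K)) = ((g : Matrix (Fin 2) (Fin 2) K).det)⁻¹ • toM (ad2 (a, b, c, d)) := by
      rw [toM_ad, ← hgM, Matrix.coe_units_inv, Matrix.inv_def, Ring.inverse_eq_inv']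
    have hW : ((g * Matrix.SpecialLinearGroup.toGL t * g⁻¹ * (Matrix.SpecialLinearGroup.toGL t)⁻¹ : GL (Fin 2) K) :
        Matrix (Fin 2) (Fin 2) K) = ((g : Matrix (Fin 2) (Fin 2) K).det)⁻¹ • toM (co2 (a, b, c, d) (x, y, z, u)) := by
      rw [co2, toM_mul, toM_mul, toM_mul, Units.val_mul, Units.val_mul, Units.val_mul, ht1, ht2, hg2, ← hgM]
      rw [Matrix.mul_smul, Matrix.smul_mul]
    refine ⟨t, ⟨(((g : Matrix (Fin 2) (Fin 2) K).det)⁻¹) ^ p * s, ?_⟩, ?_⟩
    · rw [Units.val_pow_eq_pow_val, hW, smul_pow, hs, smul_smul]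
    · rintro ⟨e, he⟩
      apply hn
      rw [toM_sc]
      refine ⟨(g : Matrix (Fin 2) (Fin 2) K).det * e, ?_⟩
      rw [hW] at he
      rw [mul_smul, ← he, smul_smul, mul_inv_cancel₀ hdet0, one_smul]
  rcases h with ⟨hK, rfl⟩ | ⟨hK, rfl⟩
  · obtain ⟨e⟩ : Nonempty (ZMod 2 ≃+* K) := ⟨ZMod.ringEquivOfPrime K Nat.prime_two hK⟩
    have h1 : e.symm a * e.symm d - e.symm b * e.symm c ≠ 0 := by
      rw [← map_mul, ← map_mul, ← map_sub, hdet, Ne, map_eq_zero_iff _ e.symm.injective]; exact hdet0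
    have h2 : ¬ sc2 (e.symm a, e.symm b, e.symm c, e.symm d) := by
      have := em_sc e.symm (a, b, c, d)
      rw [em] at this
      rw [this]; exact hns
    obtain ⟨x, y, z, u, h3, h4, h5⟩ := dec2 _ _ _ _ h1 h2
    have hem : em e (e.symm a, e.symm b, e.symm c, e.symm d) = (a, b, c, d) := by simp [em]
    refine main (e x) (e y) (e z) (e u) (by rw [← map_mul, ← map_mul, ← map_sub, h3, map_one]) ?_ ?_
    · rw [← em_sc e, em_mu, em_mu, em_co, hem, toM_sc, toM_mul, toM_mul] at h4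
      obtain ⟨s, hs⟩ := h4
      refine ⟨s, ?_⟩
      rw [pow_succ', pow_two]
      exact hs
    · rw [← em_sc e, em_co, hem] at h5
      exact h5
  · have : Fact (Nat.Prime 3) := ⟨Nat.prime_three⟩
    obtain ⟨e⟩ : Nonempty (ZMod 3 ≃+* K) := ⟨ZMod.ringEquivOfPrime K Nat.prime_three hK⟩
    have h1 : e.symm a * e.symm d - e.symm b * e.symm c ≠ 0 := by
      rw [← map_mul, ← map_mul, ← map_sub, hdet, Ne, map_eq_zero_iff _ e.symm.injective]; exact hdet0
    have h2 : ¬ sc2 (e.symm a, e.symm b, e.symm c, e.symm d) := by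
      have := em_sc e.symm (a, b, c, d)
      rw [em] at this
      rw [this]; exact hns
    obtain ⟨x, y, z, u, h3, h4, h5⟩ := dec3 _ _ _ _ h1 h2
    have hem : em e (e.symm a, e.symm b, e.symm c, e.symm d) = (a, b, c, d) := by simp [em]
    refine main (e x) (e y) (e z) (e u) (by rw [← map_mul, ← map_mul, ← map_sub, h3, map_one]) ?_ ?_
    · rw [← em_sc e, em_mu, em_co, hem, toM_sc, toM_mul] at h4
      obtain ⟨s, hs⟩ := h4
      refine ⟨s, ?_⟩
      rw [pow_two]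
      exact hs
    · rw [← em_sc e, em_co, hem] at h5
      exact h5

/-- elements of order `p` modulo scalars in `SL_n(K)` if `p ∣ |K| - 1` -/
theorem exists_elt {K : Type*} [Field K] [Fintype K] {n : ℕ} (hn : 2 ≤ n) {p : ℕ} (hp : p.Prime) (hd : p ∣ Fintype.card K - 1) :
    ∃ s : Matrix.SpecialLinearGroup (Fin n) K, (∃ c : K, ((s ^ p : Matrix.SpecialLinearGroup (Fin n) K) : Matrix (Fin n) (Fin n) K) = c • (1 : Matrix _ _ K)) ∧
      ¬ ∃ c : K, (s : Matrix (Fin n) (Fin n) K) = c • (1 : Matrix _ _ K) := by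
  classical
  obtain ⟨m, rfl⟩ : ∃ m, n = m + 2 := ⟨n - 2, by omega⟩
  by_cases hsp : m = 0 ∧ p = 2
  · obtain ⟨rfl, rfl⟩ := hsp
    let s : Matrix.SpecialLinearGroup (Fin (0 + 2)) K := ⟨!![0, 1; -1, 0], by rw [Matrix.det_fin_two_of]; ring⟩
    refine ⟨s, ⟨-1, ?_⟩, ?_⟩
    · rw [Matrix.SpecialLinearGroup.coe_pow]
      change (!![0, 1; -1, 0] : Matrix (Fin 2) (Fin 2) K) ^ 2 = _
      rw [pow_two, Matrix.mul_fin_two]
      ext i j; fin_cases i <;> fin_cases j <;> simp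
    · rintro ⟨c, hc⟩
      change (!![0, 1; -1, 0] : Matrix (Fin 2) (Fin 2) K) = _ at hc
      have := congrFun (congrFun hc 0) 1
      simp at this
  · obtain ⟨ζ, hζ⟩ : ∃ ζ : Kˣ, orderOf ζ = p := by
      have : Fact p.Prime := ⟨hp⟩
      apply exists_prime_orderOf_dvd_card' p
      rwa [Nat.card_eq_fintype_card, Fintype.card_units]
    let D : Fin (m + 2) → K := Fin.cons (ζ : K) (Fin.cons ((ζ⁻¹ : Kˣ) : K) (fun _ => 1))
    have hD : (Matrix.diagonal D).det = 1 := by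
      rw [Matrix.det_diagonal, Fin.prod_univ_succ, Fin.prod_univ_succ]
      simp [D]
    have hζp : (ζ : K) ^ p = 1 := by
      rw [← Units.val_pow_eq_pow_val, ← hζ, pow_orderOf_eq_one, Units.val_one]
    have hζp' : ((ζ⁻¹ : Kˣ) : K) ^ p = 1 := by
      rw [← Units.val_pow_eq_pow_val, inv_pow, ← hζ, pow_orderOf_eq_one, inv_one, Units.val_one]
    let s : Matrix.SpecialLinearGroup (Fin (m + 2)) K := ⟨Matrix.diagonal D, hD⟩
    refine ⟨s, ⟨1, ?_⟩, ?_⟩
    · rw [Matrix.SpecialLinearGroup.coe_pow]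
      change (Matrix.diagonal D) ^ p = _
      rw [Matrix.diagonal_pow, one_smul, ← Matrix.diagonal_one]
      congr 1
      ext i
      refine Fin.cases ?_ (fun i => ?_) i
      · simpa [D] using hζp
      · refine Fin.cases ?_ (fun i => ?_) i
        · simpa [D] using hζp'
        · simp [D]
    · rintro ⟨c, hc⟩
      change Matrix.diagonal D = c • 1 at hc
      have h0 := congrFun (congrFun hc 0) 0
      have h1 := congrFun (congrFun hc 1) 1
      rw [Matrix.diagonal_apply_eq, Matrix.smul_apply, Matrix.one_apply_eq, smul_eq_mul, mul_one] at h0 h1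
      have e0 : D 0 = ζ := rfl
      have e1 : D 1 = ((ζ⁻¹ : Kˣ) : K) := rfl
      rw [e0] at h0
      rw [e1] at h1
      have hζ2 : ζ = ζ⁻¹ := Units.ext (by rw [h0, h1])
      have hζ3 : ζ ^ 2 = 1 := by rw [pow_two]; conv_lhs => enter [1]; rw [hζ2]
                                 exact inv_mul_cancel ζ
      have hp2 : p = 2 := by
        have := orderOf_dvd_of_pow_eq_one hζ3
        rw [hζ] at this
        exact (Nat.prime_dvd_prime_iff_eq hp Nat.prime_two).1 this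
      have hm : m ≠ 0 := fun hm => hsp ⟨hm, hp2⟩
      obtain ⟨m', rfl⟩ : ∃ m', m = m' + 1 := ⟨m - 1, by omega⟩
      have h2 := congrFun (congrFun hc 2) 2
      rw [Matrix.diagonal_apply_eq, Matrix.smul_apply, Matrix.one_apply_eq, smul_eq_mul, mul_one] at h2
      have e2 : D 2 = 1 := rfl
      rw [e2] at h2
      have : ζ = 1 := Units.ext (by rw [h0, ← h2, Units.val_one])
      rw [this, orderOf_one] at hζ
      exact hp.one_lt.ne hζ

end Cfsg.Agent.LB
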