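import Cfsg.Agent.LB.PslG
import Cfsg.Agent.LB.Small
import Cfsg.Agent.S2540
import Cfsg.Agent.AutPSU.Lang

/-!
Local balance criterion for `PSL_n(q)`: field automorphisms.
-/

set_option autoImplicit false

namespace Cfsg.Agent.LB

open Matrix Cfsg.Agent.AutPSL Cfsg.Agent.AutLie

variable {F : Type*} [Field F] {n : ℕ}

open Cfsg.Agent.AutPSU (fixF)

theorem mem_fixF {σ : F ≃+* F} {x : F} : x ∈ fixF σ ↔ σ x = x := Iff.rfl

/-- Galois theory -/
theorem gal [Finite F] {σ τ : RingAut F} (h : ∀ x, σ x = x → τ x = x) : τ ∈ Subgroup.zpowers σ := by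
  have hfin : Finite (RingAut F) :=
    Finite.of_injective (fun τ : RingAut F => (τ : F → F)) (fun a b h => RingEquiv.ext (congrFun h))
  let G := Subgroup.zpowers σ
  have hb := FixedPoints.toAlgAut_bijective (↥G) F
  have hc : ∀ x : FixedPoints.subfield ↥G F, τ (x : F) = x := by
    intro x
    apply h
    exact x.2 ⟨σ, Subgroup.mem_zpowers σ⟩
  let τ' : F ≃ₐ[FixedPoints.subfield ↥G F] F := AlgEquiv.ofRingEquiv (f := (τ : F ≃+* F)) (fun x => hc x)
  obtain ⟨g, hg⟩ := hb.2 τ'
  have : (g : RingAut F) = τ := by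
    apply RingEquiv.ext
    intro x
    have := congrArg (fun f : F ≃ₐ[FixedPoints.subfield ↥G F] F => f x) hg
    exact this
  rw [← this]
  exact g.2

/-- transvections -/
def tv {i j : Fin n} (hij : i ≠ j) (a : F) : GL (Fin n) F :=
  ⟨Matrix.transvection i j a, Matrix.transvection i j (-a),
    by rw [Matrix.transvection_mul_transvection_same i j hij, add_neg_cancel, Matrix.transvection_zero],
    by rw [Matrix.transvection_mul_transvection_same i j hij, neg_add_cancel, Matrix.transvection_zero]⟩

theorem tv_pow {i j : Fin n} (hij : i ≠ j) (a : F) (m : ℕ) : tv hij a ^ m = tv hij (m * a) := by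
  induction m with
  | zero =>
    apply Units.ext
    rw [pow_zero, Nat.cast_zero, zero_mul]
    exact (Matrix.transvection_zero i j).symm
  | succ m ih =>
    rw [pow_succ, ih]
    apply Units.ext
    change Matrix.transvection i j _ * Matrix.transvection i j _ = Matrix.transvection i j _
    rw [Matrix.transvection_mul_transvection_same i j hij]
    congr 1; push_cast; ring

theorem tv_rpow {r : ℕ} [CharP F r] {i j : Fin n} (hij : i ≠ j) (a : F) : tv hij a ^ r ^ 1 = 1 := by
  rw [pow_one, tv_pow, CharP.cast_eq_zero, zero_mul]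
  exact Units.ext (Matrix.transvection_zero i j)

theorem mapGL_tv (τ : F ≃+* F) {i j : Fin n} (hij : i ≠ j) (a : F) : mapGL τ (tv hij a) = tv hij (τ a) := by
  apply Units.ext
  rw [coe_mapGL]
  change (Matrix.transvection i j a).map τ = Matrix.transvection i j (τ a)
  rw [Matrix.transvection, Matrix.transvection, Matrix.map_add _ (map_add τ), Matrix.map_one _ (map_zero τ) (map_one τ)]
  congr 1
  exact Matrix.map_single _ _ _ τ

theorem invTGL_tv {i j : Fin n} (hij : i ≠ j) (a : F) : invTGL (tv hij a) = tv hij.symm (-a) := by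
  apply Units.ext
  rw [coe_invTGL]
  change (Matrix.transvection i j (-a))ᵀ = Matrix.transvection j i (-a)
  rw [Matrix.transvection, Matrix.transvection, Matrix.transpose_add, Matrix.transpose_one, Matrix.transpose_single]

theorem mul_tv_apply (g : GL (Fin n) F) {i j : Fin n} (hij : i ≠ j) (a : F) (k l : Fin n) :
    ((g * tv hij a : GL (Fin n) F) : Matrix (Fin n) (Fin n) F) k l =
      (g : Matrix (Fin n) (Fin n) F) k l + if l = j then (g : Matrix (Fin n) (Fin n) F) k i * a else 0 := by
  rw [Units.val_mul]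
  change ((g : Matrix (Fin n) (Fin n) F) * (1 + Matrix.single i j a)) k l = _
  rw [Matrix.mul_add, Matrix.mul_one, Matrix.add_apply]
  congr 1
  split_ifs with h
  · subst h; rw [Matrix.mul_single_apply_same]
  · rw [Matrix.mul_single_apply_of_ne]; exact fun h' => h h'

theorem tv_mul_apply (g : GL (Fin n) F) {i j : Fin n} (hij : i ≠ j) (a : F) (k l : Fin n) :
    ((tv hij a * g : GL (Fin n) F) : Matrix (Fin n) (Fin n) F) k l =
      (g : Matrix (Fin n) (Fin n) F) k l + if k = i then a * (g : Matrix (Fin n) (Fin n) F) j l else 0 := by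
  rw [Units.val_mul]
  change ((1 + Matrix.single i j a) * (g : Matrix (Fin n) (Fin n) F)) k l = _
  rw [Matrix.add_mul, Matrix.one_mul, Matrix.add_apply]
  congr 1
  split_ifs with h
  · subst h; rw [Matrix.single_mul_apply_same]
  · rw [Matrix.single_mul_apply_of_ne]; exact fun h' => h h'

variable [Finite F]

omit [Finite F] in
theorem commute_phi_of_fixed {σ : RingAut F} {g : GL (Fin n) F} (h : mapGL σ g = g) :
    diagHom n F g * cAut 1 σ = cAut 1 σ * diagHom n F g := by
  rw [phi_comm, h]

theorem fixed_of_commute (hn : 2 ≤ n) (r : ℕ) [Fact r.Prime] [CharP F r] {σ : RingAut F} {g : GL (Fin n) F} {k : ℕ}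
    (hg : g ^ r ^ k = 1) (h : diagHom n F g * cAut 1 σ = cAut 1 σ * diagHom n F g) : mapGL σ g = g := by
  rw [phi_comm, mul_left_inj, eq_comm, diagHom_eq_iff hn] at h
  obtain ⟨c, hc⟩ := h
  have h2 : (mapGL σ g) ^ r ^ k = 1 := by rw [← map_pow, hg, map_one]
  rw [hc, Commute.mul_pow (scalar_comm c g), hg, one_mul, scalar_pow, ← map_one (Matrix.GeneralLinearGroup.scalar (Fin n) : Fˣ →* _)] at h2
  have h3 := eq_one_of_pow r (scalar_injective (n := n) (by omega) h2)
  rw [hc, h3, map_one, mul_one]

/-- the diagonal part -/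
theorem scalar_of_entries (hn : 2 ≤ n) {g : GL (Fin n) F} (h1 : ∀ k i : Fin n, k ≠ i → (g : Matrix (Fin n) (Fin n) F) k i = 0)
    (h2 : ∀ i j : Fin n, i ≠ j → (g : Matrix (Fin n) (Fin n) F) i i = (g : Matrix (Fin n) (Fin n) F) j j) :
    (g : Matrix (Fin n) (Fin n) F) = ((g : Matrix (Fin n) (Fin n) F) ⟨0, by omega⟩ ⟨0, by omega⟩) • (1 : Matrix _ _ F) := by
  ext i j
  rw [Matrix.smul_apply, smul_eq_mul]
  by_cases hij : i = j
  · subst hij
    rw [Matrix.one_apply_eq, mul_one]
    by_cases hi : i = ⟨0, by omega⟩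
    · rw [← hi]
    · exact h2 _ _ hi
  · rw [Matrix.one_apply_ne hij, mul_zero]; exact h1 _ _ hij

/-- the second condition for field automorphisms -/
theorem field_part2 (hn : 2 ≤ n) (r : ℕ) [Fact r.Prime] [CharP F r] {p : ℕ} (hp : p.Prime) {σ : RingAut F} (hσ : orderOf σ = p)
    (x : MulAut (Matrix.ProjectiveSpecialLinearGroup (Fin n) F)) (hox : (orderOf x).Coprime p)
    (hxm : ∀ m ∈ MM r (diagHom n F).range (cAut 1 σ), x * m = m * x) : x = 1 := by
  have hmem : ∀ {i j : Fin n} (hij : i ≠ j) (a : F), σ a = a → diagHom n F (tv hij a) ∈ MM r (diagHom n F).range (cAut 1 σ) := by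
    intro i j hij a ha
    refine mem_MM r _ _ ⟨_, rfl⟩ (commute_phi_of_fixed ?_) (k := 1) (by rw [← map_pow, tv_rpow, map_one])
    have := mapGL_tv (σ : F ≃+* F) hij a
    rw [this, ha]
  rcases typeHom_spec hn x with ⟨_, g, h2⟩ | ⟨h1, h3, g, h2⟩
  · set τ := (typeHom hn x).1 with hτ
    have key : ∀ {i j : Fin n} (hij : i ≠ j) (a : F), σ a = a → g * tv hij (τ a) = tv hij a * g := by
      intro i j hij a ha
      have h4 := hxm _ (hmem hij a ha)
      rw [h2] at h4
      have h5 := commute_unip hn r (tv_rpow (r := r) hij a) h4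
      rwa [mapGL_tv] at h5
    have key2 : ∀ {i j : Fin n} (hij : i ≠ j) (a : F), σ a = a → ∀ k l : Fin n,
        (if l = j then (g : Matrix (Fin n) (Fin n) F) k i * τ a else 0) = if k = i then a * (g : Matrix (Fin n) (Fin n) F) j l else 0 := by
      intro i j hij a ha k l
      have h4 := congrArg (fun z : GL (Fin n) F => (z : Matrix (Fin n) (Fin n) F) k l) (key hij a ha)
      simp only [mul_tv_apply, tv_mul_apply] at h4
      exact add_left_cancel h4
    have e1 : ∀ k i : Fin n, k ≠ i → (g : Matrix (Fin n) (Fin n) F) k i = 0 := by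
      intro k i hki
      have h4 := key2 (i := i) (j := k) hki.symm 1 (map_one σ) k k
      rw [if_pos rfl, if_neg hki, map_one, mul_one] at h4
      exact h4
    have e2 : ∀ i j : Fin n, i ≠ j → ∀ a, σ a = a → (g : Matrix (Fin n) (Fin n) F) i i * τ a = a * (g : Matrix (Fin n) (Fin n) F) j j := by
      intro i j hij a ha
      have h4 := key2 hij a ha i j
      rwa [if_pos rfl, if_pos rfl] at h4
    have e3 : ∀ i j : Fin n, i ≠ j → (g : Matrix (Fin n) (Fin n) F) i i = (g : Matrix (Fin n) (Fin n) F) j j := by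
      intro i j hij
      have := e2 i j hij 1 (map_one σ)
      rwa [map_one, mul_one, one_mul] at this
    have hsc := scalar_of_entries hn e1 e3
    have h0 : (g : Matrix (Fin n) (Fin n) F) ⟨0, by omega⟩ ⟨0, by omega⟩ ≠ 0 := by
      intro h0
      rw [h0, zero_smul] at hsc
      have h1 := g.det_ne_zero
      have : Nonempty (Fin n) := ⟨⟨0, by omega⟩⟩
      rw [hsc, Matrix.det_zero] at h1
      exact h1 rfl
    have hτσ : τ ∈ Subgroup.zpowers σ := by
      apply gal
      intro a ha
      have h01 : (⟨0, by omega⟩ : Fin n) ≠ ⟨1, by omega⟩ := by simp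
      have h4 := e2 _ _ h01 a ha
      rw [← e3 _ _ h01, mul_comm] at h4
      exact mul_right_cancel₀ h0 h4
    have hx1 : x = cAut 1 τ := by
      rw [h2, cAut_eq, show cAut g (RingEquiv.refl F) = 1 from cAut_eq_one_of_smul hn hsc, one_mul]
    have hxp : x ^ p = 1 := by
      have hτp : τ ^ p = 1 := by
        obtain ⟨k, hk⟩ := hτσ
        change σ ^ k = τ at hk
        rw [← hk, ← zpow_natCast, ← _root_.zpow_mul, mul_comm, _root_.zpow_mul, zpow_natCast, ← hσ, pow_orderOf_eq_one, _root_.one_zpow]
      rw [hx1]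
      have := cAut_one_pow (n := n) τ p
      rw [this, hτp]
      exact cAut_one
    have h5 := orderOf_dvd_of_pow_eq_one hxp
    exact orderOf_eq_one_iff.1 (Nat.eq_one_of_dvd_coprimes hox dvd_rfl h5)
  · exfalso
    set τ := (typeHom hn x).1 with hτ
    have key : ∀ {i j : Fin n} (hij : i ≠ j), g * tv hij.symm (-1) = tv hij 1 * g := by
      intro i j hij
      have h4 := hxm _ (hmem hij 1 (map_one σ))
      rw [h2, mul_assoc, diagHom_apply (tv hij 1), iAut_mul_cAut, ← mul_assoc, ← diagHom_apply, ← diagHom_apply, ← mul_assoc,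
        mul_left_inj, invTGL_tv, diagHom_apply, diagHom_apply, cAut_mul, cAut_mul,
        cAut_eq_iff (by rw [Fintype.card_fin]; exact hn)] at h4
      obtain ⟨-, c, hc⟩ := h4
      have e1 : mapGL (RingEquiv.refl F) g = g := by apply Units.ext; ext i j; rfl
      have e2 : mapGL τ (tv hij.symm (-1)) = tv hij.symm (-1) := by rw [mapGL_tv, map_neg, map_one]
      rw [e1, e2] at hc
      have h5 : g * tv hij.symm (-1) * g⁻¹ = tv hij 1 * Matrix.GeneralLinearGroup.scalar (Fin n) c := by
        rw [hc, mul_assoc _ g, scalar_comm c g, mul_assoc, mul_inv_cancel_right]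
      have h6 : (g * tv hij.symm (-1) * g⁻¹) ^ r ^ 1 = 1 := by
        rw [conj_pow, tv_rpow, mul_one, mul_inv_cancel]
      rw [h5, Commute.mul_pow (scalar_comm c _), tv_rpow, one_mul, scalar_pow,
        ← map_one (Matrix.GeneralLinearGroup.scalar (Fin n) : Fˣ →* _)] at h6
      have h7 := eq_one_of_pow r (scalar_injective (n := n) (by omega) h6)
      rw [hc, h7, map_one, mul_one]
    have hz : ∀ k j : Fin n, (g : Matrix (Fin n) (Fin n) F) k j = 0 := by
      intro k j
      obtain ⟨i, hij, hik⟩ : ∃ i : Fin n, i ≠ j ∧ i ≠ k := by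
        have : ∃ i : Fin n, i ∉ ({j, k} : Finset (Fin n)) := by
          by_contra hcon
          push Not at hcon
          have h5 : (Finset.univ : Finset (Fin n)) ⊆ {j, k} := fun i _ => hcon i
          have h6 := (Finset.card_le_card h5).trans Finset.card_le_two
          rw [Finset.card_univ, Fintype.card_fin] at h6
          omega
        obtain ⟨i, hi⟩ := this
        simp only [Finset.mem_insert, Finset.mem_singleton, not_or] at hi
        exact ⟨i, hi.1, hi.2⟩
      have h4 := congrArg (fun z : GL (Fin n) F => (z : Matrix (Fin n) (Fin n) F) k i) (key hij)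
      simp only [mul_tv_apply, tv_mul_apply] at h4
      have h5 := add_left_cancel h4
      rw [if_pos trivial, if_neg hik.symm] at h5
      rw [mul_neg, mul_one, neg_eq_zero] at h5
      exact h5
    have h1 := g.det_ne_zero
    have : Nonempty (Fin n) := ⟨⟨0, by omega⟩⟩
    have hg0 : (g : Matrix (Fin n) (Fin n) F) = 0 := by ext k j; exact hz k j
    rw [hg0, Matrix.det_zero] at h1
    exact h1 rfl

end Cfsg.Agent.LB
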