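import Cfsg.Agent.LB.PslF

/-!
Local balance criterion for `PSL_n(q)`: field automorphisms, the first condition.
-/

set_option autoImplicit false

namespace Cfsg.Agent.LB

open Matrix Cfsg.Agent.AutPSL Cfsg.Agent.AutLie

variable {F : Type*} [Field F] {n : ℕ}

open Cfsg.Agent.AutPSU (fixF)

theorem conj_eq_one (hn : 2 ≤ n) {k : Matrix.ProjectiveSpecialLinearGroup (Fin n) F} (h : MulAut.conj k = 1) : k = 1 := by
  obtain ⟨s, rfl⟩ := toPSL_surjective k
  rw [conj_toPSL, cAut_eq_one_iff (by rw [Fintype.card_fin]; exact hn)] at h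
  obtain ⟨-, c, hc⟩ := h
  refine (QuotientGroup.eq_one_iff s).2 ?_
  rw [Subgroup.mem_center_iff]
  intro t
  have h1 : Matrix.SpecialLinearGroup.toGL (t * s) = (Matrix.SpecialLinearGroup.toGL (s * t) : GL (Fin n) F) := by
    rw [map_mul, map_mul, hc, scalar_comm]
  exact Matrix.SpecialLinearGroup.toGL_injective h1

section psi

variable {K : Type*} [Field K] (j : K →+* F)

theorem map_scalar_of {w : GL (Fin n) K} {c : K} (h : (w : Matrix (Fin n) (Fin n) K) = c • (1 : Matrix _ _ K)) :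
    ((Matrix.GeneralLinearGroup.map j w : GL (Fin n) F) : Matrix (Fin n) (Fin n) F) = (j c) • (1 : Matrix _ _ F) := by
  ext i k
  change j ((w : Matrix (Fin n) (Fin n) K) i k) = _
  rw [h, Matrix.smul_apply, Matrix.smul_apply, smul_eq_mul, smul_eq_mul, map_mul]
  congr 1
  by_cases hik : i = k
  · subst hik; simp
  · rw [Matrix.one_apply_ne hik, Matrix.one_apply_ne hik, map_zero]

theorem psi_eq_one_of (hn : 2 ≤ n) {w : GL (Fin n) K} {c : K} (h : (w : Matrix (Fin n) (Fin n) K) = c • (1 : Matrix _ _ K)) :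
    diagHom n F (Matrix.GeneralLinearGroup.map j w) = 1 := cAut_eq_one_of_smul hn (map_scalar_of j h)

theorem of_psi_eq_one (hn : 2 ≤ n) {w : GL (Fin n) K} (h : diagHom n F (Matrix.GeneralLinearGroup.map j w) = 1) :
    ∃ c : K, (w : Matrix (Fin n) (Fin n) K) = c • (1 : Matrix _ _ K) := by
  rw [diagHom_apply, cAut_eq_one_iff (by rw [Fintype.card_fin]; exact hn)] at h
  obtain ⟨-, c, hc⟩ := h
  have h1 : ∀ i k, j ((w : Matrix (Fin n) (Fin n) K) i k) = if i = k then (c : F) else 0 := by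
    intro i k
    have := congrArg (fun z : GL (Fin n) F => (z : Matrix (Fin n) (Fin n) F) i k) hc
    change j ((w : Matrix (Fin n) (Fin n) K) i k) = _ at this
    rw [this, Matrix.GeneralLinearGroup.coe_scalar, Matrix.scalar_apply, Matrix.diagonal_apply]
  refine ⟨(w : Matrix (Fin n) (Fin n) K) ⟨0, by omega⟩ ⟨0, by omega⟩, ?_⟩
  ext i k
  apply j.injective
  rw [Matrix.smul_apply, smul_eq_mul, map_mul, h1, h1, if_pos rfl]
  by_cases hik : i = k
  · subst hik; simp
  · rw [if_neg hik, Matrix.one_apply_ne hik, map_zero, mul_zero]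

end psi

theorem not_dvd_of_mem {Γ : Type*} [Group Γ] {Y : Subgroup Γ} [Finite Y] {p : ℕ} (hp : p.Prime) (hc : (Nat.card Y).Coprime p)
    {y : Γ} (hy : y ∈ Y) (h1 : y ^ p = 1) : y = 1 := by
  have h2 : orderOf y ∣ p := orderOf_dvd_of_pow_eq_one h1
  have h3 : orderOf y ∣ Nat.card Y := Subgroup.orderOf_dvd_natCard Y hy
  exact orderOf_eq_one_iff.1 (Nat.eq_one_of_dvd_coprimes hc h3 h2)

/-- **field automorphisms** -/
theorem good_field [Finite F] (hn : 2 ≤ n) (r : ℕ) [Fact r.Prime] [CharP F r] {p : ℕ} (hp : p.Prime) (hpr : p ≠ r) {σ : RingAut F}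
    (hσ : orderOf σ = p)
    (hdvd : p ∣ Nat.card ↥(MonoidHom.eqLocus (cAut (1 : GL (Fin n) F) σ).toMonoidHom
      (MonoidHom.id (Matrix.ProjectiveSpecialLinearGroup (Fin n) F)))) :
    Good p r (diagHom n F).range (cAut 1 σ) := by
  classical
  have hpF : Fact p.Prime := ⟨hp⟩
  have hfinK : Finite (Matrix.ProjectiveSpecialLinearGroup (Fin n) F) := Quotient.finite _
  have hfin : Finite (MulAut (Matrix.ProjectiveSpecialLinearGroup (Fin n) F)) := inferInstance
  refine ⟨?_, fun x _ hox hxm => field_part2 hn r hp hσ x hox hxm⟩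
  intro Y hY hYc hYn
  let K : Type _ := ↥(fixF (σ : F ≃+* F))
  let j : K →+* F := (fixF (σ : F ≃+* F)).subtype
  have hj : ∀ x, σ x = x ↔ x ∈ Set.range j := by
    intro x
    constructor
    · intro hx; exact ⟨⟨x, hx⟩, rfl⟩
    · rintro ⟨y, rfl⟩; exact y.2
  have : Fintype F := Fintype.ofFinite F
  have : Fintype K := Fintype.ofFinite K
  let ψ : GL (Fin n) K →* MulAut (Matrix.ProjectiveSpecialLinearGroup (Fin n) F) :=
    (diagHom n F).comp (Matrix.GeneralLinearGroup.map j)
  have hψc : ∀ g, ψ g * cAut 1 σ = cAut 1 σ * ψ g := fun g => commute_phi_of_fixed (mapGL_map j (σ : F ≃+* F) hj g)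
  -- elements of `Y`
  have hYlift : ∀ y ∈ Y, ∃ g : GL (Fin n) K, ψ g = y := by
    intro y hy
    obtain ⟨g, hg, rfl⟩ := MM_lift hn r _ (hY hy)
    have hg2 : mapGL σ g = g := by
      have : Subgroup.closure {g : GL (Fin n) F | (∃ k : ℕ, g ^ r ^ k = 1) ∧
          diagHom n F g * cAut 1 σ = cAut 1 σ * diagHom n F g} ≤
          MonoidHom.eqLocus (mapGL (σ : F ≃+* F)).toMonoidHom (MonoidHom.id _) := by
        rw [Subgroup.closure_le]
        rintro g ⟨⟨k, hk⟩, h⟩
        exact fixed_of_commute hn r hk h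
      exact this hg
    obtain ⟨g0, hg0⟩ := exists_of_fixed j (σ : F ≃+* F) hj g hg2
    exact ⟨g0, by change diagHom n F (Matrix.GeneralLinearGroup.map j g0) = _; rw [hg0]⟩
  -- the element of order `p`
  obtain ⟨g0, hg0p, hg01⟩ : ∃ g0 : GL (Fin n) K, ψ g0 ^ p = 1 ∧ ψ g0 ≠ 1 := by
    have hpf : Fact p.Prime := ⟨hp⟩
    obtain ⟨k, hk⟩ := exists_prime_orderOf_dvd_card' p hdvd
    obtain ⟨s, hs⟩ := toPSL_surjective (k : Matrix.ProjectiveSpecialLinearGroup (Fin n) F)
    have hkord : orderOf (k : Matrix.ProjectiveSpecialLinearGroup (Fin n) F) = p := by rw [Subgroup.orderOf_coe, hk]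
    have hkfix : cAut 1 σ (k : Matrix.ProjectiveSpecialLinearGroup (Fin n) F) = k := k.2
    have hcj : MulAut.conj (k : Matrix.ProjectiveSpecialLinearGroup (Fin n) F) = diagHom n F (Matrix.SpecialLinearGroup.toGL s) := by
      rw [← hs, conj_toPSL]; rfl
    have hcomm : diagHom n F (Matrix.SpecialLinearGroup.toGL s) * cAut 1 σ = cAut 1 σ * diagHom n F (Matrix.SpecialLinearGroup.toGL s) := by
      rw [← hcj]
      ext x
      change (k : Matrix.ProjectiveSpecialLinearGroup (Fin n) F) * (cAut 1 σ x) * (k : Matrix.ProjectiveSpecialLinearGroup (Fin n) F)⁻¹ =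
        cAut 1 σ ((k : Matrix.ProjectiveSpecialLinearGroup (Fin n) F) * x * (k : Matrix.ProjectiveSpecialLinearGroup (Fin n) F)⁻¹)
      rw [map_mul, map_mul, map_inv, hkfix]
    obtain ⟨b, hb⟩ := (commute_phi_iff hn σ _).1 hcomm
    obtain ⟨g0, hg0⟩ := exists_of_fixed j (σ : F ≃+* F) hj _ hb
    have hψ : ψ g0 = MulAut.conj (k : Matrix.ProjectiveSpecialLinearGroup (Fin n) F) := by
      change diagHom n F (Matrix.GeneralLinearGroup.map j g0) = _
      rw [hg0, hcj]
      exact (diagHom_eq_iff hn _ _).2 ⟨b, rfl⟩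
    refine ⟨g0, ?_, ?_⟩
    · rw [hψ, ← map_pow, ← hkord, pow_orderOf_eq_one, map_one]
    · rw [hψ]
      intro h1
      have h2 := conj_eq_one hn h1
      rw [h2, orderOf_one] at hkord
      exact hp.one_lt.ne hkord
  -- the normalised subgroup
  let N : Subgroup (GL (Fin n) K) := Y.comap ψ
  have hNn : ∀ s : Matrix.SpecialLinearGroup (Fin n) K, ∀ g ∈ N,
      (Matrix.SpecialLinearGroup.toGL s) * g * (Matrix.SpecialLinearGroup.toGL s)⁻¹ ∈ N := by
    intro s g hg
    change ψ _ ∈ Y
    rw [map_mul, map_mul, map_inv]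
    exact hYn _ (hψc _) _ hg
  have hfinish : (∀ g ∈ N, ∃ c : K, (g : Matrix (Fin n) (Fin n) K) = c • (1 : Matrix (Fin n) (Fin n) K)) → Y = ⊥ := by
    intro h
    rw [eq_bot_iff]
    intro y hy
    obtain ⟨g, rfl⟩ := hYlift y hy
    obtain ⟨c, hc⟩ := h g hy
    exact psi_eq_one_of j hn hc
  by_cases hsm : n = 2 ∧ Fintype.card K ≤ 3
  · obtain ⟨rfl, hK3⟩ := hsm
    have hcharK : CharP K r := by
      exact (RingHom.charP_iff j j.injective r).2 inferInstance
    have hK2 : 2 ≤ Fintype.card K := Fintype.one_lt_card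
    have hrK : r ∣ Fintype.card K := (CharP.cast_eq_zero_iff K r _).1 (by simp)
    have hpd : p ∣ Nat.card (GL (Fin 2) K) := by
      have h1 : (ψ g0) ^ orderOf g0 = 1 := by rw [← map_pow, pow_orderOf_eq_one, map_one]
      have h2 : orderOf (ψ g0) = p := orderOf_eq_prime hg0p hg01
      have h3 := orderOf_dvd_of_pow_eq_one h1
      rw [h2] at h3
      exact h3.trans (orderOf_dvd_natCard g0)
    rw [Matrix.card_GL_field, Fin.prod_univ_two] at hpd
    have hcase : (Fintype.card K = 2 ∧ p = 3) ∨ (Fintype.card K = 3 ∧ p = 2) := by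
      have hr := (Fact.out : r.Prime)
      have hK : Fintype.card K = 2 ∨ Fintype.card K = 3 := by omega
      rcases hK with hK | hK
      · left
        refine ⟨hK, ?_⟩
        rw [hK] at hrK hpd
        have hr2 : r = 2 := (Nat.prime_dvd_prime_iff_eq hr Nat.prime_two).1 hrK
        have h6 : p ∣ 2 * 3 := by simpa using hpd
        rcases (Nat.Prime.dvd_mul hp).1 h6 with h | h
        · exact absurd ((Nat.prime_dvd_prime_iff_eq hp Nat.prime_two).1 h) (by rw [← hr2]; exact hpr)
        · exact (Nat.prime_dvd_prime_iff_eq hp Nat.prime_three).1 h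
      · right
        refine ⟨hK, ?_⟩
        rw [hK] at hrK hpd
        have hr2 : r = 3 := (Nat.prime_dvd_prime_iff_eq hr Nat.prime_three).1 hrK
        have h6 : p ∣ 2 ^ 4 * 3 := by simpa using hpd
        rcases (Nat.Prime.dvd_mul hp).1 h6 with h | h
        · exact (Nat.prime_dvd_prime_iff_eq hp Nat.prime_two).1 (hp.dvd_of_dvd_pow h)
        · exact absurd ((Nat.prime_dvd_prime_iff_eq hp Nat.prime_three).1 h) (by rw [← hr2]; exact hpr)
    apply hfinish
    intro g hg
    by_contra hns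
    obtain ⟨t, ⟨c, hc⟩, hnt⟩ := small_case hcase g hns
    have hw : g * Matrix.SpecialLinearGroup.toGL t * g⁻¹ * (Matrix.SpecialLinearGroup.toGL t)⁻¹ ∈ N := by
      have := N.mul_mem hg (hNn t _ (N.inv_mem hg))
      rwa [← mul_assoc, ← mul_assoc] at this
    apply hnt
    apply of_psi_eq_one j hn
    apply not_dvd_of_mem hp hYc (y := ψ _) hw
    rw [← map_pow]
    exact psi_eq_one_of j hn hc
  · rcases Cfsg.Agent.S2540.result n (by omega) hsm N hNn with h | h
    · exact hfinish h
    · exfalso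
      by_cases hpd : p ∣ Fintype.card K - 1
      · obtain ⟨s, ⟨c, hc⟩, hns⟩ := exists_elt (K := K) hn hp hpd
        have hsN : Matrix.SpecialLinearGroup.toGL s ∈ N := h ⟨s, rfl⟩
        apply hns
        apply of_psi_eq_one j hn (w := Matrix.SpecialLinearGroup.toGL s)
        apply not_dvd_of_mem hp hYc (y := ψ _) hsN
        rw [← map_pow, ← map_pow]
        exact psi_eq_one_of j hn hc
      · have hdet : (Matrix.GeneralLinearGroup.det (g0 ^ (Fintype.card K - 1)) : Kˣ) = 1 := by
          rw [map_pow]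
          have : Nat.card Kˣ = Fintype.card K - 1 := by rw [Nat.card_units, Nat.card_eq_fintype_card]
          rw [← this]
          exact pow_card_eq_one'
        have hmem : g0 ^ (Fintype.card K - 1) ∈ N := by
          apply h
          refine ⟨⟨((g0 ^ (Fintype.card K - 1) : GL (Fin n) K) : Matrix (Fin n) (Fin n) K), ?_⟩, Units.ext rfl⟩
          have := congrArg (Units.val) hdet
          rwa [Matrix.GeneralLinearGroup.val_det_apply, Units.val_one] at this
        have h1 : ψ g0 ^ (Fintype.card K - 1) = 1 := by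
          rw [← map_pow]
          apply not_dvd_of_mem hp hYc hmem
          rw [map_pow, ← pow_mul, mul_comm, pow_mul, hg0p, one_pow]
        have h2 := orderOf_dvd_of_pow_eq_one h1
        rw [orderOf_eq_prime hg0p hg01] at h2
        exact hpd h2

end Cfsg.Agent.LB
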