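import Cfsg.Agent.LB.Refl

/-!
Orthogonal groups in odd characteristic: maps fixing lines.
-/

set_option autoImplicit false

namespace Cfsg.Agent.LB

open Matrix

namespace RS

variable {F : Type*} [Field F] {n : ℕ} {S : RS F n}

section main

variable (h2 : (2 : F) ≠ 0)
  (h3 : ∀ v w : Fin n → F, ∃ x ∈ S.V, ∀ a b : F, x ≠ a • v + b • w)

include h2 h3 in
theorem exists_aniso : ∃ v ∈ S.V, S.h v v ≠ 0 := by
  obtain ⟨x, hx, hx0⟩ := h3 0 0
  have hx1 : x ≠ 0 := by
    have := hx0 0 0
    simpa using this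
  obtain ⟨y, hy, hxy⟩ := S.nondeg hx hx1
  change S.h x y ≠ 0 at hxy
  by_cases hxx : S.h x x = 0
  · by_cases hyy : S.h y y = 0
    · refine ⟨x + y, S.V.add_mem hx hy, ?_⟩
      rw [h_add_left, h_add_right hx hx hy, h_add_right hy hx hy, hxx, hyy, h_symm hy hx, zero_add, add_zero, ← two_mul]
      exact mul_ne_zero h2 hxy
    · exact ⟨y, hy, hyy⟩
  · exact ⟨x, hx, hxx⟩

theorem parallelogram {x y : Fin n → F} (hx : x ∈ S.V) (hy : y ∈ S.V) :
    S.h (x + y) (x + y) + S.h (x - y) (x - y) = 2 * S.h x x + 2 * S.h y y := by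
  rw [h_add_left, h_add_right hx hx hy, h_add_right hy hx hy, h_sub_left, h_sub_right hx hx hy, h_sub_right hy hx hy]
  ring

include h2 h3 in
/-- an isometry fixing all nonisotropic lines is a scalar -/
theorem scalar_of_fix {g : GL (Fin n) F} (hgi : Isom S g)
    (hfix : ∀ v ∈ S.V, S.h v v ≠ 0 → ∃ c : F, (g : Matrix (Fin n) (Fin n) F) *ᵥ v = c • v) :
    ∃ c : F, (g : Matrix (Fin n) (Fin n) F) = c • (1 : Matrix _ _ F) := by
  choose! c hc using hfix
  have key : ∀ v ∈ S.V, S.h v v ≠ 0 → ∀ x ∈ S.V, S.h ((g : Matrix (Fin n) (Fin n) F) *ᵥ x) v = c v * S.h x v := by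
    intro v hv hv0 x hx
    have h1 : g * S.R v hv0 = S.R v hv0 * g := by
      rw [conj_R hgi hv hv0 (hgv_ne hgi hv hv0)]
      congr 1
      apply Units.ext
      change S.rm _ = S.rm _
      have hcv0 : c v ≠ 0 := by
        intro h0
        have := hgv_ne hgi hv hv0
        rw [hc v hv hv0, h0, zero_smul, h_zero_left] at this
        exact this rfl
      -- `rm (c • v) = rm v`
      have hcv : S.h (c v • v) v = c v * S.h v v := h_smul_left _ _ _
      apply Matrix.mulVec_injective
      funext y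
      have hy : y ∈ Submodule.span F (S.V : Set (Fin n → F)) := by rw [S.span]; trivial
      induction hy using Submodule.span_induction with
      | zero => rw [Matrix.mulVec_zero, Matrix.mulVec_zero]
      | add x y _ _ hx hy => rw [Matrix.mulVec_add, Matrix.mulVec_add, hx, hy]
      | smul c x _ hx => rw [Matrix.mulVec_smul, Matrix.mulVec_smul, hx]
      | mem y hy =>
        have hgvV := hgi.1 v hv
        rw [rm_mulVec, rm_mulVec]
        congr 1
        rw [h_symm hy hgvV, hgi.2 v hv v hv, hc v hv hv0, h_smul_left, h_symm hv hy, smul_smul]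
        congr 1
        -- `c v ^ 2 = 1`
        have h5 := hgi.2 v hv v hv
        rw [h_symm hgvV hgvV] at h5
        have h6 : S.h ((g : Matrix (Fin n) (Fin n) F) *ᵥ v) ((g : Matrix (Fin n) (Fin n) F) *ᵥ v) = c v * (c v * S.h v v) := by
          conv_lhs => enter [2]; rw [hc v hv hv0]
          rw [h_smul_left, h_symm hv hgvV, hc v hv hv0, h_smul_left]
        rw [h6] at h5
        have h7 : c v * c v = 1 := by
          have : (c v * c v - 1) * S.h v v = 0 := by linear_combination h5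
          exact sub_eq_zero.1 ((mul_eq_zero.1 this).resolve_right hv0)
        linear_combination (2 / S.h v v * S.h y v) * h7
    have h4 := congrArg (fun z : GL (Fin n) F => (z : Matrix (Fin n) (Fin n) F) *ᵥ x) h1
    simp only [Units.val_mul, ← Matrix.mulVec_mulVec, R_mulVec, Matrix.mulVec_sub, Matrix.mulVec_smul, hc v hv hv0] at h4
    have h5 : (2 / S.h v v * S.h x v * c v - 2 / S.h v v * S.h ((g : Matrix (Fin n) (Fin n) F) *ᵥ x) v) • v = 0 := by
      rw [sub_smul, ← smul_smul]
      have := sub_right_injective h4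
      rw [this, sub_self]
    have hv' : v ≠ 0 := by rintro rfl; exact hv0 (h_zero_left _)
    have h6 := (smul_eq_zero.1 h5).resolve_right hv'
    field_simp at h6
    rw [mul_zero] at h6
    rcases mul_eq_zero.1 h6 with h | h
    · exact absurd h h2
    · linear_combination -h
  have hcc : ∀ v ∈ S.V, S.h v v ≠ 0 → ∀ w ∈ S.V, S.h w w ≠ 0 → S.h w v ≠ 0 → c v = c w := by
    intro v hv hv0 w hw hw0 hwv
    have h5 := key v hv hv0 w hw
    rw [hc w hw hw0, h_smul_left] at h5
    exact (mul_right_cancel₀ hwv h5).symm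
  have hconst : ∀ v ∈ S.V, S.h v v ≠ 0 → ∀ w ∈ S.V, S.h w w ≠ 0 → c v = c w := by
    intro v hv hv0 w hw hw0
    by_cases hwv : S.h w v = 0
    · have hvw : S.h v w = 0 := by rw [h_symm hv hw]; exact hwv
      obtain ⟨a, ha, hav, haw, haa⟩ := exists_perp h2 h3 hv hw hv0 (by rw [hvw]; simpa using mul_ne_zero hv0 hw0)
      by_cases hs : S.h (v + w) (v + w) = 0
      · have hu : v + w + a ∈ S.V := S.V.add_mem (S.V.add_mem hv hw) ha
        have hva : S.h v a = 0 := by rw [h_symm hv ha]; exact hav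
        have hwa : S.h w a = 0 := by rw [h_symm hw ha]; exact haw
        have huu : S.h (v + w + a) (v + w + a) ≠ 0 := by
          rw [h_add_left, h_add_right (S.V.add_mem hv hw) (S.V.add_mem hv hw) ha, h_add_right ha (S.V.add_mem hv hw) ha,
            h_add_right ha hv hw, hs, hav, haw, h_add_left, hva, hwa]
          simpa using haa
        have e1 := hcc v hv hv0 _ hu huu (by rw [h_add_left, h_add_left, hwv, hav]; simpa using hv0)
        have e2 := hcc w hw hw0 _ hu huu (by rw [h_add_left, h_add_left, hvw, haw]; simpa using hw0)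
        rw [e1, e2]
      · have e1 := hcc v hv hv0 _ (S.V.add_mem hv hw) hs (by rw [h_add_left, hwv]; simpa using hv0)
        have e2 := hcc w hw hw0 _ (S.V.add_mem hv hw) hs (by rw [h_add_left, hvw]; simpa using hw0)
        rw [e1, e2]
    · exact hcc v hv hv0 w hw hw0 hwv
  obtain ⟨v0, hv0V, hv00⟩ := exists_aniso h2 h3
  have hc1 : c v0 * c v0 = 1 := by
    have h5 := hgi.2 v0 hv0V v0 hv0V
    have hgvV := hgi.1 v0 hv0V
    have h6 : S.h ((g : Matrix (Fin n) (Fin n) F) *ᵥ v0) ((g : Matrix (Fin n) (Fin n) F) *ᵥ v0) = c v0 * (c v0 * S.h v0 v0) := by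
      conv_lhs => enter [2]; rw [hc v0 hv0V hv00]
      rw [h_smul_left, h_symm hv0V hgvV, hc v0 hv0V hv00, h_smul_left]
    rw [h6] at h5
    have : (c v0 * c v0 - 1) * S.h v0 v0 = 0 := by linear_combination h5
    exact sub_eq_zero.1 ((mul_eq_zero.1 this).resolve_right hv00)
  have hck : c v0 ∈ S.k := by
    have : (c v0 - 1) * (c v0 + 1) = 0 := by linear_combination hc1
    rcases mul_eq_zero.1 this with h | h
    · rw [sub_eq_zero.1 h]; exact S.k.one_mem
    · rw [eq_neg_of_add_eq_zero_left h]; exact S.k.neg_mem S.k.one_mem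
  have hall : ∀ x ∈ S.V, (g : Matrix (Fin n) (Fin n) F) *ᵥ x = c v0 • x := by
    intro x hx
    by_contra hne
    have he : (g : Matrix (Fin n) (Fin n) F) *ᵥ x - c v0 • x ∈ S.V := S.V.sub_mem (hgi.1 x hx) (S.smul_mem hck hx)
    obtain ⟨y, hy, hey⟩ := S.nondeg he (sub_ne_zero.2 hne)
    change S.h _ y ≠ 0 at hey
    have hz : ∀ v ∈ S.V, S.h v v ≠ 0 → S.h ((g : Matrix (Fin n) (Fin n) F) *ᵥ x - c v0 • x) v = 0 := by
      intro v hv hvv
      rw [h_sub_left, h_smul_left, key v hv hvv x hx, hconst v hv hvv v0 hv0V hv00, sub_self]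
    by_cases hyy : S.h y y = 0
    · have h5 := parallelogram hy hv0V
      by_cases h6 : S.h (y + v0) (y + v0) = 0
      · have h7 : S.h (y - v0) (y - v0) ≠ 0 := by
          intro h8; rw [h6, h8, hyy] at h5
          apply hv00
          have : 2 * S.h v0 v0 = 0 := by linear_combination -h5
          exact (mul_eq_zero.1 this).resolve_left h2
        have h8 := hz _ (S.V.sub_mem hy hv0V) h7
        rw [h_sub_right he hy hv0V, hz v0 hv0V hv00, sub_zero] at h8
        exact hey h8
      · have h8 := hz _ (S.V.add_mem hy hv0V) h6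
        rw [h_add_right he hy hv0V, hz v0 hv0V hv00, add_zero] at h8
        exact hey h8
    · exact hey (hz y hy hyy)
  refine ⟨c v0, ?_⟩
  apply Matrix.mulVec_injective
  funext y
  have hy : y ∈ Submodule.span F (S.V : Set (Fin n → F)) := by rw [S.span]; trivial
  rw [Matrix.smul_mulVec, Matrix.one_mulVec]
  induction hy using Submodule.span_induction with
  | zero => rw [Matrix.mulVec_zero, smul_zero]
  | add x y _ _ hx hy => rw [Matrix.mulVec_add, smul_add, hx, hy]
  | smul c x _ hx => rw [Matrix.mulVec_smul, hx, smul_comm]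
  | mem y hy => exact hall y hy

/-- the unipotent product of two reflections -/
theorem Z_mulVec {v e : Fin n → F} (hv : v ∈ S.V) (he : e ∈ S.V) (hv0 : S.h v v ≠ 0) (hee : S.h e e = 0) (hev : S.h e v = 0)
    (hve0 : S.h (v + e) (v + e) ≠ 0) {x : Fin n → F} (hx : x ∈ S.V) :
    ((S.R v hv0 * S.R (v + e) hve0 : GL (Fin n) F) : Matrix (Fin n) (Fin n) F) *ᵥ x =
      x + (2 / S.h v v) • (S.h x e • v - S.h x v • e - S.h x e • e) := by
  have hve : S.h v e = 0 := by rw [h_symm hv he]; exact hev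
  have hc : S.h (v + e) (v + e) = S.h v v := by
    rw [h_add_left, h_add_right hv hv he, h_add_right he hv he, hve, hev, hee]; ring
  rw [Units.val_mul, ← Matrix.mulVec_mulVec, R_mulVec, R_mulVec, hc, h_sub_left, h_smul_left, h_add_left, hev,
    h_add_right hx hv he]
  ext i
  simp only [Pi.sub_apply, Pi.add_apply, Pi.smul_apply, smul_eq_mul]
  field_simp
  ring

include h2 h3 in
/-- existence of a nonisotropic vector perpendicular to an isotropic one -/
theorem exists_perp_iso {e : Fin n → F} (he : e ∈ S.V) (he0 : e ≠ 0) (hee : S.h e e = 0) :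
    ∃ v ∈ S.V, S.h e v = 0 ∧ S.h v v ≠ 0 := by
  obtain ⟨f, hf, hef⟩ := S.nondeg he he0
  change S.h e f ≠ 0 at hef
  have hfe : S.h f e ≠ 0 := by rw [h_symm hf he]; exact hef
  have key : ∀ w ∈ S.V, S.h w w ≠ 0 → S.h w e ≠ 0 → ∃ v ∈ S.V, S.h e v = 0 ∧ S.h v v ≠ 0 := by
    intro w hw hww hwe
    obtain ⟨a, ha, h5, h6, h7⟩ := exists_perp h2 h3 hw he hww (by rw [hee, mul_zero, zero_sub]; exact neg_ne_zero.2 (pow_ne_zero 2 hwe))
    exact ⟨a, ha, by rw [h_symm he ha]; exact h6, h7⟩
  by_cases hff : S.h f f = 0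
  · refine key (f + e) (S.V.add_mem hf he) ?_ ?_
    · rw [h_add_left, h_add_right hf hf he, h_add_right he hf he, hff, hee, h_symm he hf]
      rw [zero_add, add_zero, ← two_mul]
      exact mul_ne_zero h2 hfe
    · rw [h_add_left, hee, add_zero]; exact hfe
  · exact key f hf hff hfe

include h2 h3 in
/-- existence of a hyperbolic pair -/
theorem exists_hyp [Finite F] : ∃ e ∈ S.V, ∃ f ∈ S.V, S.h e e = 0 ∧ S.h f f = 0 ∧ S.h e f = 1 ∧ e ≠ 0 := by
  obtain ⟨v, hv, hv0⟩ := exists_aniso h2 h3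
  obtain ⟨x0, hx0, hx0'⟩ := h3 v v
  -- a vector perpendicular to v
  have hck := h_mem hv hv
  obtain ⟨x1, hx1⟩ : ∃ x1, x1 = x0 - (S.h x0 v / S.h v v) • v := ⟨_, rfl⟩
  have hk : S.h x0 v / S.h v v ∈ S.k := S.k.div_mem (h_mem hx0 hv) hck
  have hx1V : x1 ∈ S.V := by rw [hx1]; exact S.V.sub_mem hx0 (S.smul_mem hk hv)
  have hx1v : S.h x1 v = 0 := by rw [hx1, h_sub_left, h_smul_left]; field_simp; ring
  have hx10 : x1 ≠ 0 := by
    intro h5
    rw [hx1] at h5
    apply hx0' (S.h x0 v / S.h v v) 0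
    rw [zero_smul, add_zero]
    exact sub_eq_zero.1 h5
  have hfin : ∀ e ∈ S.V, e ≠ 0 → S.h e e = 0 → ∃ e ∈ S.V, ∃ f ∈ S.V, S.h e e = 0 ∧ S.h f f = 0 ∧ S.h e f = 1 ∧ e ≠ 0 := by
    intro e he he0 hee
    obtain ⟨f0, hf0, hef0⟩ := S.nondeg he he0
    change S.h e f0 ≠ 0 at hef0
    have ha : (S.h e f0)⁻¹ ∈ S.k := S.k.inv_mem (h_mem he hf0)
    obtain ⟨f1, hf1⟩ : ∃ f1, f1 = (S.h e f0)⁻¹ • f0 := ⟨_, rfl⟩
    have hf1V : f1 ∈ S.V := by rw [hf1]; exact S.smul_mem ha hf0
    have hef1 : S.h e f1 = 1 := by rw [hf1, h_smul_right ha he hf0]; field_simp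
    have hb : S.h f1 f1 / 2 ∈ S.k := S.k.div_mem (h_mem hf1V hf1V) two_mem
    refine ⟨e, he, f1 - (S.h f1 f1 / 2) • e, S.V.sub_mem hf1V (S.smul_mem hb he), hee, ?_, ?_, he0⟩
    · rw [h_sub_left, h_smul_left, h_sub_right hf1V hf1V (S.smul_mem hb he), h_sub_right he hf1V (S.smul_mem hb he),
        h_smul_right hb hf1V he, h_smul_right hb he he, hee, h_symm hf1V he, hef1]
      field_simp
      ring
    · rw [h_sub_right he hf1V (S.smul_mem hb he), h_smul_right hb he he, hee, hef1]; ring
  -- nonisotropic vector w perpendicular to v, and a perpendicular to both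
  by_cases hx11 : S.h x1 x1 = 0
  · exact hfin x1 hx1V hx10 hx11
  · have hvx : S.h v x1 = 0 := by rw [h_symm hv hx1V]; exact hx1v
    obtain ⟨a, ha, hav, hax, haa⟩ := exists_perp h2 h3 hv hx1V hv0 (by rw [hvx]; simpa using mul_ne_zero hv0 hx11)
    obtain ⟨x, hx, y, hy, hxy⟩ := universal S.k h2 hck (h_mem hx1V hx1V) (S.k.neg_mem (h_mem ha ha)) hv0 hx11
    refine hfin (x • v + y • x1 + a) (S.V.add_mem (S.V.add_mem (S.smul_mem hx hv) (S.smul_mem hy hx1V)) ha) ?_ ?_
    · intro h5
      apply haa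
      have h6 : S.h (x • v + y • x1 + a) a = 0 := by rw [h5, h_zero_left]
      rw [h_add_left, h_add_left, h_smul_left, h_smul_left, h_symm hv ha, h_symm hx1V ha, hav, hax] at h6
      simpa using h6
    · have m1 := S.smul_mem hx hv
      have m2 := S.smul_mem hy hx1V
      have m12 := S.V.add_mem m1 m2
      have e1 : S.h (x • v + y • x1) a = 0 := by
        rw [h_add_left, h_smul_left, h_smul_left, h_symm hv ha, h_symm hx1V ha, hav, hax]; ring
      have e2 : S.h a (x • v + y • x1) = 0 := by rw [h_symm ha m12]; exact e1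
      have e3 : S.h (x • v + y • x1) (x • v + y • x1) = S.h v v * x ^ 2 + S.h x1 x1 * y ^ 2 := by
        rw [h_add_left, h_add_right m1 m1 m2, h_add_right m2 m1 m2, h_smul_right hx m1 hv, h_smul_right hy m1 hx1V,
          h_smul_right hx m2 hv, h_smul_right hy m2 hx1V, h_smul_left, h_smul_left, h_smul_left, h_smul_left, hx1v, hvx]
        ring
      rw [h_add_left, h_add_right m12 m12 ha, h_add_right ha m12 ha, e1, e2, e3, hxy]
      ring

include h2 h3 in
/-- **semilinear maps fixing isotropic lines** -/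
theorem semi_lemma [Finite F] (τ : F ≃+* F) (T : (Fin n → F) → (Fin n → F)) (hadd : ∀ x y, T (x + y) = T x + T y)
    (hsmul : ∀ (c : F) x, T (c • x) = τ c • T x) (hinj : ∀ x, T x = 0 → x = 0)
    (hT : ∀ e ∈ S.V, e ≠ 0 → S.h e e = 0 → ∃ α : F, T e = α • e) :
    (∀ c ∈ S.k, τ c = c) ∧ ∃ α : F, ∀ x ∈ S.V, T x = α • x := by
  obtain ⟨e, he, f, hf, hee, hff, hef, he0⟩ := exists_hyp h2 h3
  have hfe : S.h f e = 1 := by rw [h_symm hf he]; exact hef
  have hf0 : f ≠ 0 := by rintro rfl; rw [h_zero_left] at hfe; exact zero_ne_one hfe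
  obtain ⟨α, hα⟩ := hT e he he0 hee
  obtain ⟨β, hβ⟩ := hT f hf hf0 hff
  have hα0 : α ≠ 0 := by
    rintro rfl
    rw [zero_smul] at hα
    exact he0 (hinj e hα)
  have hneg : ∀ x, T (-x) = - T x := by
    intro x
    have : T (-x) = T ((-1 : F) • x) := by rw [neg_one_smul]
    rw [this, hsmul, map_neg, map_one, neg_one_smul]
  have hsub : ∀ x y, T (x - y) = T x - T y := by
    intro x y; rw [sub_eq_add_neg, hadd, hneg, ← sub_eq_add_neg]
  -- the vectors `e_a`
  have key : ∀ w ∈ S.V, S.h w w ≠ 0 → S.h w e = 0 → S.h w f = 0 →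
      T w = α • w ∧ (∀ a ∈ S.k, τ a = a) ∧ β = α := by
    intro w hw hww hwe hwf
    have hew : S.h e w = 0 := by rw [h_symm he hw]; exact hwe
    have hfw : S.h f w = 0 := by rw [h_symm hf hw]; exact hwf
    obtain ⟨q, hq⟩ : ∃ q, q = S.h w w / 2 := ⟨_, rfl⟩
    have hqk : q ∈ S.k := by rw [hq]; exact S.k.div_mem (h_mem hw hw) two_mem
    have hq0 : q ≠ 0 := by rw [hq]; exact div_ne_zero hww h2
    have hww' : S.h w w = 2 * q := by rw [hq]; field_simp
    have hea : ∀ a ∈ S.k, ∃ κ : F, α • e + τ a • T w - (τ (a ^ 2 * q) * β) • f = κ • (e + a • w - (a ^ 2 * q) • f) := by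
      intro a ha
      have hk1 : a ^ 2 * q ∈ S.k := S.k.mul_mem (S.k.pow_mem ha 2) hqk
      have m1 := S.smul_mem ha hw
      have m2 := S.smul_mem hk1 hf
      have m12 := S.V.add_mem he m1
      have m : e + a • w - (a ^ 2 * q) • f ∈ S.V := S.V.sub_mem m12 m2
      have hne : e + a • w - (a ^ 2 * q) • f ≠ 0 := by
        intro h5
        have h6 : S.h (e + a • w - (a ^ 2 * q) • f) f = 0 := by rw [h5, h_zero_left]
        rw [h_sub_left, h_add_left, h_smul_left, h_smul_left, hef, hwf, hff] at h6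
        simp at h6
      have hiso : S.h (e + a • w - (a ^ 2 * q) • f) (e + a • w - (a ^ 2 * q) • f) = 0 := by
        rw [h_sub_left, h_sub_right m12 m12 m2, h_sub_right m2 m12 m2, h_add_left, h_add_right he he m1, h_add_right m1 he m1,
          h_add_right m2 he m1, h_smul_right ha he hw, h_smul_right ha m1 hw, h_smul_right ha m2 hw,
          h_smul_right hk1 m12 hf, h_smul_right hk1 m2 hf, h_smul_left, h_smul_left, h_smul_left, h_smul_left,
          h_smul_left, h_add_left, h_smul_left, hee, hew, hwe, hww', hfe, hfw, hef, hwf, hff]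
        ring
      obtain ⟨κ, hκ⟩ := hT _ m hne hiso
      refine ⟨κ, ?_⟩
      rw [← hκ, hsub, hadd, hsmul, hsmul, hα, hβ, smul_smul]
    obtain ⟨κ1, h1⟩ := hea 1 S.k.one_mem
    obtain ⟨κ2, h2'⟩ := hea (-1) (S.k.neg_mem S.k.one_mem)
    rw [map_one, one_smul, one_smul, one_pow, one_mul] at h1
    rw [map_neg, map_one, neg_one_smul, neg_one_smul, neg_one_sq, one_mul] at h2'
    have hsum : (2 * α) • e - (2 * (τ q * β)) • f = (κ1 + κ2) • e + (κ1 - κ2) • w - ((κ1 + κ2) * q) • f := by
      have := congrArg₂ (fun a b => a + b) h1 h2'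
      beta_reduce at this
      rw [two_mul, two_mul, add_smul, add_smul, add_smul, sub_smul, add_mul, add_smul]
      have e1 : α • e + T w - (τ q * β) • f + (α • e + -T w - (τ q * β) • f) = α • e + α • e - ((τ q * β) • f + (τ q * β) • f) := by abel
      rw [← e1, this, smul_sub, smul_sub, smul_add, smul_add, smul_neg, smul_smul, smul_smul]
      abel
    have hw3 := congrArg (fun z => S.h z w) hsum
    have hf3 := congrArg (fun z => S.h z f) hsum
    have he3 := congrArg (fun z => S.h z e) hsum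
    simp only [h_sub_left, h_add_left, h_smul_left, hee, hef, hew, hwe, hwf, hfe, hfw, hff, mul_zero, sub_zero, add_zero,
      zero_add, zero_sub, mul_one] at hw3 hf3 he3
    have hκ : κ1 = κ2 := by
      have := (mul_eq_zero.1 hw3.symm).resolve_right hww
      exact sub_eq_zero.1 this
    have hκα : κ1 = α := by
      rw [← hκ, ← two_mul] at hf3
      exact (mul_left_cancel₀ h2 hf3).symm
    have hβ' : τ q * β = q * α := by
      rw [← hκ, hκα] at he3
      have : 2 * (τ q * β) = 2 * (q * α) := by linear_combination -he3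
      exact mul_left_cancel₀ h2 this
    have hTw : T w = α • w := by
      rw [hκα, hβ'] at h1
      have : T w = α • (e + w - q • f) - α • e + (q * α) • f := by rw [← h1]; abel
      rw [this, smul_sub, smul_add, smul_smul, mul_comm q α]
      abel
    have hτ : ∀ a ∈ S.k, τ a = a := by
      intro a ha
      obtain ⟨κ, h5⟩ := hea a ha
      rw [hTw] at h5
      have h6 := congrArg (fun z => S.h z w) h5
      have h7 := congrArg (fun z => S.h z f) h5
      simp only [h_sub_left, h_add_left, h_smul_left, hee, hef, hew, hwe, hwf, hfe, hfw, hff, mul_zero, sub_zero, add_zero,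
        zero_add, zero_sub, mul_one] at h6 h7
      rw [← h7] at h6
      have h8 : (τ a - a) * (α * S.h w w) = 0 := by linear_combination h6
      exact sub_eq_zero.1 ((mul_eq_zero.1 h8).resolve_right (mul_ne_zero hα0 hww))
    refine ⟨hTw, hτ, ?_⟩
    rw [hτ q hqk] at hβ'
    exact mul_left_cancel₀ hq0 hβ'
  obtain ⟨w, hw, hwef, hwe, hww⟩ : ∃ w ∈ S.V, S.h w (e + f) = 0 ∧ S.h w e = 0 ∧ S.h w w ≠ 0 := by
    have m := S.V.add_mem he hf
    have e1 : S.h (e + f) (e + f) = 2 := by
      rw [h_add_left, h_add_right he he hf, h_add_right hf he hf, hee, hef, hfe, hff]; ring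
    have e2 : S.h (e + f) e = 1 := by rw [h_add_left, hee, hfe, zero_add]
    exact exists_perp h2 h3 m he (by rw [e1]; exact h2) (by rw [hee, e2]; simp)
  have hwf : S.h w f = 0 := by
    rw [h_add_right hw he hf, hwe, zero_add] at hwef; exact hwef
  obtain ⟨hTw, hτ, hβα⟩ := key w hw hww hwe hwf
  refine ⟨hτ, α, ?_⟩
  have hperp : ∀ x ∈ S.V, S.h x e = 0 → S.h x f = 0 → T x = α • x := by
    intro x hx hxe hxf
    by_cases hxx : S.h x x = 0
    · have h5 := parallelogram hx hw
      by_cases h6 : S.h (x + w) (x + w) = 0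
      · have h7 : S.h (x - w) (x - w) ≠ 0 := by
          intro h8; rw [h6, h8, hxx] at h5
          apply hww
          have : 2 * S.h w w = 0 := by linear_combination -h5
          exact (mul_eq_zero.1 this).resolve_left h2
        have h8 := (key (x - w) (S.V.sub_mem hx hw) h7 (by rw [h_sub_left, hxe, hwe, sub_zero]) (by rw [h_sub_left, hxf, hwf, sub_zero])).1
        rw [hsub, hTw, smul_sub] at h8
        exact sub_left_injective h8
      · have h8 := (key (x + w) (S.V.add_mem hx hw) h6 (by rw [h_add_left, hxe, hwe, add_zero]) (by rw [h_add_left, hxf, hwf, add_zero])).1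
        rw [hadd, hTw, smul_add] at h8
        exact add_right_cancel h8
    · exact (key x hx hxx hxe hxf).1
  intro x hx
  have k1 := h_mem hx hf
  have k2 := h_mem hx he
  have m1 := S.smul_mem k1 he
  have m2 := S.smul_mem k2 hf
  have h5 := hperp (x - S.h x f • e - S.h x e • f) (S.V.sub_mem (S.V.sub_mem hx m1) m2)
    (by rw [h_sub_left, h_sub_left, h_smul_left, h_smul_left, hee, hfe]; ring)
    (by rw [h_sub_left, h_sub_left, h_smul_left, h_smul_left, hff, hef]; ring)
  rw [hsub, hsub, hsmul, hsmul, hα, hβ, hβα, hτ _ k1, hτ _ k2, smul_sub, smul_sub, smul_comm _ α, smul_comm _ α] at h5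
  exact sub_left_injective (sub_left_injective h5)

end main

end RS

end Cfsg.Agent.LB
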