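import Mathlib

/-!
Normal subgroups of odd order modulo scalars in symplectic groups are scalar (odd characteristic): transvections.
-/

set_option autoImplicit false

namespace Cfsg.Agent.LB

open Matrix

/-- an alternating bilinear form over a subfield on a spanning set of vectors -/
structure SS (F : Type*) [Field F] (n : ℕ) where
  φ : (Fin n → F) → (Fin n → F)
  k : Subfield F
  V : AddSubgroup (Fin n → F)
  smul_mem : ∀ {c : F} {v : Fin n → F}, c ∈ k → v ∈ V → c • v ∈ V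
  mem_k : ∀ {x y : Fin n → F}, x ∈ V → y ∈ V → x ⬝ᵥ φ y ∈ k
  anti : ∀ {x y : Fin n → F}, x ∈ V → y ∈ V → x ⬝ᵥ φ y = - (y ⬝ᵥ φ x)
  self : ∀ {x : Fin n → F}, x ∈ V → x ⬝ᵥ φ x = 0
  nondeg : ∀ {x : Fin n → F}, x ∈ V → x ≠ 0 → ∃ y ∈ V, x ⬝ᵥ φ y ≠ 0
  span : Submodule.span F (V : Set (Fin n → F)) = ⊤

variable {F : Type*} [Field F] {n : ℕ}

theorem card_of_orbit {H X : Type*} [Group H] (S : Subgroup H) (f : H → X) (T : Set X)
    (hf : ∀ g, f g ∈ T) (hs : ∀ t ∈ T, ∃ g, f g = t) (h : ∀ g g', f g = f g' ↔ g⁻¹ * g' ∈ S) :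
    Nat.card H = Nat.card T * Nat.card S := by
  rw [Subgroup.card_eq_card_quotient_mul_card_subgroup S]
  congr 1
  refine Nat.card_congr (Equiv.ofBijective (Quotient.lift (fun g => (⟨f g, hf g⟩ : T)) ?_) ⟨?_, ?_⟩)
  · intro a b hab
    have : a⁻¹ * b ∈ S := QuotientGroup.leftRel_apply.1 hab
    exact Subtype.ext ((h a b).2 this)
  · intro a b
    induction a using Quotient.inductionOn with | h a =>
    induction b using Quotient.inductionOn with | h b =>
    intro hab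
    apply Quotient.sound
    exact QuotientGroup.leftRel_apply.2 ((h a b).1 (congrArg Subtype.val hab))
  · rintro ⟨t, ht⟩
    obtain ⟨g, hg⟩ := hs t ht
    exact ⟨Quotient.mk _ g, Subtype.ext hg⟩

namespace SS

variable (S : SS F n)

/-- the form -/
def h (x y : Fin n → F) : F := x ⬝ᵥ S.φ y

variable {S}

theorem h_add_left (x x' y : Fin n → F) : S.h (x + x') y = S.h x y + S.h x' y := add_dotProduct _ _ _
theorem h_smul_left (c : F) (x y : Fin n → F) : S.h (c • x) y = c * S.h x y := by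
  rw [h, smul_dotProduct, smul_eq_mul]; rfl
theorem h_sub_left (x x' y : Fin n → F) : S.h (x - x') y = S.h x y - S.h x' y := sub_dotProduct _ _ _
theorem h_zero_left (y : Fin n → F) : S.h 0 y = 0 := zero_dotProduct _
theorem h_anti {x y : Fin n → F} (hx : x ∈ S.V) (hy : y ∈ S.V) : S.h x y = - S.h y x := S.anti hx hy
theorem h_self {x : Fin n → F} (hx : x ∈ S.V) : S.h x x = 0 := S.self hx
theorem h_mem {x y : Fin n → F} (hx : x ∈ S.V) (hy : y ∈ S.V) : S.h x y ∈ S.k := S.mem_k hx hy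

theorem h_add_right {x y y' : Fin n → F} (hx : x ∈ S.V) (hy : y ∈ S.V) (hy' : y' ∈ S.V) :
    S.h x (y + y') = S.h x y + S.h x y' := by
  rw [h_anti hx (S.V.add_mem hy hy'), h_add_left, h_anti hy hx, h_anti hy' hx]; ring
theorem h_smul_right {c : F} {x y : Fin n → F} (hc : c ∈ S.k) (hx : x ∈ S.V) (hy : y ∈ S.V) :
    S.h x (c • y) = c * S.h x y := by
  rw [h_anti hx (S.smul_mem hc hy), h_smul_left, h_anti hy hx]; ring

theorem ext_V {g g' : GL (Fin n) F} (he : ∀ x ∈ S.V, (g : Matrix (Fin n) (Fin n) F) *ᵥ x = (g' : Matrix _ _ F) *ᵥ x) : g = g' := by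
  apply Units.ext
  have h1 : ∀ x : Fin n → F, (g : Matrix (Fin n) (Fin n) F) *ᵥ x = (g' : Matrix _ _ F) *ᵥ x := by
    intro x
    have hx : x ∈ Submodule.span F (S.V : Set (Fin n → F)) := by rw [S.span]; trivial
    induction hx using Submodule.span_induction with
    | mem x hx => exact he x hx
    | zero => rw [Matrix.mulVec_zero, Matrix.mulVec_zero]
    | add x y _ _ hx hy => rw [Matrix.mulVec_add, Matrix.mulVec_add, hx, hy]
    | smul c x _ hx => rw [Matrix.mulVec_smul, Matrix.mulVec_smul, hx]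
  exact Matrix.mulVec_injective (funext h1)

variable (S) in
/-- the matrix of a transvection -/
def tm (v : Fin n → F) (a : F) : Matrix (Fin n) (Fin n) F := 1 + a • Matrix.vecMulVec v (S.φ v)

theorem tm_mulVec (v : Fin n → F) (a : F) (x : Fin n → F) : S.tm v a *ᵥ x = x + (a * S.h x v) • v := by
  rw [tm, Matrix.add_mulVec, Matrix.one_mulVec, Matrix.smul_mulVec, Matrix.vecMulVec_mulVec, h, dotProduct_comm (S.φ v) x]
  congr 1
  ext i
  simp [Pi.smul_apply, mul_assoc]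

theorem tm_mul {v : Fin n → F} (hv : v ∈ S.V) (a b : F) : S.tm v a * S.tm v b = S.tm v (a + b) := by
  apply Matrix.mulVec_injective
  funext x
  rw [← Matrix.mulVec_mulVec, tm_mulVec, tm_mulVec, tm_mulVec, h_add_left, h_smul_left, h_self hv, add_assoc, ← add_smul]
  congr 2
  ring

theorem tm_zero (v : Fin n → F) : S.tm v 0 = 1 := by rw [tm, zero_smul, add_zero]

variable (S) in
/-- the transvection -/
def t (v : Fin n → F) (hv : v ∈ S.V) (a : F) : GL (Fin n) F :=
  ⟨S.tm v a, S.tm v (-a), by rw [tm_mul hv, add_neg_cancel, tm_zero], by rw [tm_mul hv, neg_add_cancel, tm_zero]⟩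

theorem t_mulVec {v : Fin n → F} (hv : v ∈ S.V) (a : F) (x : Fin n → F) :
    (S.t v hv a : Matrix (Fin n) (Fin n) F) *ᵥ x = x + (a * S.h x v) • v := tm_mulVec v a x

theorem t_mul {v : Fin n → F} (hv : v ∈ S.V) (a b : F) : S.t v hv a * S.t v hv b = S.t v hv (a + b) :=
  Units.ext (tm_mul hv a b)

theorem t_zero {v : Fin n → F} (hv : v ∈ S.V) : S.t v hv 0 = 1 := Units.ext (tm_zero v)

theorem t_inv {v : Fin n → F} (hv : v ∈ S.V) (a : F) : (S.t v hv a)⁻¹ = S.t v hv (-a) := by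
  rw [inv_eq_iff_mul_eq_one, t_mul, add_neg_cancel, t_zero]

theorem t_pow {v : Fin n → F} (hv : v ∈ S.V) (a : F) (m : ℕ) : S.t v hv a ^ m = S.t v hv (m * a) := by
  induction m with
  | zero => rw [pow_zero, Nat.cast_zero, zero_mul, t_zero]
  | succ m ih => rw [pow_succ, ih, t_mul]; congr 1; push_cast; ring

/-- isometries of the space -/
def Isom (S : SS F n) (g : GL (Fin n) F) : Prop :=
  (∀ x ∈ S.V, (g : Matrix (Fin n) (Fin n) F) *ᵥ x ∈ S.V) ∧
  ∀ x ∈ S.V, ∀ y ∈ S.V, S.h ((g : Matrix (Fin n) (Fin n) F) *ᵥ x) ((g : Matrix (Fin n) (Fin n) F) *ᵥ y) = S.h x y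

theorem Isom.mul {g g' : GL (Fin n) F} (hg : Isom S g) (hg' : Isom S g') : Isom S (g * g') := by
  constructor
  · intro x hx
    rw [Units.val_mul, ← Matrix.mulVec_mulVec]
    exact hg.1 _ (hg'.1 _ hx)
  · intro x hx y hy
    rw [Units.val_mul, ← Matrix.mulVec_mulVec, ← Matrix.mulVec_mulVec, hg.2 _ (hg'.1 _ hx) _ (hg'.1 _ hy), hg'.2 _ hx _ hy]

theorem isom_t {v : Fin n → F} (hv : v ∈ S.V) {a : F} (ha : a ∈ S.k) : Isom S (S.t v hv a) := by
  have hk : ∀ z ∈ S.V, a * S.h z v ∈ S.k := fun z hz => S.k.mul_mem ha (h_mem hz hv)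
  refine ⟨fun x hx => ?_, fun x hx y hy => ?_⟩
  · rw [t_mulVec]
    exact S.V.add_mem hx (S.smul_mem (hk x hx) hv)
  · rw [t_mulVec, t_mulVec, h_add_left, h_smul_left, h_add_right hx hy (S.smul_mem (hk y hy) hv),
      h_add_right hv hy (S.smul_mem (hk y hy) hv), h_smul_right (hk y hy) hx hv, h_smul_right (hk y hy) hv hv,
      h_self hv, h_anti hv hy]
    ring

theorem conj_t {g : GL (Fin n) F} (hg : Isom S g) {v : Fin n → F} (hv : v ∈ S.V) (a : F) :
    g * S.t v hv a = S.t ((g : Matrix (Fin n) (Fin n) F) *ᵥ v) (hg.1 v hv) a * g := by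
  apply ext_V (S := S)
  intro x hx
  rw [Units.val_mul, Units.val_mul, ← Matrix.mulVec_mulVec, ← Matrix.mulVec_mulVec, t_mulVec, t_mulVec,
    Matrix.mulVec_add, Matrix.mulVec_smul, hg.2 _ hx _ hv]

section main

variable [Finite F] (h2 : (2 : F) ≠ 0)
  (h3 : ∀ v w : Fin n → F, ∃ x ∈ S.V, ∀ a b : F, x ≠ a • v + b • w)
  {𝒩 : Subgroup (GL (Fin n) F)}
  (hN : ∀ (v : Fin n → F) (hv : v ∈ S.V) (a : F), a ∈ S.k → ∀ g ∈ 𝒩, S.t v hv a * g * (S.t v hv a)⁻¹ ∈ 𝒩)
  (hodd : ∀ g ∈ 𝒩, ∃ m : ℕ, Odd m ∧ ∃ c : F, ((g ^ m : GL (Fin n) F) : Matrix (Fin n) (Fin n) F) = c • (1 : Matrix _ _ F))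

theorem GL_mulVec_ne_zero (g : GL (Fin n) F) {x : Fin n → F} (hx : x ≠ 0) : (g : Matrix (Fin n) (Fin n) F) *ᵥ x ≠ 0 := by
  intro h5
  apply hx
  have : ((g⁻¹ * g : GL (Fin n) F) : Matrix (Fin n) (Fin n) F) *ᵥ x = 0 := by
    rw [Units.val_mul, ← Matrix.mulVec_mulVec, h5, Matrix.mulVec_zero]
  rwa [inv_mul_cancel, Units.val_one, Matrix.one_mulVec] at this

include h2 h3 hN hodd in
/-- a hyperbolic pair of transvections is impossible -/
theorem no_pair {v w : Fin n → F} (hv : v ∈ S.V) (hw : w ∈ S.V) (hvw : S.h v w ≠ 0)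
    (hmem : S.t v hv 1 * S.t w hw (-1) ∈ 𝒩) : False := by
  classical
  obtain ⟨b, hb⟩ : ∃ b, b = S.h v w := ⟨_, rfl⟩
  rw [← hb] at hvw
  have hbk : b ∈ S.k := by rw [hb]; exact h_mem hv hw
  have hwv : S.h w v = -b := by rw [h_anti hw hv, hb]
  have hv0 : v ≠ 0 := by rintro rfl; apply hvw; rw [hb, h_zero_left]
  have hw0 : w ≠ 0 := by rintro rfl; rw [h_zero_left] at hwv; apply hvw; rw [← neg_eq_zero]; exact hwv.symm
  -- a perpendicular vector
  obtain ⟨x0, hx0, hx0'⟩ := h3 v w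
  have kx1 : S.h x0 w / b ∈ S.k := S.k.div_mem (h_mem hx0 hw) hbk
  have kx2 : S.h x0 v / b ∈ S.k := S.k.div_mem (h_mem hx0 hv) hbk
  obtain ⟨a, ha⟩ : ∃ a, a = x0 - (S.h x0 w / b) • v + (S.h x0 v / b) • w := ⟨_, rfl⟩
  have ha0 : a ≠ 0 := by
    intro h5
    apply hx0' (S.h x0 w / b) (-(S.h x0 v / b))
    have : x0 = a + (S.h x0 w / b) • v - (S.h x0 v / b) • w := by rw [ha]; abel
    conv_lhs => rw [this]
    rw [h5, zero_add, neg_smul, sub_eq_add_neg]
  have hav : S.h a v = 0 := by rw [ha, h_add_left, h_sub_left, h_smul_left, h_smul_left, h_self hv, hwv]; field_simp; ring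
  have haw : S.h a w = 0 := by rw [ha, h_add_left, h_sub_left, h_smul_left, h_smul_left, h_self hw, ← hb]; field_simp; ring
  -- independence
  have hind : ∀ α β : F, α • v + β • w = 0 → α = 0 ∧ β = 0 := by
    intro α β h5
    have h6 : S.h (α • v + β • w) w = 0 := by rw [h5, h_zero_left]
    have h7 : S.h (α • v + β • w) v = 0 := by rw [h5, h_zero_left]
    rw [h_add_left, h_smul_left, h_smul_left, h_self hw, ← hb, mul_zero, add_zero] at h6
    rw [h_add_left, h_smul_left, h_smul_left, h_self hv, hwv, mul_zero, zero_add, mul_neg, neg_eq_zero] at h7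
    exact ⟨(mul_eq_zero.1 h6).resolve_right hvw, (mul_eq_zero.1 h7).resolve_right hvw⟩
  let P : Set (Fin n → F) := {u | ∃ x ∈ S.k, ∃ y ∈ S.k, u = x • v + y • w}
  -- the subgroup
  let N3 : Subgroup (GL (Fin n) F) :=
    { carrier := {g | g ∈ 𝒩 ∧ (g : Matrix (Fin n) (Fin n) F) *ᵥ a = a ∧ ∀ u, (g : Matrix (Fin n) (Fin n) F) *ᵥ u ∈ P ↔ u ∈ P}
      one_mem' := ⟨𝒩.one_mem, by rw [Units.val_one, Matrix.one_mulVec], fun u => by rw [Units.val_one, Matrix.one_mulVec]⟩
      mul_mem' := by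
        rintro g g' ⟨h4, h5, h6⟩ ⟨h4', h5', h6'⟩
        refine ⟨𝒩.mul_mem h4 h4', ?_, fun u => ?_⟩
        · rw [Units.val_mul, ← Matrix.mulVec_mulVec, h5', h5]
        · rw [Units.val_mul, ← Matrix.mulVec_mulVec, h6, h6']
      inv_mem' := by
        rintro g ⟨h4, h5, h6⟩
        have key : ∀ u, (g : Matrix (Fin n) (Fin n) F) *ᵥ (((g⁻¹ : GL (Fin n) F) : Matrix (Fin n) (Fin n) F) *ᵥ u) = u := by
          intro u
          rw [Matrix.mulVec_mulVec, ← Units.val_mul, mul_inv_cancel, Units.val_one, Matrix.one_mulVec]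
        refine ⟨𝒩.inv_mem h4, ?_, fun u => ?_⟩
        · conv_lhs => rw [← h5]
          rw [Matrix.mulVec_mulVec, ← Units.val_mul, inv_mul_cancel, Units.val_one, Matrix.one_mulVec]
        · rw [← h6, key] }
  have hP : ∀ (z : Fin n → F) (hz : z ∈ S.V), z ∈ P → ∀ c ∈ S.k, ∀ u ∈ P, (S.t z hz c : Matrix (Fin n) (Fin n) F) *ᵥ u ∈ P := by
    rintro z hz ⟨x, hx, y, hy, rfl⟩ c hc u ⟨x', hx', y', hy', rfl⟩
    rw [t_mulVec]
    obtain ⟨d, hd⟩ : ∃ d, d = c * S.h (x' • v + y' • w) (x • v + y • w) := ⟨_, rfl⟩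
    have hdk : d ∈ S.k := by
      rw [hd]; exact S.k.mul_mem hc (h_mem (S.V.add_mem (S.smul_mem hx' hv) (S.smul_mem hy' hw)) hz)
    rw [← hd]
    refine ⟨x' + d * x, S.k.add_mem hx' (S.k.mul_mem hdk hx), y' + d * y, S.k.add_mem hy' (S.k.mul_mem hdk hy), ?_⟩
    rw [smul_add, smul_smul, smul_smul, add_smul, add_smul]
    abel
  have hP' : ∀ (z : Fin n → F) (hz : z ∈ S.V), z ∈ P → ∀ c ∈ S.k, ∀ u, (S.t z hz c : Matrix (Fin n) (Fin n) F) *ᵥ u ∈ P ↔ u ∈ P := by
    intro z hz hzP c hc u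
    refine ⟨fun h5 => ?_, hP z hz hzP c hc u⟩
    have := hP z hz hzP (-c) (S.k.neg_mem hc) _ h5
    rwa [Matrix.mulVec_mulVec, ← Units.val_mul, t_mul, neg_add_cancel, t_zero, Units.val_one, Matrix.one_mulVec] at this
  have hvP : v ∈ P := ⟨1, S.k.one_mem, 0, S.k.zero_mem, by rw [one_smul, zero_smul, add_zero]⟩
  have hwP : w ∈ P := ⟨0, S.k.zero_mem, 1, S.k.one_mem, by rw [one_smul, zero_smul, zero_add]⟩
  have hn1 : S.t v hv 1 * S.t w hw (-1) ∈ N3 := by
    refine ⟨hmem, ?_, fun u => ?_⟩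
    · rw [Units.val_mul, ← Matrix.mulVec_mulVec, t_mulVec hw, haw, mul_zero, zero_smul, add_zero, t_mulVec hv, hav, mul_zero,
        zero_smul, add_zero]
    · rw [Units.val_mul, ← Matrix.mulVec_mulVec, hP' v hv hvP 1 S.k.one_mem, hP' w hw hwP (-1) (S.k.neg_mem S.k.one_mem)]
  have hconj : ∀ c ∈ S.k, ∀ g ∈ N3, S.t v hv c * g * (S.t v hv c)⁻¹ ∈ N3 := by
    rintro c hc g ⟨h4, h5, h6⟩
    have hta : ∀ c : F, (S.t v hv c : Matrix (Fin n) (Fin n) F) *ᵥ a = a := by
      intro c; rw [t_mulVec, hav, mul_zero, zero_smul, add_zero]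
    refine ⟨hN v hv c hc g h4, ?_, fun u => ?_⟩
    · rw [t_inv, Units.val_mul, Units.val_mul, ← Matrix.mulVec_mulVec, ← Matrix.mulVec_mulVec, hta, h5, hta]
    · rw [t_inv, Units.val_mul, Units.val_mul, ← Matrix.mulVec_mulVec, ← Matrix.mulVec_mulVec, hP' v hv hvP c hc, h6,
        hP' v hv hvP (-c) (S.k.neg_mem hc)]
  -- the order is odd
  have hoddN : Odd (Nat.card ↥N3) := by
    rw [← Nat.not_even_iff_odd]
    intro hev
    have := Fact.mk Nat.prime_two
    obtain ⟨g, hg⟩ := exists_prime_orderOf_dvd_card' 2 (even_iff_two_dvd.1 hev)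
    obtain ⟨m, hm, c, hc⟩ := hodd g.1 g.2.1
    have hfix : ∀ m : ℕ, (((g : GL (Fin n) F) ^ m : GL (Fin n) F) : Matrix (Fin n) (Fin n) F) *ᵥ a = a := by
      intro m
      induction m with
      | zero => rw [pow_zero, Units.val_one, Matrix.one_mulVec]
      | succ m ih => rw [pow_succ, Units.val_mul, ← Matrix.mulVec_mulVec, g.2.2.1, ih]
    have h5 := hfix m
    rw [hc, Matrix.smul_mulVec, Matrix.one_mulVec] at h5
    have hc1 : c = 1 := by
      have : (c - 1) • a = 0 := by rw [sub_smul, one_smul, h5, sub_self]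
      exact sub_eq_zero.1 ((smul_eq_zero.1 this).resolve_right ha0)
    rw [hc1, one_smul] at hc
    have h6 : (g : GL (Fin n) F) ^ m = 1 := Units.ext hc
    have h7 : g ^ m = 1 := Subtype.ext h6
    have h8 := orderOf_dvd_of_pow_eq_one h7
    rw [hg] at h8
    exact (Nat.not_even_iff_odd.2 hm) (even_iff_two_dvd.2 h8)
  -- the lines
  let f : Option ↥S.k → Submodule F (Fin n → F) := fun o => match o with
    | none => Submodule.span F {v}
    | some x => Submodule.span F {w + (x : F) • v}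
  have hwx : ∀ x : F, w + x • v ≠ 0 := by
    intro x h5
    have := (hind x 1 (by rw [one_smul, add_comm]; exact h5)).2
    exact one_ne_zero this
  have hfinj : Function.Injective f := by
    rintro (_ | x) (_ | y) hxy
    · rfl
    · exfalso
      change Submodule.span F {v} = Submodule.span F {w + (y : F) • v} at hxy
      rw [Submodule.span_singleton_eq_span_singleton] at hxy
      obtain ⟨z, hz⟩ := hxy
      have h5 : (z : F) • v = w + (y : F) • v := hz
      have := (hind ((y : F) - z) 1 (by rw [one_smul, sub_smul, h5]; abel)).2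
      exact one_ne_zero this
    · exfalso
      change Submodule.span F {w + (x : F) • v} = Submodule.span F {v} at hxy
      rw [Submodule.span_singleton_eq_span_singleton] at hxy
      obtain ⟨z, hz⟩ := hxy
      have h5 : (z : F) • (w + (x : F) • v) = v := hz
      have := (hind ((z : F) * x - 1) z (by
        rw [sub_smul, one_smul, mul_smul]
        conv_lhs => enter [1, 2]; rw [← h5]
        rw [smul_add]; abel)).2
      exact z.ne_zero this
    · change Submodule.span F {w + (x : F) • v} = Submodule.span F {w + (y : F) • v} at hxy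
      rw [Submodule.span_singleton_eq_span_singleton] at hxy
      obtain ⟨z, hz⟩ := hxy
      have h5 : (z : F) • (w + (x : F) • v) = w + (y : F) • v := hz
      have h6 := hind ((z : F) * x - y) ((z : F) - 1) (by
        rw [sub_smul, sub_smul, one_smul, mul_smul]
        have : (z : F) • (w + (x : F) • v) - (w + (y : F) • v) = 0 := by rw [h5, sub_self]
        rw [smul_add] at this
        rw [← this]; abel)
      have hz1 : (z : F) = 1 := sub_eq_zero.1 h6.2
      have : (x : F) = y := by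
        have := sub_eq_zero.1 h6.1
        rwa [hz1, one_mul] at this
      rw [Subtype.ext this]
  let π : ↥N3 → Submodule F (Fin n → F) := fun g => Submodule.span F {(g.1 : Matrix (Fin n) (Fin n) F) *ᵥ v}
  let St : Subgroup ↥N3 :=
    { carrier := {g | ∃ c : F, c ≠ 0 ∧ (g.1 : Matrix (Fin n) (Fin n) F) *ᵥ v = c • v}
      one_mem' := ⟨1, one_ne_zero, by rw [Subgroup.coe_one, Units.val_one, Matrix.one_mulVec, one_smul]⟩
      mul_mem' := by
        rintro g g' ⟨c, hc, h5⟩ ⟨c', hc', h5'⟩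
        refine ⟨c' * c, mul_ne_zero hc' hc, ?_⟩
        rw [Subgroup.coe_mul, Units.val_mul, ← Matrix.mulVec_mulVec, h5', Matrix.mulVec_smul, h5, smul_smul]
      inv_mem' := by
        rintro g ⟨c, hc, h5⟩
        refine ⟨c⁻¹, inv_ne_zero hc, ?_⟩
        have : v = c⁻¹ • ((g.1 : Matrix (Fin n) (Fin n) F) *ᵥ v) := by rw [h5, smul_smul, inv_mul_cancel₀ hc, one_smul]
        conv_lhs => rw [this]
        rw [Matrix.mulVec_smul, Matrix.mulVec_mulVec, ← Units.val_mul, Subgroup.coe_inv, inv_mul_cancel, Units.val_one,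
          Matrix.one_mulVec] }
  have hcard := card_of_orbit St π (Set.range f) ?_ ?_ ?_
  · have hc1 : Nat.card (Set.range f) = Nat.card ↥S.k + 1 := by
      rw [Nat.card_range_of_injective hfinj, Finite.card_option]
    have hk : Odd (Nat.card ↥S.k) := by
      have : Fintype ↥S.k := Fintype.ofFinite ↥S.k
      rw [Nat.card_eq_fintype_card, Nat.odd_iff]
      apply FiniteField.odd_card_of_char_ne_two
      intro h
      have h3 := ringChar.spec ↥S.k 2
      rw [h] at h3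
      have h4 : ((2 : ℕ) : ↥S.k) = 0 := h3.2 dvd_rfl
      apply h2
      have h5 : (((2 : ℕ) : ↥S.k) : F) = 0 := by rw [h4]; rfl
      push_cast at h5
      exact h5
    rw [hcard, hc1] at hoddN
    have h5 : Even (Nat.card ↥S.k + 1) := hk.add_one
    exact (Nat.not_even_iff_odd.2 hoddN) (h5.mul_right _)
  · intro g
    have hgP : (g.1 : Matrix (Fin n) (Fin n) F) *ᵥ v ∈ P := (g.2.2.2 v).2 hvP
    obtain ⟨x, hx, y, hy, hxy⟩ := hgP
    by_cases hy0 : y = 0
    · refine ⟨none, ?_⟩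
      change Submodule.span F {v} = Submodule.span F {_}
      rw [Submodule.span_singleton_eq_span_singleton]
      have hx0 : x ≠ 0 := by
        rintro rfl
        apply GL_mulVec_ne_zero g.1 hv0
        rw [hxy, hy0, zero_smul, zero_smul, add_zero]
      exact ⟨Units.mk0 x hx0, by rw [hxy, hy0, zero_smul, add_zero]; rfl⟩
    · refine ⟨some ⟨x / y, S.k.div_mem hx hy⟩, ?_⟩
      change Submodule.span F {w + (x / y) • v} = Submodule.span F {_}
      rw [Submodule.span_singleton_eq_span_singleton]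
      refine ⟨Units.mk0 y hy0, ?_⟩
      rw [hxy]
      change y • (w + (x / y) • v) = _
      rw [smul_add, smul_smul, mul_div_cancel₀ _ hy0, add_comm]
  · rintro _ ⟨o, rfl⟩
    rcases o with _ | x
    · refine ⟨1, ?_⟩
      change Submodule.span F {_} = Submodule.span F {v}
      rw [Subgroup.coe_one, Units.val_one, Matrix.one_mulVec]
    · have hbk2 : (1 + b ^ 2) / b ∈ S.k := S.k.div_mem (S.k.add_mem S.k.one_mem (S.k.pow_mem hbk 2)) hbk
      obtain ⟨y, hy⟩ : ∃ y, y = (-((1 + b ^ 2) / b) - x) / b := ⟨_, rfl⟩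
      have hyk : y ∈ S.k := by rw [hy]; exact S.k.div_mem (S.k.sub_mem (S.k.neg_mem hbk2) x.2) hbk
      refine ⟨⟨_, hconj y hyk _ hn1⟩, ?_⟩
      change Submodule.span F {_} = Submodule.span F {w + (x : F) • v}
      rw [Submodule.span_singleton_eq_span_singleton]
      refine ⟨Units.mk0 (-b⁻¹) (neg_ne_zero.2 (inv_ne_zero hvw)), ?_⟩
      rw [Units.smul_def, Units.val_mk0]
      change (-b⁻¹) • (((S.t v hv y * (S.t v hv 1 * S.t w hw (-1)) * (S.t v hv y)⁻¹ : GL (Fin n) F) : Matrix (Fin n) (Fin n) F) *ᵥ v) = _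
      rw [t_inv, Units.val_mul, Units.val_mul, ← Matrix.mulVec_mulVec, ← Matrix.mulVec_mulVec, Units.val_mul,
        ← Matrix.mulVec_mulVec]
      rw [t_mulVec hv (-y) v, h_self hv, mul_zero, zero_smul, add_zero, t_mulVec hw, ← hb, t_mulVec hv 1, t_mulVec hv y,
        h_add_left, h_smul_left, h_self hv, hwv, h_add_left, h_add_left, h_smul_left, h_smul_left, h_self hv, hwv]
      ext i
      simp only [Pi.smul_apply, Pi.add_apply, smul_eq_mul]
      rw [hy]
      field_simp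
      ring
  · intro g g'
    change Submodule.span F {_} = Submodule.span F {_} ↔ _
    rw [Submodule.span_singleton_eq_span_singleton]
    have e1 : (((g⁻¹ * g' : ↥N3) : GL (Fin n) F) : Matrix (Fin n) (Fin n) F) *ᵥ v =
        (((g : GL (Fin n) F)⁻¹ : GL (Fin n) F) : Matrix (Fin n) (Fin n) F) *ᵥ ((g'.1 : Matrix (Fin n) (Fin n) F) *ᵥ v) := by
      rw [Subgroup.coe_mul, Subgroup.coe_inv, Units.val_mul, ← Matrix.mulVec_mulVec]
    constructor
    · rintro ⟨z, hz⟩
      refine ⟨z, z.ne_zero, ?_⟩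
      rw [e1, ← hz]
      change _ *ᵥ ((z : F) • _) = _
      rw [Matrix.mulVec_smul, Matrix.mulVec_mulVec, ← Units.val_mul, inv_mul_cancel, Units.val_one, Matrix.one_mulVec]
    · rintro ⟨c, hc, h5⟩
      refine ⟨Units.mk0 c hc, ?_⟩
      rw [e1] at h5
      rw [Units.smul_def, Units.val_mk0, ← Matrix.mulVec_smul, ← h5, Matrix.mulVec_mulVec, ← Units.val_mul, mul_inv_cancel, Units.val_one, Matrix.one_mulVec]

include hN in
omit [Finite F] in
theorem comm_mem {g : GL (Fin n) F} (hg : g ∈ 𝒩) (hgi : Isom S g) {v : Fin n → F} (hv : v ∈ S.V) :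
    S.t v hv 1 * S.t ((g : Matrix (Fin n) (Fin n) F) *ᵥ v) (hgi.1 v hv) (-1) ∈ 𝒩 := by
  have h5 := 𝒩.mul_mem (hN v hv 1 S.k.one_mem g hg) (𝒩.inv_mem hg)
  have h6 := conj_t hgi hv (-1)
  have h7 : S.t v hv 1 * S.t ((g : Matrix (Fin n) (Fin n) F) *ᵥ v) (hgi.1 v hv) (-1) = S.t v hv 1 * g * (S.t v hv 1)⁻¹ * g⁻¹ := by
    rw [t_inv, mul_assoc (S.t v hv 1) g, h6, mul_assoc, mul_inv_cancel_right]
  rw [h7]; exact h5

include h2 h3 hN hodd in
/-- **the transvection lemma** -/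
theorem tv_lemma {g : GL (Fin n) F} (hg : g ∈ 𝒩) (hgi : Isom S g) {v : Fin n → F} (hv : v ∈ S.V) :
    ∃ c : F, (g : Matrix (Fin n) (Fin n) F) *ᵥ v = c • v := by
  by_contra hcon
  push Not at hcon
  have hmem := comm_mem hN hg hgi hv
  obtain ⟨w, hw⟩ : ∃ w, w = (g : Matrix (Fin n) (Fin n) F) *ᵥ v := ⟨_, rfl⟩
  have hwV : w ∈ S.V := by rw [hw]; exact hgi.1 v hv
  have hmem' : S.t v hv 1 * S.t w hwV (-1) ∈ 𝒩 := by
    have : S.t w hwV (-1) = S.t ((g : Matrix (Fin n) (Fin n) F) *ᵥ v) (hgi.1 v hv) (-1) := by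
      apply Units.ext
      change S.tm w (-1) = S.tm _ (-1)
      rw [hw]
    rw [this]; exact hmem
  rw [← hw] at hcon
  by_cases hvw : S.h v w = 0
  · have hwv : S.h w v = 0 := by rw [h_anti hwV hv, hvw, neg_zero]
    have hv0 : v ≠ 0 := by
      rintro rfl
      apply hcon 0
      rw [hw, Matrix.mulVec_zero, zero_smul]
    obtain ⟨y1, hy1, hvy1⟩ := S.nondeg hv hv0
    change S.h v y1 ≠ 0 at hvy1
    -- a vector `x` with `h x v ≠ 0`, `h x w = 0`
    obtain ⟨x, hx, hxv, hxw⟩ : ∃ x ∈ S.V, S.h x v ≠ 0 ∧ S.h x w = 0 := by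
      by_cases hwy1 : S.h w y1 = 0
      · exact ⟨y1, hy1, by rw [h_anti hy1 hv]; exact neg_ne_zero.2 hvy1, by rw [h_anti hy1 hwV, hwy1, neg_zero]⟩
      · have k1 := h_mem hwV hy1
        have k2 := h_mem hv hy1
        obtain ⟨w', hw'⟩ : ∃ w', w' = S.h w y1 • v - S.h v y1 • w := ⟨_, rfl⟩
        have hw'V : w' ∈ S.V := by rw [hw']; exact S.V.sub_mem (S.smul_mem k1 hv) (S.smul_mem k2 hwV)
        have hw'0 : w' ≠ 0 := by
          intro h5
          apply hcon ((S.h v y1)⁻¹ * S.h w y1)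
          rw [hw', sub_eq_zero] at h5
          rw [mul_smul, h5, smul_smul, inv_mul_cancel₀ hvy1, one_smul]
        obtain ⟨y2, hy2, hwy2⟩ := S.nondeg hw'V hw'0
        change S.h w' y2 ≠ 0 at hwy2
        have k3 := h_mem hwV hy2
        refine ⟨S.h w y2 • y1 - S.h w y1 • y2, S.V.sub_mem (S.smul_mem k3 hy1) (S.smul_mem k1 hy2), ?_, ?_⟩
        · rw [h_sub_left, h_smul_left, h_smul_left, h_anti hy1 hv, h_anti hy2 hv]
          intro h5
          apply hwy2
          rw [hw', h_sub_left, h_smul_left, h_smul_left]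
          linear_combination h5
        · rw [h_sub_left, h_smul_left, h_smul_left, h_anti hy1 hwV, h_anti hy2 hwV]; ring
    have hzi : Isom S (S.t v hv 1 * S.t w hwV (-1)) := (isom_t hv S.k.one_mem).mul (isom_t hwV (S.k.neg_mem S.k.one_mem))
    have hmem2 := comm_mem hN hmem' hzi hx
    refine no_pair h2 h3 hN hodd hx _ ?_ hmem2
    rw [Units.val_mul, ← Matrix.mulVec_mulVec, t_mulVec hwV, hxw, mul_zero, zero_smul, add_zero, t_mulVec hv, one_mul,
      h_add_right hx hx (S.smul_mem (h_mem hx hv) hv), h_self hx, h_smul_right (h_mem hx hv) hx hv, zero_add]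
    exact mul_ne_zero hxv hxv
  · exact no_pair h2 h3 hN hodd hv hwV hvw hmem'

omit [Finite F] in
/-- semilinear maps fixing all lines of `V` -/
theorem semi_scalar (τ : F ≃+* F) (T : (Fin n → F) → (Fin n → F)) (hadd : ∀ x y, T (x + y) = T x + T y)
    (hsmul : ∀ (c : F) x, T (c • x) = τ c • T x) (hτ : ∀ c ∈ S.k, τ c = c)
    (hT : ∀ v ∈ S.V, ∃ α : F, T v = α • v) : ∃ α : F, ∀ x ∈ S.V, T x = α • x := by
  choose! c hc using hT
  by_cases hex : ∃ v ∈ S.V, v ≠ 0
  swap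
  · push Not at hex
    refine ⟨0, fun x hx => ?_⟩
    rw [hex x hx, smul_zero]
    have := hsmul 0 (0 : Fin n → F)
    rwa [zero_smul, map_zero, zero_smul] at this
  obtain ⟨v, hv, hv0⟩ := hex
  refine ⟨c v, fun x hx => ?_⟩
  by_cases hdep : ∃ d : F, x = d • v
  · obtain ⟨d, rfl⟩ := hdep
    obtain ⟨y, hy, hvy⟩ := S.nondeg hv hv0
    change S.h v y ≠ 0 at hvy
    have hd : d ∈ S.k := by
      have h5 := h_mem hx hy
      rw [h_smul_left] at h5
      have h6 := S.k.div_mem h5 (h_mem hv hy)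
      rwa [mul_div_cancel_right₀ _ hvy] at h6
    rw [hsmul, hτ d hd, hc v hv, smul_comm]
  · push Not at hdep
    have h5 := hc (v + x) (S.V.add_mem hv hx)
    rw [hadd, hc v hv, hc x hx, smul_add] at h5
    have h6 : (c v - c (v + x)) • v = (c (v + x) - c x) • x := by
      rw [sub_smul, sub_smul, sub_eq_sub_iff_add_eq_add, h5]; abel
    have h7 : c (v + x) = c x := by
      by_contra hne
      apply hdep ((c (v + x) - c x)⁻¹ * (c v - c (v + x)))
      rw [mul_smul, h6, smul_smul, inv_mul_cancel₀ (sub_ne_zero.2 hne), one_smul]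
    rw [h7, sub_self, zero_smul, ← h7, h7] at h6
    have h8 : c v = c x := sub_eq_zero.1 ((smul_eq_zero.1 h6).resolve_right hv0)
    rw [hc x hx, h8]

omit [Finite F] in
/-- semilinear maps commuting with the transvections -/
theorem semi_lemma (τ : F ≃+* F) (T : (Fin n → F) → (Fin n → F)) (hadd : ∀ x y, T (x + y) = T x + T y)
    (hsmul : ∀ (c : F) x, T (c • x) = τ c • T x) (hinj : ∀ x, T x = 0 → x = 0) (hex : ∃ v ∈ S.V, v ≠ 0)
    (hT : ∀ (v : Fin n → F) (hv : v ∈ S.V) (a : F), a ∈ S.k → ∀ x, T ((S.t v hv a : Matrix (Fin n) (Fin n) F) *ᵥ x) =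
      (S.t v hv a : Matrix (Fin n) (Fin n) F) *ᵥ T x) :
    (∀ c ∈ S.k, τ c = c) ∧ ∃ α : F, ∀ x ∈ S.V, T x = α • x := by
  have key : ∀ v ∈ S.V, v ≠ 0 → (∃ α : F, T v = α • v) ∧ ∀ c ∈ S.k, τ c = c := by
    intro v hv hv0
    obtain ⟨y, hy, hvy⟩ := S.nondeg hv hv0
    change S.h v y ≠ 0 at hvy
    have hyv : S.h y v ≠ 0 := by rw [h_anti hy hv]; exact neg_ne_zero.2 hvy
    have e1 : ∀ a ∈ S.k, (τ (a * S.h y v)) • T v = (a * S.h (T y) v) • v := by
      intro a ha
      have := hT v hv a ha y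
      rw [t_mulVec, t_mulVec, hadd, hsmul] at this
      exact add_left_cancel this
    have e2 := e1 1 S.k.one_mem
    rw [one_mul, one_mul] at e2
    have hτ0 : τ (S.h y v) ≠ 0 := by rw [Ne, map_eq_zero_iff τ τ.injective]; exact hyv
    have hTv0 : T v ≠ 0 := fun h5 => hv0 (hinj v h5)
    refine ⟨⟨(τ (S.h y v))⁻¹ * S.h (T y) v, ?_⟩, ?_⟩
    · rw [mul_smul, ← e2, smul_smul, inv_mul_cancel₀ hτ0, one_smul]
    · intro a ha
      have e3 := e1 a ha
      rw [map_mul, mul_smul, mul_smul, ← e2] at e3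
      have e4 : (τ a - a) • (τ (S.h y v) • T v) = 0 := by rw [sub_smul, e3, sub_self]
      rcases smul_eq_zero.1 e4 with h5 | h5
      · exact sub_eq_zero.1 h5
      · exact absurd h5 (smul_ne_zero hτ0 hTv0)
  obtain ⟨v, hv, hv0⟩ := hex
  have hτ := (key v hv hv0).2
  refine ⟨hτ, semi_scalar τ T hadd hsmul hτ ?_⟩
  intro v hv
  by_cases hv0 : v = 0
  · refine ⟨0, ?_⟩
    rw [hv0, smul_zero]
    have := hsmul 0 (0 : Fin n → F)
    rwa [zero_smul, map_zero, zero_smul] at this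
  · exact (key v hv hv0).1

end main

end SS

end Cfsg.Agent.LB
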