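import Cfsg.Agent.LB.PslBase
import Cfsg.Agent.LB.Refl2
import Cfsg.Agent.LB.Symp

/-!
Local balance criterion for `PSL_n(q)`: involutory graph automorphisms in odd characteristic.
-/

set_option autoImplicit false

namespace Cfsg.Agent.LB

open Matrix Cfsg.Agent.AutPSL Cfsg.Agent.AutLie

variable {F : Type*} [Field F] {n : ℕ}

/-- the isometry group of the form with matrix `A⁻¹` -/
def OA (A : GL (Fin n) F) : Subgroup (GL (Fin n) F) where
  carrier := {g | g * A = A * invTGL g}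
  one_mem' := by
    have : invTGL (1 : GL (Fin n) F) = 1 := by
      apply Units.ext; rw [coe_invTGL, inv_one, Units.val_one, Matrix.transpose_one]
    change (1 : GL (Fin n) F) * A = A * invTGL 1
    rw [this, one_mul, mul_one]
  mul_mem' := by
    intro g g' h h'
    change g * g' * A = A * invTGL (g * g')
    change g * A = A * invTGL g at h
    change g' * A = A * invTGL g' at h'
    rw [invTGL_mul, mul_assoc, h', ← mul_assoc, h, mul_assoc]
  inv_mem' := by
    intro g h
    change g⁻¹ * A = A * invTGL g⁻¹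
    change g * A = A * invTGL g at h
    have h1 : invTGL g * invTGL g⁻¹ = 1 := by
      rw [← invTGL_mul, mul_inv_cancel]
      apply Units.ext; rw [coe_invTGL, inv_one, Units.val_one, Matrix.transpose_one]
    rw [inv_mul_eq_iff_eq_mul, ← mul_assoc, h, mul_assoc, h1, mul_one]

theorem mem_OA {A g : GL (Fin n) F} : g ∈ OA A ↔ g * A = A * invTGL g := Iff.rfl

theorem mem_OA_iff {A g : GL (Fin n) F} :
    g ∈ OA A ↔ (g : Matrix (Fin n) (Fin n) F)ᵀ * ((A⁻¹ : GL (Fin n) F) : Matrix (Fin n) (Fin n) F) * (g : Matrix (Fin n) (Fin n) F) =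
      ((A⁻¹ : GL (Fin n) F) : Matrix (Fin n) (Fin n) F) := by
  have h0 : (g : Matrix (Fin n) (Fin n) F)ᵀ * ((invTGL g : GL (Fin n) F) : Matrix (Fin n) (Fin n) F) = 1 := by
    rw [coe_invTGL, ← Matrix.transpose_mul, ← Units.val_mul, inv_mul_cancel, Units.val_one, Matrix.transpose_one]
  have h0' : ((invTGL g : GL (Fin n) F) : Matrix (Fin n) (Fin n) F) * (g : Matrix (Fin n) (Fin n) F)ᵀ = 1 := by
    rw [coe_invTGL, ← Matrix.transpose_mul, ← Units.val_mul, mul_inv_cancel, Units.val_one, Matrix.transpose_one]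
  rw [mem_OA]
  constructor
  · intro h
    have h1 : A⁻¹ * g = invTGL g * A⁻¹ := by
      rw [inv_mul_eq_iff_eq_mul, ← mul_assoc, ← h, mul_inv_cancel_right]
    rw [Matrix.mul_assoc, ← Units.val_mul, h1, Units.val_mul, ← Matrix.mul_assoc, h0, Matrix.one_mul]
  · intro h
    have h1 : A⁻¹ * g = invTGL g * A⁻¹ := by
      apply Units.ext
      rw [Units.val_mul, Units.val_mul]
      conv_rhs => rw [← h]
      rw [← Matrix.mul_assoc, ← Matrix.mul_assoc, h0', Matrix.one_mul]
    calc g * A = A * (A⁻¹ * g) * A := by rw [mul_inv_cancel_left]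
      _ = A * invTGL g := by rw [h1, ← mul_assoc, inv_mul_cancel_right]

theorem commute_of_OA {A g : GL (Fin n) F} (h : g ∈ OA A) :
    diagHom n F g * (diagHom n F A * iAut (Fin n) F) = (diagHom n F A * iAut (Fin n) F) * diagHom n F g := by
  rw [mul_assoc, diagHom_apply g, iAut_mul_cAut, ← diagHom_apply, ← diagHom_apply, ← mul_assoc, ← mul_assoc, ← map_mul, ← map_mul,
    mem_OA.1 h]

theorem OA_of_commute [Finite F] (hn : 2 ≤ n) (r : ℕ) [Fact r.Prime] [CharP F r] {A g : GL (Fin n) F} {k : ℕ} (hg : g ^ r ^ k = 1)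
    (h : diagHom n F g * (diagHom n F A * iAut (Fin n) F) = (diagHom n F A * iAut (Fin n) F) * diagHom n F g) : g ∈ OA A := by
  rw [mul_assoc, diagHom_apply g, iAut_mul_cAut, ← diagHom_apply, ← diagHom_apply, ← mul_assoc, ← mul_assoc, ← map_mul, ← map_mul,
    mul_left_inj, diagHom_eq_iff hn] at h
  obtain ⟨c, hc⟩ := h
  have h1 : g = A * invTGL g * A⁻¹ * Matrix.GeneralLinearGroup.scalar (Fin n) c := by
    rw [mul_assoc (A * invTGL g), scalar_comm c A⁻¹, ← mul_assoc, ← hc, mul_inv_cancel_right]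
  have hinv : ∀ k : ℕ, invTGL (g ^ k) = invTGL g ^ k := by
    intro k
    induction k with
    | zero =>
      rw [pow_zero, pow_zero]
      apply Units.ext; rw [coe_invTGL, inv_one, Units.val_one, Matrix.transpose_one]
    | succ k ih => rw [pow_succ, pow_succ, invTGL_mul, ih]
  have h2 : (A * invTGL g * A⁻¹ * Matrix.GeneralLinearGroup.scalar (Fin n) c) ^ r ^ k = 1 := by rw [← h1, hg]
  have hinv1 : invTGL (1 : GL (Fin n) F) = 1 := by
    apply Units.ext; rw [coe_invTGL, inv_one, Units.val_one, Matrix.transpose_one]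
  rw [Commute.mul_pow (scalar_comm c _), conj_pow, ← hinv, hg, hinv1, mul_one, mul_inv_cancel, one_mul, scalar_pow,
    ← map_one (Matrix.GeneralLinearGroup.scalar (Fin n) : Fˣ →* _)] at h2
  have h3 := eq_one_of_pow r (scalar_injective (n := n) (by omega) h2)
  rw [h3, map_one, mul_one] at hc
  exact hc

/-- the vectors outside a plane -/
theorem three_vec (hn : 3 ≤ n) (v w : Fin n → F) : ∃ x : Fin n → F, ∀ a b : F, x ≠ a • v + b • w := by
  by_contra hcon
  push Not at hcon
  have htop : (⊤ : Submodule F (Fin n → F)) ≤ Submodule.span F ({v, w} : Set (Fin n → F)) := by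
    intro x _
    obtain ⟨a, b, hab⟩ := hcon x
    rw [Submodule.mem_span_pair]
    exact ⟨a, b, hab.symm⟩
  have h1 : Module.finrank F (⊤ : Submodule F (Fin n → F)) ≤ Module.finrank F (Submodule.span F ({v, w} : Set (Fin n → F))) :=
    Submodule.finrank_mono htop
  rw [finrank_top, Module.finrank_fin_fun] at h1
  have h2 : Module.finrank F (Submodule.span F ({v, w} : Set (Fin n → F))) ≤ 2 := by
    classical
    have : ({v, w} : Set (Fin n → F)) = (({v, w} : Finset (Fin n → F)) : Set (Fin n → F)) := by simp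
    rw [this]
    exact (finrank_span_finset_le_card _).trans Finset.card_le_two
  omega

theorem dot_swap (N : Matrix (Fin n) (Fin n) F) {ε : F} (hN : Nᵀ = ε • N) (x y : Fin n → F) :
    x ⬝ᵥ (N *ᵥ y) = ε * (y ⬝ᵥ (N *ᵥ x)) := by
  rw [Matrix.dotProduct_mulVec, ← Matrix.mulVec_transpose, hN, Matrix.smul_mulVec, smul_dotProduct, smul_eq_mul, dotProduct_comm]

theorem exists_dot_ne (A : GL (Fin n) F) {x : Fin n → F} (hx : x ≠ 0) :
    ∃ y : Fin n → F, x ⬝ᵥ (((A⁻¹ : GL (Fin n) F) : Matrix (Fin n) (Fin n) F) *ᵥ y) ≠ 0 := by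
  by_contra hcon
  push Not at hcon
  apply hx
  rw [← dotProduct_eq_zero_iff]
  intro z
  have := hcon ((A : Matrix (Fin n) (Fin n) F) *ᵥ z)
  rwa [Matrix.mulVec_mulVec, ← Units.val_mul, inv_mul_cancel, Units.val_one, Matrix.one_mulVec] at this

/-- the symmetric form -/
def rsA (A : GL (Fin n) F) (hA : (((A⁻¹ : GL (Fin n) F) : Matrix (Fin n) (Fin n) F))ᵀ = ((A⁻¹ : GL (Fin n) F) : Matrix (Fin n) (Fin n) F)) :
    RS F n where
  φ y := ((A⁻¹ : GL (Fin n) F) : Matrix (Fin n) (Fin n) F) *ᵥ y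
  k := ⊤
  V := ⊤
  smul_mem := fun _ _ => trivial
  mem_k := fun _ _ => trivial
  symm := by
    intro x y _ _
    rw [dot_swap _ (ε := 1) (by rw [hA, one_smul]), one_mul]
  nondeg := by
    intro x _ hx
    obtain ⟨y, hy⟩ := exists_dot_ne A hx
    exact ⟨y, trivial, hy⟩
  span := by
    rw [AddSubgroup.coe_top, Submodule.span_univ]

/-- the alternating form -/
def ssA (A : GL (Fin n) F) (h2 : (2 : F) ≠ 0)
    (hA : (((A⁻¹ : GL (Fin n) F) : Matrix (Fin n) (Fin n) F))ᵀ = (-1 : F) • ((A⁻¹ : GL (Fin n) F) : Matrix (Fin n) (Fin n) F)) :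
    SS F n where
  φ y := ((A⁻¹ : GL (Fin n) F) : Matrix (Fin n) (Fin n) F) *ᵥ y
  k := ⊤
  V := ⊤
  smul_mem := fun _ _ => trivial
  mem_k := fun _ _ => trivial
  anti := by
    intro x y _ _
    rw [dot_swap _ hA, neg_one_mul]
  self := by
    intro x _
    have := dot_swap _ hA x x
    have h3 : (2 : F) * (x ⬝ᵥ (((A⁻¹ : GL (Fin n) F) : Matrix (Fin n) (Fin n) F) *ᵥ x)) = 0 := by linear_combination this
    exact (mul_eq_zero.1 h3).resolve_left h2
  nondeg := by
    intro x _ hx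
    obtain ⟨y, hy⟩ := exists_dot_ne A hx
    exact ⟨y, trivial, hy⟩
  span := by
    rw [AddSubgroup.coe_top, Submodule.span_univ]

theorem form_OA {A g : GL (Fin n) F} (hg : g ∈ OA A) (x y : Fin n → F) :
    ((g : Matrix (Fin n) (Fin n) F) *ᵥ x) ⬝ᵥ (((A⁻¹ : GL (Fin n) F) : Matrix (Fin n) (Fin n) F) *ᵥ ((g : Matrix (Fin n) (Fin n) F) *ᵥ y)) =
      x ⬝ᵥ (((A⁻¹ : GL (Fin n) F) : Matrix (Fin n) (Fin n) F) *ᵥ y) := by
  rw [dotProduct_comm, Matrix.dotProduct_mulVec, ← Matrix.mulVec_transpose, Matrix.mulVec_mulVec, Matrix.mulVec_mulVec,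
    mem_OA_iff.1 hg, dotProduct_comm]

theorem OA_of_form {A g : GL (Fin n) F} (h : ∀ x y : Fin n → F,
    ((g : Matrix (Fin n) (Fin n) F) *ᵥ x) ⬝ᵥ (((A⁻¹ : GL (Fin n) F) : Matrix (Fin n) (Fin n) F) *ᵥ ((g : Matrix (Fin n) (Fin n) F) *ᵥ y)) =
      x ⬝ᵥ (((A⁻¹ : GL (Fin n) F) : Matrix (Fin n) (Fin n) F) *ᵥ y)) : g ∈ OA A := by
  rw [mem_OA_iff]
  apply Matrix.mulVec_injective
  funext y
  apply dotProduct_eq
  intro x
  have := h x y
  rw [dotProduct_comm, Matrix.dotProduct_mulVec, ← Matrix.mulVec_transpose, Matrix.mulVec_mulVec, Matrix.mulVec_mulVec] at this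
  rw [this, dotProduct_comm]

/-- unipotent matrices -/
theorem pow_of_cube (r : ℕ) [Fact r.Prime] [CharP F r] (hr : r ≠ 2) {g : GL (Fin n) F}
    (h : ((g : Matrix (Fin n) (Fin n) F) - 1) ^ 3 = 0) : g ^ r ^ 1 = 1 := by
  have hr3 : 3 ≤ r := by
    have := (Fact.out : r.Prime).two_le; omega
  apply Units.ext
  rw [pow_one, Units.val_pow_eq_pow_val, Units.val_one]
  rcases Nat.eq_zero_or_pos n with h0 | hpos
  · subst h0; ext i; exact i.elim0
  have : Nonempty (Fin n) := ⟨⟨0, hpos⟩⟩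
  have h1 : ((g : Matrix (Fin n) (Fin n) F) - 1) ^ r = (g : Matrix (Fin n) (Fin n) F) ^ r - 1 := by
    have := sub_pow_char_of_commute (R := Matrix (Fin n) (Fin n) F) r (Commute.one_right (g : Matrix (Fin n) (Fin n) F))
    rw [this, one_pow]
  have h2 : ((g : Matrix (Fin n) (Fin n) F) - 1) ^ r = 0 := by
    rw [show r = 3 + (r - 3) by omega, pow_add, h, zero_mul]
  rw [h2] at h1
  exact (sub_eq_zero.1 h1.symm)

variable [Finite F]

theorem tau_refl {τ : F ≃+* F} (h : ∀ c : F, τ c = c) : τ = RingEquiv.refl F := RingEquiv.ext h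

/-- the semilinear map of `cAut g τ` -/
def TT (g : GL (Fin n) F) (τ : F ≃+* F) (u : Fin n → F) : Fin n → F := (g : Matrix (Fin n) (Fin n) F) *ᵥ (fun i => τ (u i))

omit [Finite F] in
theorem TT_add (g : GL (Fin n) F) (τ : F ≃+* F) (x y : Fin n → F) : TT g τ (x + y) = TT g τ x + TT g τ y := by
  rw [TT, TT, TT, ← Matrix.mulVec_add]; congr 1; ext i; simp

omit [Finite F] in
theorem TT_smul (g : GL (Fin n) F) (τ : F ≃+* F) (c : F) (x : Fin n → F) : TT g τ (c • x) = τ c • TT g τ x := by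
  rw [TT, TT, ← Matrix.mulVec_smul]; congr 1; ext i; simp

omit [Finite F] in
theorem TT_inj (g : GL (Fin n) F) (τ : F ≃+* F) (x : Fin n → F) (h : TT g τ x = 0) : x = 0 := by
  by_contra hx
  exact GL_semi_ne_zero g τ hx h

omit [Finite F] in
theorem TT_mulVec {g m : GL (Fin n) F} {τ : F ≃+* F} (h : g * mapGL τ m = m * g) (x : Fin n → F) :
    TT g τ ((m : Matrix (Fin n) (Fin n) F) *ᵥ x) = (m : Matrix (Fin n) (Fin n) F) *ᵥ TT g τ x := by
  rw [TT, TT, Matrix.mulVec_mulVec, ← Units.val_mul, ← h, Units.val_mul, ← Matrix.mulVec_mulVec, coe_mapGL]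
  congr 1
  ext i
  simp only [Matrix.mulVec, dotProduct, map_sum, map_mul, Matrix.map_apply]

/-- the symmetric case -/
theorem good_sym (hn : 3 ≤ n) (r : ℕ) [Fact r.Prime] [CharP F r] (hr : r ≠ 2) (A : GL (Fin n) F)
    (hA : (((A⁻¹ : GL (Fin n) F) : Matrix (Fin n) (Fin n) F))ᵀ = ((A⁻¹ : GL (Fin n) F) : Matrix (Fin n) (Fin n) F)) :
    Good 2 r (diagHom n F).range (diagHom n F A * iAut (Fin n) F) := by
  have hn2 : 2 ≤ n := by omega
  have h2 : (2 : F) ≠ 0 := by
    have := Ring.two_ne_zero (R := F) (by rw [ringChar.eq F r]; exact hr)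
    exact this
  have hfin : Finite (MulAut (Matrix.ProjectiveSpecialLinearGroup (Fin n) F)) := by
    have : Finite (Matrix.ProjectiveSpecialLinearGroup (Fin n) F) := Quotient.finite _
    infer_instance
  set S := rsA A hA with hS
  have h3 : ∀ v w : Fin n → F, ∃ x ∈ S.V, ∀ a b : F, x ≠ a • v + b • w := by
    intro v w
    obtain ⟨x, hx⟩ := three_vec hn v w
    exact ⟨x, trivial, hx⟩
  constructor
  · intro Y hY hYc hYn
    rw [eq_bot_iff]
    intro y hy
    rw [Subgroup.mem_bot]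
    obtain ⟨g, hg, rfl⟩ := MM_lift hn2 r _ (hY hy)
    have hgO : g ∈ OA A := by
      have : Subgroup.closure {g : GL (Fin n) F | (∃ k : ℕ, g ^ r ^ k = 1) ∧
          diagHom n F g * (diagHom n F A * iAut (Fin n) F) = (diagHom n F A * iAut (Fin n) F) * diagHom n F g} ≤ OA A := by
        rw [Subgroup.closure_le]
        rintro g ⟨⟨k, hk⟩, h⟩
        exact OA_of_commute hn2 r hk h
      exact this hg
    have hgi : S.Isom g := ⟨fun _ _ => trivial, fun x _ y _ => form_OA hgO x y⟩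
    have hN : ∀ (v : Fin n → F) (hv : S.h v v ≠ 0), v ∈ S.V → ∀ g ∈ Y.comap (diagHom n F),
        S.R v hv * g * (S.R v hv)⁻¹ ∈ Y.comap (diagHom n F) := by
      intro v hv hvV g hg
      rw [Subgroup.mem_comap, map_mul, map_mul, map_inv]
      apply hYn _ _ _ hg
      apply commute_of_OA
      exact OA_of_form fun x y => (RS.isom_R (S := S) trivial hv).2 x trivial y trivial
    obtain ⟨c, hc⟩ := RS.scalar_of_fix h2 h3 hgi (fun v hv hv0 =>
      RS.refl_lemma h2 h3 hN (odd_scalar (p := 2) hn2 hYc) hy hgi hv hv0)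
    exact cAut_eq_one_of_smul hn2 hc
  · intro x hx hox hxm
    obtain ⟨g, τ, rfl, hτ⟩ := semilinear_of_odd hn2 hox
    have hcomm : ∀ m : GL (Fin n) F, m ∈ OA A → (∃ k : ℕ, m ^ r ^ k = 1) → g * mapGL τ m = m * g := by
      rintro m hm ⟨k, hk⟩
      apply commute_unip hn2 r hk
      apply hxm
      exact mem_MM r _ _ ⟨m, rfl⟩ (commute_of_OA hm) (k := k) (by rw [← map_pow, hk, map_one])
    obtain ⟨h5, α, h6⟩ := RS.semi_lemma (S := S) h2 h3 τ (TT g τ) (TT_add g τ) (TT_smul g τ) (TT_inj g τ) (by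
      intro e he he0 hee
      obtain ⟨v, hv, hev, hvv⟩ := RS.exists_perp_iso h2 h3 he he0 hee
      have hve0 : S.h (v + e) (v + e) ≠ 0 := by
        rw [RS.h_add_left, RS.h_add_right hv hv he, RS.h_add_right he hv he, RS.h_symm hv he, hev, hee]
        simpa using hvv
      set z := S.R v hvv * S.R (v + e) hve0 with hz
      have hzact := fun x => RS.Z_mulVec (S := S) hv he hvv hee hev hve0 (x := x) trivial
      have hve : S.h v e = 0 := by rw [RS.h_symm hv he]; exact hev
      have hz1 : ∀ x : Fin n → F, ((z : Matrix (Fin n) (Fin n) F) - 1) *ᵥ x = (2 / S.h v v) • (S.h x e • v - S.h x v • e - S.h x e • e) := by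
        intro x
        rw [Matrix.sub_mulVec, Matrix.one_mulVec, hzact]
        abel
      have hz2 : ∀ x : Fin n → F, ((z : Matrix (Fin n) (Fin n) F) - 1) *ᵥ (((z : Matrix (Fin n) (Fin n) F) - 1) *ᵥ x) =
          (-(4 / S.h v v) * S.h x e) • e := by
        intro x
        rw [hz1, hz1, RS.h_smul_left, RS.h_sub_left, RS.h_sub_left, RS.h_smul_left, RS.h_smul_left, RS.h_smul_left,
          RS.h_smul_left, RS.h_sub_left, RS.h_sub_left, RS.h_smul_left, RS.h_smul_left, RS.h_smul_left, hee, hev, hve]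
        ext i
        simp only [Pi.smul_apply, Pi.sub_apply, smul_eq_mul]
        field_simp
        ring
      have hz3 : ((z : Matrix (Fin n) (Fin n) F) - 1) ^ 3 = 0 := by
        apply Matrix.mulVec_injective
        funext x
        rw [pow_succ, pow_two, ← Matrix.mulVec_mulVec, ← Matrix.mulVec_mulVec, hz2, Matrix.zero_mulVec, hz1, RS.h_smul_left,
          RS.h_sub_left, RS.h_sub_left, RS.h_smul_left, RS.h_smul_left, RS.h_smul_left, hve, hee]
        simp
      have hzO : z ∈ OA A := OA_of_form fun x y =>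
        ((RS.isom_R (S := S) trivial hvv).mul (RS.isom_R (S := S) trivial hve0)).2 x trivial y trivial
      have hzc := hcomm z hzO ⟨1, pow_of_cube r hr hz3⟩
      have hT1 : ∀ x, TT g τ (((z : Matrix (Fin n) (Fin n) F) - 1) *ᵥ x) = ((z : Matrix (Fin n) (Fin n) F) - 1) *ᵥ TT g τ x := by
        intro x
        rw [Matrix.sub_mulVec, Matrix.sub_mulVec, Matrix.one_mulVec, Matrix.one_mulVec, sub_eq_add_neg, TT_add, TT_mulVec hzc,
          sub_eq_add_neg]
        congr 1
        have := TT_smul g τ (-1) x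
        rwa [neg_one_smul, map_neg, map_one, neg_one_smul] at this
      obtain ⟨y, hy, hey⟩ := S.nondeg he he0
      change S.h e y ≠ 0 at hey
      have hye : S.h y e ≠ 0 := by rw [RS.h_symm hy he]; exact hey
      have h7 := hT1 (((z : Matrix (Fin n) (Fin n) F) - 1) *ᵥ y)
      rw [hT1 y, hz2, hz2, TT_smul] at h7
      have h40 : (4 : F) ≠ 0 := by
        have : (4 : F) = 2 * 2 := by norm_num
        rw [this]; exact mul_ne_zero h2 h2
      have hs0 : τ (-(4 / S.h v v) * S.h y e) ≠ 0 := by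
        rw [Ne, map_eq_zero_iff τ τ.injective]
        exact mul_ne_zero (neg_ne_zero.2 (div_ne_zero h40 hvv)) hye
      refine ⟨(τ (-(4 / S.h v v) * S.h y e))⁻¹ * (-(4 / S.h v v) * S.h (TT g τ y) e), ?_⟩
      rw [mul_smul, ← h7, smul_smul, inv_mul_cancel₀ hs0, one_smul])
    have hτ1 : τ = RingEquiv.refl F := tau_refl fun c => h5 c trivial
    subst hτ1
    apply cAut_eq_one_of_smul hn2 (α := α)
    apply Matrix.mulVec_injective
    funext y
    rw [Matrix.smul_mulVec, Matrix.one_mulVec]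
    exact h6 y trivial

/-- the alternating case -/
theorem good_alt (hn : 3 ≤ n) (r : ℕ) [Fact r.Prime] [CharP F r] (hr : r ≠ 2) (A : GL (Fin n) F)
    (hA : (((A⁻¹ : GL (Fin n) F) : Matrix (Fin n) (Fin n) F))ᵀ = (-1 : F) • ((A⁻¹ : GL (Fin n) F) : Matrix (Fin n) (Fin n) F)) :
    Good 2 r (diagHom n F).range (diagHom n F A * iAut (Fin n) F) := by
  have hn2 : 2 ≤ n := by omega
  have h2 : (2 : F) ≠ 0 := by
    have := Ring.two_ne_zero (R := F) (by rw [ringChar.eq F r]; exact hr)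
    exact this
  have hfin : Finite (MulAut (Matrix.ProjectiveSpecialLinearGroup (Fin n) F)) := by
    have : Finite (Matrix.ProjectiveSpecialLinearGroup (Fin n) F) := Quotient.finite _
    infer_instance
  set S := ssA A h2 hA with hS
  have h3 : ∀ v w : Fin n → F, ∃ x ∈ S.V, ∀ a b : F, x ≠ a • v + b • w := by
    intro v w
    obtain ⟨x, hx⟩ := three_vec hn v w
    exact ⟨x, trivial, hx⟩
  have hex : ∃ v ∈ S.V, v ≠ 0 := by
    obtain ⟨x, hx⟩ := three_vec hn (0 : Fin n → F) 0
    refine ⟨x, trivial, ?_⟩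
    have := hx 0 0
    simpa using this
  have hV : ∀ v : Fin n → F, v ∈ S.V := fun _ => trivial
  have hpow : ∀ (v : Fin n → F) (a : F), S.t v (hV v) a ^ r ^ 1 = 1 := by
    intro v a
    rw [pow_one, SS.t_pow, CharP.cast_eq_zero, zero_mul, SS.t_zero]
  have htO : ∀ (v : Fin n → F) (a : F), S.t v (hV v) a ∈ OA A := fun v a =>
    OA_of_form fun x y => (SS.isom_t (S := S) (v := v) (hV v) (a := a) trivial).2 x trivial y trivial
  constructor
  · intro Y hY hYc hYn
    rw [eq_bot_iff]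
    intro y hy
    rw [Subgroup.mem_bot]
    obtain ⟨g, hg, rfl⟩ := MM_lift hn2 r _ (hY hy)
    have hgO : g ∈ OA A := by
      have : Subgroup.closure {g : GL (Fin n) F | (∃ k : ℕ, g ^ r ^ k = 1) ∧
          diagHom n F g * (diagHom n F A * iAut (Fin n) F) = (diagHom n F A * iAut (Fin n) F) * diagHom n F g} ≤ OA A := by
        rw [Subgroup.closure_le]
        rintro g ⟨⟨k, hk⟩, h⟩
        exact OA_of_commute hn2 r hk h
      exact this hg
    have hgi : S.Isom g := ⟨fun _ _ => trivial, fun x _ y _ => form_OA hgO x y⟩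
    have hN : ∀ (v : Fin n → F) (hv : v ∈ S.V) (a : F), a ∈ S.k → ∀ g ∈ Y.comap (diagHom n F),
        S.t v hv a * g * (S.t v hv a)⁻¹ ∈ Y.comap (diagHom n F) := by
      intro v hv a _ g hg
      rw [Subgroup.mem_comap, map_mul, map_mul, map_inv]
      exact hYn _ (commute_of_OA (htO v a)) _ hg
    obtain ⟨c, hc⟩ := SS.semi_scalar (S := S) (RingEquiv.refl F) (fun x => (g : Matrix (Fin n) (Fin n) F) *ᵥ x)
      (fun x y => Matrix.mulVec_add _ _ _) (fun c x => Matrix.mulVec_smul _ _ _) (fun c _ => rfl) (fun v hv =>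
      SS.tv_lemma h2 h3 hN (odd_scalar (p := 2) hn2 hYc) hy hgi hv)
    apply cAut_eq_one_of_smul hn2 (α := c)
    apply Matrix.mulVec_injective
    funext y
    rw [Matrix.smul_mulVec, Matrix.one_mulVec]
    exact hc y trivial
  · intro x hx hox hxm
    obtain ⟨g, τ, rfl, hτ⟩ := semilinear_of_odd hn2 hox
    obtain ⟨h5, α, h6⟩ := SS.semi_lemma (S := S) τ (TT g τ) (TT_add g τ) (TT_smul g τ) (TT_inj g τ) hex (by
      intro v hv a _ x
      apply TT_mulVec
      apply commute_unip hn2 r (hpow v a)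
      apply hxm
      exact mem_MM r _ _ ⟨_, rfl⟩ (commute_of_OA (htO v a)) (k := 1) (by rw [← map_pow, hpow v a, map_one]))
    have hτ1 : τ = RingEquiv.refl F := tau_refl fun c => h5 c trivial
    subst hτ1
    apply cAut_eq_one_of_smul hn2 (α := α)
    apply Matrix.mulVec_injective
    funext y
    rw [Matrix.smul_mulVec, Matrix.one_mulVec]
    exact h6 y trivial

/-- **involutory graph automorphisms** -/
theorem good_graph (hn : 3 ≤ n) (r : ℕ) [Fact r.Prime] [CharP F r] (hr : r ≠ 2) (A : GL (Fin n) F)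
    (hβ : (diagHom n F A * iAut (Fin n) F) ^ 2 = 1) :
    Good 2 r (diagHom n F).range (diagHom n F A * iAut (Fin n) F) := by
  have hn2 : 2 ≤ n := by omega
  rw [pow_two, mul_assoc, ← mul_assoc (iAut (Fin n) F), diagHom_apply, iAut_mul_cAut, mul_assoc, iAut_mul_iAut, mul_one,
    ← diagHom_apply, ← diagHom_apply, ← map_mul, ← map_one (diagHom n F), diagHom_eq_iff hn2] at hβ
  obtain ⟨c, hc⟩ := hβ
  rw [one_mul] at hc
  have h1 : invTGL A = A⁻¹ * Matrix.GeneralLinearGroup.scalar (Fin n) c := by rw [← hc, inv_mul_cancel_left]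
  have h2 : (((A⁻¹ : GL (Fin n) F) : Matrix (Fin n) (Fin n) F))ᵀ = (c : F) • ((A⁻¹ : GL (Fin n) F) : Matrix (Fin n) (Fin n) F) := by
    rw [← coe_invTGL, h1, Units.val_mul, Matrix.GeneralLinearGroup.coe_scalar, Matrix.scalar_apply, ← Matrix.smul_one_eq_diagonal,
      Matrix.mul_smul, Matrix.mul_one]
  have h3 : (c : F) * c = 1 := by
    have h4 : ((A⁻¹ : GL (Fin n) F) : Matrix (Fin n) (Fin n) F) = ((c : F) * c) • ((A⁻¹ : GL (Fin n) F) : Matrix (Fin n) (Fin n) F) := by
      conv_lhs => rw [← Matrix.transpose_transpose ((A⁻¹ : GL (Fin n) F) : Matrix (Fin n) (Fin n) F), h2, Matrix.transpose_smul, h2,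
        smul_smul]
    have h5 := congrArg (fun M => (A : Matrix (Fin n) (Fin n) F) * M) h4
    simp only [Matrix.mul_smul, ← Units.val_mul, mul_inv_cancel, Units.val_one] at h5
    have h6 := congrArg (fun M : Matrix (Fin n) (Fin n) F => M ⟨0, by omega⟩ ⟨0, by omega⟩) h5
    simp only [Matrix.smul_apply, Matrix.one_apply_eq, smul_eq_mul, mul_one] at h6
    exact h6.symm
  have h7 : ((c : F) - 1) * ((c : F) + 1) = 0 := by linear_combination h3
  rcases mul_eq_zero.1 h7 with h | h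
  · rw [sub_eq_zero.1 h, one_smul] at h2
    exact good_sym hn r hr A h2
  · rw [eq_neg_of_add_eq_zero_left h] at h2
    exact good_alt hn r hr A h2

end Cfsg.Agent.LB
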