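import Cfsg.Agent.LB.PslF2
import Cfsg.Agent.Uni.Simple

/-!
Local balance criterion for `PSL_n(q)`: graph-field automorphisms.
-/

set_option autoImplicit false

namespace Cfsg.Agent.LB

open Matrix Cfsg.Agent.AutPSL Cfsg.Agent.AutLie

variable {F : Type*} [Field F] {n : ℕ}

open Cfsg.Agent.AutPSU (fixF)

/-- a third index -/
theorem third (hn : 3 ≤ n) (i j : Fin n) : ∃ k : Fin n, k ≠ i ∧ k ≠ j := by
  have : ∃ k : Fin n, k ∉ ({i, j} : Finset (Fin n)) := by
    by_contra hcon
    push Not at hcon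
    have h5 : (Finset.univ : Finset (Fin n)) ⊆ {i, j} := fun k _ => hcon k
    have h6 := (Finset.card_le_card h5).trans Finset.card_le_two
    rw [Finset.card_univ, Fintype.card_fin] at h6
    omega
  obtain ⟨k, hk⟩ := this
  simp only [Finset.mem_insert, Finset.mem_singleton, not_or] at hk
  exact ⟨k, hk.1, hk.2⟩

theorem TT_pair (g : GL (Fin n) F) (τ : F ≃+* F) {i j : Fin n} (s : F) (k : Fin n) :
    TT g τ (Pi.single i 1 + s • Pi.single j 1) k = (g : Matrix (Fin n) (Fin n) F) k i + τ s * (g : Matrix (Fin n) (Fin n) F) k j := by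
  have h1 : ∀ l : Fin n, TT g τ (Pi.single l 1) = fun k => (g : Matrix (Fin n) (Fin n) F) k l := by
    intro l
    have : (fun i => τ ((Pi.single l 1 : Fin n → F) i)) = Pi.single l 1 := by
      funext m
      by_cases hm : m = l
      · subst hm; simp
      · rw [Pi.single_eq_of_ne hm, map_zero]
    rw [TT, this]
    funext k
    rw [Matrix.mulVec_single_one]
    rfl
  rw [TT_add, TT_smul, h1, h1]
  rfl

/-- semilinear maps preserving many lines -/
theorem line_lemma [Finite F] (hn : 3 ≤ n) (g : GL (Fin n) F) (τ : F ≃+* F) (S : Set F) {s₁ s₂ : F} (h₁ : s₁ ∈ S) (h₂ : s₂ ∈ S)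
    (h₁₂ : s₁ ≠ s₂) (hS : ∀ s ∈ S, s ≠ 0)
    (h : ∀ i j : Fin n, i ≠ j → ∀ s ∈ S, ∃ c : F, TT g τ (Pi.single i 1 + s • Pi.single j 1) = c • (Pi.single i 1 + s • Pi.single j 1)) :
    (∃ α : F, (g : Matrix (Fin n) (Fin n) F) = α • (1 : Matrix _ _ F)) ∧ ∀ s ∈ S, τ s = s := by
  have e1 : ∀ k j : Fin n, k ≠ j → (g : Matrix (Fin n) (Fin n) F) k j = 0 := by
    intro k j hkj
    obtain ⟨i, hik, hij⟩ := third hn k j
    have key : ∀ s ∈ S, (g : Matrix (Fin n) (Fin n) F) k i + τ s * (g : Matrix (Fin n) (Fin n) F) k j = 0 := by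
      intro s hs
      obtain ⟨c, hc⟩ := h i j hij s hs
      have := congrFun hc k
      rw [TT_pair] at this
      rw [this, Pi.smul_apply, Pi.add_apply, Pi.smul_apply, Pi.single_eq_of_ne hik.symm, Pi.single_eq_of_ne hkj]
      simp
    have h3 := key s₁ h₁
    have h4 := key s₂ h₂
    have h5 : (τ s₁ - τ s₂) * (g : Matrix (Fin n) (Fin n) F) k j = 0 := by linear_combination h3 - h4
    rcases mul_eq_zero.1 h5 with h6 | h6
    · exact absurd (τ.injective (sub_eq_zero.1 h6)) h₁₂
    · exact h6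
  have e2 : ∀ i j : Fin n, i ≠ j → ∀ s ∈ S,
      τ s * (g : Matrix (Fin n) (Fin n) F) j j = s * (g : Matrix (Fin n) (Fin n) F) i i := by
    intro i j hij s hs
    obtain ⟨c, hc⟩ := h i j hij s hs
    have h3 := congrFun hc i
    have h4 := congrFun hc j
    rw [TT_pair, e1 i j hij, Pi.smul_apply, Pi.add_apply, Pi.smul_apply, Pi.single_eq_same, Pi.single_eq_of_ne hij] at h3
    rw [TT_pair, e1 j i hij.symm, Pi.smul_apply, Pi.add_apply, Pi.smul_apply, Pi.single_eq_same, Pi.single_eq_of_ne hij.symm] at h4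
    simp only [smul_eq_mul, mul_zero, add_zero, mul_one, zero_add] at h3 h4
    rw [h4, h3, mul_comm]
  have e3 : ∀ i j : Fin n, i ≠ j → (g : Matrix (Fin n) (Fin n) F) i i = (g : Matrix (Fin n) (Fin n) F) j j := by
    intro i j hij
    obtain ⟨k, hki, hkj⟩ := third hn i j
    have h3 := e2 i k hki.symm s₁ h₁
    have h4 := e2 j k hkj.symm s₁ h₁
    exact mul_left_cancel₀ (hS s₁ h₁) (h3.symm.trans h4)
  have hsc := scalar_of_entries (by omega : 2 ≤ n) e1 e3
  refine ⟨⟨_, hsc⟩, ?_⟩
  have h0 : (g : Matrix (Fin n) (Fin n) F) ⟨0, by omega⟩ ⟨0, by omega⟩ ≠ 0 := by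
    intro h0
    rw [h0, zero_smul] at hsc
    have h1 := g.det_ne_zero
    have : Nonempty (Fin n) := ⟨⟨0, by omega⟩⟩
    rw [hsc, Matrix.det_zero] at h1
    exact h1 rfl
  intro s hs
  have h01 : (⟨1, by omega⟩ : Fin n) ≠ ⟨0, by omega⟩ := by simp
  have h3 := e2 _ _ h01 s hs
  rw [e3 _ _ h01] at h3
  exact mul_right_cancel₀ h0 h3

/-- unipotent matrices -/
theorem pow_of_sq (r : ℕ) [Fact r.Prime] [CharP F r] {g : GL (Fin n) F}
    (h : ((g : Matrix (Fin n) (Fin n) F) - 1) ^ 2 = 0) : g ^ r ^ 1 = 1 := by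
  have hr2 : 2 ≤ r := (Fact.out : r.Prime).two_le
  apply Units.ext
  rw [pow_one, Units.val_pow_eq_pow_val, Units.val_one]
  rcases Nat.eq_zero_or_pos n with h0 | hpos
  · subst h0; ext i; exact i.elim0
  have : Nonempty (Fin n) := ⟨⟨0, hpos⟩⟩
  have h1 : ((g : Matrix (Fin n) (Fin n) F) - 1) ^ r = (g : Matrix (Fin n) (Fin n) F) ^ r - 1 := by
    have := sub_pow_char_of_commute (R := Matrix (Fin n) (Fin n) F) r (Commute.one_right (g : Matrix (Fin n) (Fin n) F))
    rw [this, one_pow]
  have h2 : ((g : Matrix (Fin n) (Fin n) F) - 1) ^ r = 0 := by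
    rw [show r = 2 + (r - 2) by omega, pow_add, h, zero_mul]
  rw [h2] at h1
  exact (sub_eq_zero.1 h1.symm)

section herm

variable [Fintype F] {q : ℕ}

/-- elements of `SU` as matrices over `GL` -/
def suGL (s : Cfsg.SU n F q) : GL (Fin n) F := Matrix.SpecialLinearGroup.toGL (s : Matrix.SpecialLinearGroup (Fin n) F)

def suHom (n : ℕ) (F : Type*) [Field F] [Fintype F] (q : ℕ) : Cfsg.SU n F q →* GL (Fin n) F :=
  (Matrix.SpecialLinearGroup.toGL).comp (Cfsg.SU n F q).subtype

theorem suHom_coe (s : Cfsg.SU n F q) : ((suHom n F q s : GL (Fin n) F) : Matrix (Fin n) (Fin n) F) =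
    ((s : Matrix.SpecialLinearGroup (Fin n) F) : Matrix (Fin n) (Fin n) F) := rfl

theorem suHom_mem_GU (hF : Fintype.card F = q ^ 2) (s : Cfsg.SU n F q) : suHom n F q s ∈ Cfsg.GU n F q := by
  have := (Uni.suToGU hF n s).2
  have h2 : suHom n F q s = (Uni.suToGU hF n s : GL (Fin n) F) := Units.ext rfl
  rw [h2]; exact this

/-- transvections as elements of `GU` of order `r` -/
theorem transv_sq (hF : Fintype.card F = q ^ 2) {u : Fin n → F} {a : F}
    (hu : hermForm n F q u u = 0) (ha : a ^ q = -a) :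
    ∃ g : Cfsg.SU n F q, (∀ x, Uni.act g x = x + (a * hermForm n F q x u) • u) ∧
      ((suHom n F q g : Matrix (Fin n) (Fin n) F) - 1) ^ 2 = 0 := by
  obtain ⟨g, -, hg⟩ := Uni.exists_transv hF hu ha
  refine ⟨g, hg, ?_⟩
  have h1 : ∀ x, ((suHom n F q g : Matrix (Fin n) (Fin n) F) - 1) *ᵥ x = (a * hermForm n F q x u) • u := by
    intro x
    rw [Matrix.sub_mulVec, Matrix.one_mulVec]
    have := hg x
    rw [Uni.act_def] at this
    rw [suHom_coe, this, add_sub_cancel_left]
  apply Matrix.mulVec_injective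
  funext x
  rw [pow_two, ← Matrix.mulVec_mulVec, Matrix.zero_mulVec, h1, h1, Uni.hermForm_smul_left, hu]
  simp

/-- semilinear maps commuting with a transvection preserve its center -/
theorem center_line (hF : Fintype.card F = q ^ 2) {u : Fin n → F} (hu0 : u ≠ 0) {a : F} (ha0 : a ≠ 0) {t : Cfsg.SU n F q}
    (ht : ∀ x, Uni.act t x = x + (a * hermForm n F q x u) • u) {g : GL (Fin n) F} {τ : F ≃+* F}
    (hc : g * mapGL τ (suHom n F q t) = suHom n F q t * g) : ∃ c : F, TT g τ u = c • u := by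
  have h1 : ∀ x, ((suHom n F q t : GL (Fin n) F) : Matrix (Fin n) (Fin n) F) *ᵥ x = x + (a * hermForm n F q x u) • u := by
    intro x
    rw [← ht, Uni.act_def]; rfl
  obtain ⟨x, hx⟩ : ∃ x, hermForm n F q x u ≠ 0 := by
    by_contra hcon
    push Not at hcon
    exact hu0 (Uni.hermForm_nondeg' hF hcon)
  have h2 := TT_mulVec hc x
  rw [h1, h1, TT_add, TT_smul] at h2
  have h3 := add_left_cancel h2
  have h4 : τ (a * hermForm n F q x u) ≠ 0 := by
    rw [Ne, map_eq_zero_iff τ τ.injective]
    exact mul_ne_zero ha0 hx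
  refine ⟨(τ (a * hermForm n F q x u))⁻¹ * (a * hermForm n F q (TT g τ x) u), ?_⟩
  rw [mul_smul, ← h3, smul_smul, inv_mul_cancel₀ h4, one_smul]

theorem herm_pair {i j : Fin n} (hij : i ≠ j) {s : F} (hs : s ^ (q + 1) = -1) :
    hermForm n F q (Pi.single i 1 + s • Pi.single j 1) (Pi.single i 1 + s • Pi.single j 1) = 0 := by
  rw [Uni.hermForm_add_left, Uni.hermForm_smul_left, Uni.hermForm_single_left, Uni.hermForm_single_left]
  rw [Pi.add_apply, Pi.add_apply, Pi.smul_apply, Pi.smul_apply, Pi.single_eq_same, Pi.single_eq_same, Pi.single_eq_of_ne hij,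
    Pi.single_eq_of_ne hij.symm, smul_zero, add_zero, one_pow, zero_add, smul_eq_mul, mul_one, ← pow_succ', hs]
  ring

omit [Fintype F] in
theorem pair_ne_zero {i j : Fin n} (hij : i ≠ j) (s : F) : (Pi.single i 1 + s • Pi.single j 1 : Fin n → F) ≠ 0 := by
  intro h
  have := congrFun h i
  rw [Pi.add_apply, Pi.smul_apply, Pi.single_eq_same, Pi.single_eq_of_ne hij] at this
  simp at this

/-- a field automorphism fixing more than `q` elements is trivial -/
theorem fix_all (hF : Fintype.card F = q ^ 2) {τ : F ≃+* F} (h : ∀ s : F, s ^ (q + 1) = -1 → τ s = s) (x : F) : τ x = x := by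
  classical
  have hcard : q < Nat.card (fixF τ) := by
    have h1 : Nat.card {x : F // x ^ (q + 1) = -1} = q + 1 :=
      Uni.card_norm_eq hF (by rw [Uni.neg_pow_q hF, one_pow]) (by simp)
    have h2 : Nat.card {x : F // x ^ (q + 1) = -1} ≤ Nat.card (fixF τ) := by
      refine Nat.card_le_card_of_injective (fun y => (⟨y.1, h _ y.2⟩ : fixF τ)) ?_
      intro a b hab
      exact Subtype.ext (congrArg (fun z : fixF τ => (z : F)) hab)
    omega
  have hfr := Module.natCard_eq_pow_finrank (K := fixF τ) (V := F)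
  rw [Nat.card_eq_fintype_card, hF] at hfr
  have hd : Module.finrank (fixF τ) F < 2 := by
    by_contra hcon
    push Not at hcon
    have h3 : (Nat.card (fixF τ)) ^ 2 ≤ (Nat.card (fixF τ)) ^ Module.finrank (fixF τ) F :=
      Nat.pow_le_pow_right (by omega) hcon
    rw [← hfr] at h3
    have := Nat.pow_lt_pow_left hcard (n := 2) (by norm_num)
    omega
  have hd1 : Module.finrank (fixF τ) F = 1 := by
    have := Module.finrank_pos (R := fixF τ) (M := F)
    omega
  have h5 := (finrank_eq_one_iff_of_nonzero' (1 : F) one_ne_zero).1 hd1 x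
  obtain ⟨c, hc⟩ := h5
  rw [← hc]
  have : (c • (1 : F)) = (c : F) := by rw [Subfield.smul_def, smul_eq_mul, mul_one]
  rw [this]
  exact c.2

/-- elements of `Y` of order prime to `p` -/
theorem comap_normal {G Γ : Type*} [Group G] [Group Γ] (f : G →* Γ) {Y : Subgroup Γ} (h : ∀ s, ∀ y ∈ Y, f s * y * (f s)⁻¹ ∈ Y) :
    (Y.comap f).Normal := by
  refine ⟨fun g hg s => ?_⟩
  change f (s * g * s⁻¹) ∈ Y
  rw [map_mul, map_mul, map_inv]
  exact h s _ hg

/-- **graph-field automorphisms** -/
theorem good_graphField (hF : Fintype.card F = q ^ 2) (hn : 3 ≤ n) (r : ℕ) [Fact r.Prime] [CharP F r] (hr : r ≠ 2) :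
    Good 2 r (diagHom n F).range (cAut 1 (frobQ hF) * iAut (Fin n) F) := by
  have hn2 : 2 ≤ n := by omega
  have h2 : (2 : F) ≠ 0 := Ring.two_ne_zero (R := F) (by rw [ringChar.eq F r]; exact hr)
  have hm1 : (-1 : F) ≠ 1 := by
    intro h
    apply h2
    linear_combination -h
  have hq2 : q ≠ 2 := by
    intro hq
    have hp' : r.Prime := Fact.out
    have h3 : r ∣ 2 := by
      have : r ∣ q ^ 2 := by
        rw [← hF]
        exact (CharP.cast_eq_zero_iff F r _).1 (by simp)
      rw [hq] at this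
      exact hp'.dvd_of_dvd_pow this
    exact hr ((Nat.prime_dvd_prime_iff_eq hp' Nat.prime_two).1 h3)
  have hfinK : Finite (Matrix.ProjectiveSpecialLinearGroup (Fin n) F) := Quotient.finite _
  have hfin : Finite (MulAut (Matrix.ProjectiveSpecialLinearGroup (Fin n) F)) := inferInstance
  have hcomm : ∀ s : Cfsg.SU n F q, diagHom n F (suHom n F q s) * (cAut 1 (frobQ hF) * iAut (Fin n) F) =
      (cAut 1 (frobQ hF) * iAut (Fin n) F) * diagHom n F (suHom n F q s) := by
    intro s
    rw [commute_psi_iff hF hn2]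
    refine ⟨1, ?_⟩
    rw [map_one, mul_one]
    exact suHom_mem_GU hF s
  constructor
  · intro Y hY hYc hYn
    -- elements of `Y`
    have hYlift : ∀ y ∈ Y, ∃ s : Cfsg.SU n F q, diagHom n F (suHom n F q s) = y := by
      intro y hy
      obtain ⟨g, hg, rfl⟩ := MM_lift hn2 r _ (hY hy)
      have hgR : g ∈ (suHom n F q).range := by
        refine (Subgroup.closure_le (K := (suHom n F q).range)).2 ?_ hg
        rintro g ⟨⟨k, hk⟩, h⟩
        rw [psi_comm, mul_left_inj, eq_comm, diagHom_eq_iff hn2] at h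
        obtain ⟨c, hc⟩ := h
        have h3 : (mapGL (frobQ hF) (invTGL g)) ^ r ^ k = 1 := by
          have h4 : invTGL g ^ r ^ k = 1 := by
            have : ∀ m : ℕ, invTGL g ^ m = invTGL (g ^ m) := by
              intro m
              induction m with
              | zero => 
                rw [pow_zero, pow_zero]
                apply Units.ext
                rw [coe_invTGL, inv_one, Units.val_one, Matrix.transpose_one]
              | succ m ih => rw [pow_succ, ih, pow_succ, invTGL_mul]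
            rw [this, hk]
            apply Units.ext
            rw [coe_invTGL, inv_one, Units.val_one, Matrix.transpose_one]
          rw [← map_pow, h4, map_one]
        rw [hc, Commute.mul_pow (scalar_comm c g), hk, one_mul, scalar_pow, ← map_one (Matrix.GeneralLinearGroup.scalar (Fin n) : Fˣ →* _)] at h3
        have h5 := eq_one_of_pow r (scalar_injective (n := n) (by omega) h3)
        rw [h5, map_one, mul_one] at hc
        have h6 : g ∈ Cfsg.GU n F q := (mem_GU_iff hF g).2 hc
        have h7 := det_of_pow r hk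
        refine ⟨Uni.mkSU (g : Matrix (Fin n) (Fin n) F) (Uni.GU_pres ⟨g, h6⟩) ?_, Units.ext rfl⟩
        have := congrArg Units.val h7
        rwa [Matrix.GeneralLinearGroup.val_det_apply, Units.val_one] at this
      obtain ⟨s, rfl⟩ := hgR
      exact ⟨s, rfl⟩
    let ρ : Cfsg.SU n F q →* MulAut (Matrix.ProjectiveSpecialLinearGroup (Fin n) F) := (diagHom n F).comp (suHom n F q)
    have hN : (Y.comap ρ).Normal := comap_normal ρ fun s y hy => hYn _ (hcomm s) y hy
    rcases Uni.normal_le_center_or_top hF hn (fun h => hq2 h.2) (Y.comap ρ) with h | h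
    · rw [eq_bot_iff]
      intro y hy
      obtain ⟨s, rfl⟩ := hYlift y hy
      obtain ⟨c, hc⟩ := (Uni.mem_center_SU_iff hF hn2 s).1 (h hy)
      refine cAut_eq_one_of_smul hn2 (α := c) ?_
      rw [suHom_coe, hc, Matrix.smul_one_eq_diagonal]
    · exfalso
      have h01 : (⟨0, by omega⟩ : Fin n) ≠ ⟨1, by omega⟩ := by simp
      obtain ⟨s, hs⟩ := Uni.exists_SU_diag _ _ h01 (Uni.neg_one_pow_succ hF)
      have hsY : ρ s ∈ Y := by
        have : s ∈ Y.comap ρ := h ▸ Subgroup.mem_top s
        exact this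
      have hs2 : suHom n F q s ^ 2 = 1 := by
        apply Units.ext
        rw [pow_two, Units.val_mul, suHom_coe, hs, Matrix.diagonal_mul_diagonal, Units.val_one, ← Matrix.diagonal_one]
        congr 1
        funext k
        by_cases h1 : k = ⟨1, by omega⟩
        · rw [h1, Function.update_self]; norm_num
        · rw [Function.update_of_ne h1]
          by_cases h0 : k = ⟨0, by omega⟩
          · rw [h0, Function.update_self]; norm_num
          · rw [Function.update_of_ne h0]; simp
      have h4 : ρ s = 1 := by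
        apply not_dvd_of_mem Nat.prime_two hYc hsY
        rw [← map_pow]
        change diagHom n F (suHom n F q (s ^ 2)) = 1
        rw [map_pow, hs2, map_one]
      have h5 : cAut (suHom n F q s) (RingEquiv.refl F) = 1 := h4
      rw [cAut_eq_one_iff (by rw [Fintype.card_fin]; exact hn2)] at h5
      obtain ⟨-, c, hc⟩ := h5
      have h6 : ∀ k : Fin n, (Function.update (Function.update (1 : Fin n → F) ⟨0, by omega⟩ (-1)) ⟨1, by omega⟩ (-1)⁻¹) k = c := by
        intro k
        have := congrArg (fun z : GL (Fin n) F => (z : Matrix (Fin n) (Fin n) F) k k) hc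
        simp only [suHom_coe, hs, Matrix.GeneralLinearGroup.coe_scalar, Matrix.scalar_apply, Matrix.diagonal_apply_eq] at this
        exact this
      have h7 := h6 ⟨0, by omega⟩
      have h8 := h6 ⟨2, by omega⟩
      rw [Function.update_of_ne (by simp), Function.update_self] at h7
      rw [Function.update_of_ne (by simp), Function.update_of_ne (by simp)] at h8
      rw [← h8] at h7
      exact hm1 h7
  · intro x _ hox hxm
    obtain ⟨g, τ, rfl, -⟩ := semilinear_of_odd hn2 hox
    obtain ⟨a, ha0, ha⟩ := Uni.exists_skew hF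
    obtain ⟨s₁, hs₁⟩ := Uni.exists_norm_eq hF (c := (-1 : F)) (by rw [Uni.neg_pow_q hF, one_pow])
    have hs0 : ∀ s : F, s ^ (q + 1) = -1 → s ≠ 0 := by
      rintro s hs rfl
      rw [zero_pow (by omega)] at hs
      exact (neg_ne_zero.2 one_ne_zero) hs.symm
    have hs₂ : (-s₁) ^ (q + 1) = -1 := by
      rw [neg_pow, Uni.neg_one_pow_succ hF, one_mul, hs₁]
    have hne : s₁ ≠ -s₁ := by
      intro h
      have h3 : 2 * s₁ = 0 := by linear_combination h
      rcases mul_eq_zero.1 h3 with h4 | h4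
      · exact h2 h4
      · exact hs0 _ hs₁ h4
    obtain ⟨⟨α, hα⟩, hτ⟩ := line_lemma hn g τ {s | s ^ (q + 1) = -1} (s₁ := s₁) (s₂ := -s₁) hs₁ hs₂ hne (fun s hs => hs0 s hs) (by
      intro i j hij s hs
      obtain ⟨t, ht, ht2⟩ := transv_sq hF (herm_pair hij hs) ha
      refine center_line hF (pair_ne_zero hij s) ha0 ht ?_
      apply commute_unip hn2 r (pow_of_sq r ht2)
      apply hxm
      exact mem_MM r _ _ ⟨_, rfl⟩ (hcomm t) (k := 1) (by rw [← map_pow, pow_of_sq r ht2, map_one]))
    have hτ1 : τ = RingEquiv.refl F := RingEquiv.ext (fix_all hF hτ)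
    subst hτ1
    exact cAut_eq_one_of_smul hn2 hα

end herm

end Cfsg.Agent.LB
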