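import Cfsg.Agent.LB.PslGF

/-!
Local balance criterion for `PSL_n(q)`: the theorem.
-/

set_option autoImplicit false

namespace Cfsg.Agent.LB

open Matrix Cfsg.Agent.AutPSL Cfsg.Agent.AutLie

theorem card_fix_conj {K : Type*} [Group K] (α β : MulAut K) :
    Nat.card ↥(MonoidHom.eqLocus (α * β * α⁻¹).toMonoidHom (MonoidHom.id K)) =
      Nat.card ↥(MonoidHom.eqLocus β.toMonoidHom (MonoidHom.id K)) := by
  symm
  refine Nat.card_congr ⟨fun x => ⟨α x.1, ?_⟩, fun x => ⟨α⁻¹ x.1, ?_⟩, ?_, ?_⟩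
  · change α (β (α⁻¹ (α x.1))) = α x.1
    rw [MulAut.inv_apply_self]
    exact congrArg α x.2
  · change β (α⁻¹ x.1) = α⁻¹ x.1
    have : α (β (α⁻¹ x.1)) = x.1 := x.2
    apply α.injective
    rw [this]
    exact (MulAut.apply_inv_self _ _ _).symm
  · intro x; exact Subtype.ext (MulAut.inv_apply_self _ _ _)
  · intro x; exact Subtype.ext (MulAut.apply_inv_self _ _ _)

theorem simple_aux {K : Type*} [Group K] (hK : IsSimpleGroup K) (h : ∀ k : K, MulAut.conj k = 1 → k = 1) :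
    Subgroup.center K = ⊥ ∧ ¬ Group.IsNilpotent K := by
  have h1 : Subgroup.center K = ⊥ := by
    rw [eq_bot_iff]
    intro k hk
    rw [Subgroup.mem_bot]
    apply h
    ext x
    change k * x * k⁻¹ = x
    rw [← Subgroup.mem_center_iff.1 hk x, mul_inv_cancel_right]
  refine ⟨h1, ?_⟩
  intro hnil
  have h2 : Group.IsSolvable K := IsNilpotent.to_isSolvable
  have h3 := (IsSimpleGroup.comm_iff_isSolvable (G := K)).2 h2
  obtain ⟨x, hx⟩ := exists_ne (1 : K)
  apply hx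
  have : x ∈ Subgroup.center K := Subgroup.mem_center_iff.2 fun g => h3 g x
  rw [h1, Subgroup.mem_bot] at this
  exact this

/-- abstract assembly -/
theorem criterion {K : Type*} [Group K] [Finite K] (hK : IsSimpleGroup K) (hconj : ∀ k : K, MulAut.conj k = 1 → k = 1)
    {p r : ℕ} (hp : p.Prime) {D : Subgroup (MulAut K)} (hD : D.Normal) (𝒢 : Subgroup (MulAut K)) (hinn : ∀ k : K, MulAut.conj k ∈ 𝒢)
    (h𝒢 : ∀ x ∈ D, (∃ k : ℕ, x ^ r ^ k = 1) → x ∈ 𝒢) {β : MulAut K} (hord : orderOf β = p) {P : Prop}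
    (h1 : ¬ P → Good p r D β)
    (h2 : P → p ∣ Nat.card ↥(MonoidHom.eqLocus β.toMonoidHom (MonoidHom.id K)) → Good p r D β) :
    Cfsg.pPrimeCore p ↥(𝒢 ⊓ Subgroup.centralizer {β}) ≠ ⊥ ↔
      (P ∧ Nat.Coprime p (Nat.card ↥(MonoidHom.eqLocus β.toMonoidHom (MonoidHom.id K)))) := by
  constructor
  · intro h
    have hng : ¬ Good p r D β := fun hg => h (core_eq_bot hD hg 𝒢 h𝒢)
    have hP : P := by
      by_contra hP
      exact hng (h1 hP)
    refine ⟨hP, ?_⟩
    rw [Nat.Prime.coprime_iff_not_dvd hp]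
    exact fun hd => hng (h2 hP hd)
  · rintro ⟨-, hc⟩
    obtain ⟨hZ, hnn⟩ := simple_aux hK hconj
    exact core_ne_bot hZ hnn hp 𝒢 hinn β hord hc

theorem psl_criterion
    (F : Type*) [Field F] [Fintype F] (r : ℕ) [Fact r.Prime] [CharP F r] (n : ℕ) (hn : 2 ≤ n)
    (hK : IsSimpleGroup (Matrix.ProjectiveSpecialLinearGroup (Fin n) F))
    (𝒢 : Subgroup (MulAut (Matrix.ProjectiveSpecialLinearGroup (Fin n) F))) (hinn : ∀ k : Matrix.ProjectiveSpecialLinearGroup (Fin n) F, MulAut.conj k ∈ 𝒢)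
    (p : ℕ) [Fact p.Prime] (hpr : p ≠ r) (β : MulAut (Matrix.ProjectiveSpecialLinearGroup (Fin n) F)) (hord : orderOf β = p)
    (hnot : ¬ Cfsg.IsInnerDiagonalAutPSL β) :
    Cfsg.pPrimeCore p ↥(𝒢 ⊓ Subgroup.centralizer {β}) ≠ ⊥ ↔
      ((∃ γ φ : MulAut (Matrix.ProjectiveSpecialLinearGroup (Fin n) F), Cfsg.IsInnerDiagonalAutPSL γ ∧ Cfsg.IsFieldAutPSL φ ∧ β = φ.trans γ) ∧
        Nat.Coprime p (Nat.card ↥(MonoidHom.eqLocus β.toMonoidHom (MonoidHom.id (Matrix.ProjectiveSpecialLinearGroup (Fin n) F))))) := by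
  have hp : p.Prime := Fact.out
  have hfinK : Finite (Matrix.ProjectiveSpecialLinearGroup (Fin n) F) := Quotient.finite _
  have hD := normal_range_diagHom (F := F) hn
  have hβp : β ^ p = 1 := by rw [← hord, pow_orderOf_eq_one]
  refine criterion (r := r) hK (fun k => conj_eq_one hn) hp hD 𝒢 hinn (mem_of_pow hn r 𝒢 hinn) hord ?_ ?_
  · intro hP
    rcases typeHom_spec hn β with ⟨_, g, h2⟩ | ⟨h1, h3, g, h2⟩
    · exfalso
      apply hP
      refine ⟨cAut g (RingEquiv.refl F), cAut 1 (typeHom hn β).1, innDiag_iff.2 ⟨g, rfl⟩, ⟨_, stdField_iff.2 rfl⟩, ?_⟩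
      exact h2.trans (cAut_eq g _)
    · have hty : typeHom hn β ^ p = 1 := by rw [← map_pow, hβp, map_one]
      have h4 : (typeHom hn β).2 ^ p = 1 := by rw [← Prod.pow_snd, hty]; rfl
      have h6 : orderOf (typeHom hn β).2 = 2 := by
        have : ∀ z : Multiplicative (ZMod 2), z ≠ 1 → z ^ 2 = 1 := by decide
        exact orderOf_eq_prime (this _ h1) h1
      have hp2 : p = 2 := by
        have := orderOf_dvd_of_pow_eq_one h4
        rw [h6] at this
        exact ((Nat.prime_dvd_prime_iff_eq Nat.prime_two hp).1 this).symm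
      subst hp2
      set σ := (typeHom hn β).1 with hσ
      have hσ2 : σ ^ 2 = 1 := by rw [hσ, ← Prod.pow_fst, hty]; rfl
      have hβ' : β = diagHom n F g * (cAut 1 σ * iAut (Fin n) F) := by
        rw [h2, cAut_eq, mul_assoc]; rfl
      by_cases hσ1 : σ = 1
      · have h7 : β = diagHom n F g * iAut (Fin n) F := by
          rw [h2, hσ1]; rfl
        rw [h7]
        apply good_graph h3 r (Ne.symm hpr)
        rw [← h7, hβp]
      · obtain ⟨m, -, hcard⟩ := FiniteField.card F r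
        obtain ⟨-, hq, hσq⟩ := order2_spec hcard σ hσ1 hσ2
        rw [hβ'] at hβp ⊢
        obtain ⟨B, hB⟩ := graphField_lang h3 σ hσ1 hσ2 g hβp
        apply Good.conj hD (α := (diagHom n F B)⁻¹)
        rw [hB, show (diagHom n F B)⁻¹ * (diagHom n F B * (cAut 1 σ * iAut (Fin n) F) * (diagHom n F B)⁻¹) * ((diagHom n F B)⁻¹)⁻¹ =
          cAut 1 σ * iAut (Fin n) F by group]
        have := good_graphField hq h3 r (Ne.symm hpr)
        rw [← hσq] at this
        exact this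
  · rintro ⟨γ, φ, hγ, ⟨σ, hφ⟩, rfl⟩ hdvd
    obtain ⟨g, rfl⟩ := innDiag_iff.1 hγ
    have hφ' : φ = cAut 1 σ := stdField_iff.1 hφ
    subst hφ'
    have hβ : (cAut 1 σ : MulAut (Matrix.ProjectiveSpecialLinearGroup (Fin n) F)).trans (cAut g (RingEquiv.refl F)) = diagHom n F g * cAut 1 σ := rfl
    rw [hβ] at hord hnot hβp hdvd ⊢
    let σ' : RingAut F := σ
    have hty : typeHom hn (diagHom n F g * cAut 1 σ) = (σ', 1) := by
      rw [diagHom_apply, ← cAut_eq]
      exact typeHom_cAut hn g σ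
    have hσp : σ' ^ p = 1 := by
      have h1 : typeHom hn (diagHom n F g * cAut 1 σ) ^ p = 1 := by rw [← map_pow, hβp, map_one]
      rw [hty] at h1
      exact congrArg Prod.fst h1
    have hσ1 : σ' ≠ 1 := by
      intro h
      apply hnot
      refine innDiag_iff.2 ⟨g, ?_⟩
      have : σ = RingEquiv.refl F := h
      rw [this, diagHom_apply, ← cAut_eq]
    have hσord : orderOf σ' = p := orderOf_eq_prime hσp hσ1
    obtain ⟨B, hB⟩ := field_lang hn σ' g (by rw [hσord]; exact hβp)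
    change diagHom n F g * cAut 1 σ = diagHom n F B * cAut 1 σ * (diagHom n F B)⁻¹ at hB
    rw [hB, card_fix_conj] at hdvd
    apply Good.conj hD (α := (diagHom n F B)⁻¹)
    rw [hB, show (diagHom n F B)⁻¹ * (diagHom n F B * cAut 1 σ * (diagHom n F B)⁻¹) * ((diagHom n F B)⁻¹)⁻¹ =
      cAut 1 σ by group]
    exact good_field hn r hp hpr hσord hdvd

end Cfsg.Agent.LB
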