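import Cfsg.Agent.LB.PslMain
import Cfsg.Agent.AutPSU.Cent
import Cfsg.Agent.AutPSU.Main
import Cfsg.Agent.Uni.PSU32

/-!
Local balance criterion for `PSU_n(q)`: general facts.
-/

set_option autoImplicit false

namespace Cfsg.Agent.LB

open Matrix Cfsg.Agent.AutPSL Cfsg.Agent.AutLie Cfsg.Agent.AutPSU Cfsg.Agent.Uni

variable {F : Type*} [Field F] [Fintype F] {q : ℕ} {n : ℕ}

theorem exists_rootU (r : ℕ) [Fact r.Prime] [CharP F r] (k : ℕ) (c : U1 F q) : ∃ d : U1 F q, d ^ r ^ k = c := by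
  obtain ⟨d, hd⟩ := exists_root F r k (c : Fˣ)
  have h1 : (d ^ (q + 1)) ^ r ^ k = 1 := by
    rw [← pow_mul, mul_comm, pow_mul, hd]
    apply Units.ext
    rw [Units.val_pow_eq_pow_val]
    exact mem_U1.1 c.2
  have h2 := eq_one_of_pow r h1
  refine ⟨⟨d, mem_U1.2 ?_⟩, Subtype.ext hd⟩
  rw [← Units.val_pow_eq_pow_val, h2, Units.val_one]

theorem eq_one_of_powU (r : ℕ) [Fact r.Prime] [CharP F r] {k : ℕ} {c : U1 F q} (h : c ^ r ^ k = 1) : c = 1 :=
  Subtype.ext (eq_one_of_pow r (k := k) (congrArg Subtype.val h))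

theorem scU_comm' (c : U1 F q) (g : GU n F q) : Commute g (scU n F q c) := (scU_comm c g).symm

/-- lifting elements of `r`-power order -/
theorem exists_liftU (hF : Fintype.card F = q ^ 2) (hn : 3 ≤ n) (r : ℕ) [Fact r.Prime] [CharP F r] {k : ℕ} (g : GU n F q)
    (h : (diagU n F q g) ^ r ^ k = 1) : ∃ g' : GU n F q, diagU n F q g' = diagU n F q g ∧ g' ^ r ^ k = 1 := by
  rw [← map_pow, ← map_one (diagU n F q), diagU_eq_iff hF hn] at h
  obtain ⟨c, hc⟩ := h
  rw [one_mul] at hc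
  obtain ⟨d, hd⟩ := exists_rootU r k c⁻¹
  refine ⟨g * scU n F q d, (diagU_eq_iff hF hn _ _).2 ⟨d, rfl⟩, ?_⟩
  rw [Commute.mul_pow (scU_comm' d g), hc, ← map_pow, hd, ← map_mul, mul_inv_cancel, map_one]

theorem detHom_of_pow (hF : Fintype.card F = q ^ 2) (r : ℕ) [Fact r.Prime] [CharP F r] {k : ℕ} {g : GU n F q} (h : g ^ r ^ k = 1) :
    detHom hF n g = 1 := by
  apply eq_one_of_powU r (k := k)
  rw [← map_pow, h, map_one]

/-- unipotent elements are in `SU` -/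
theorem exists_SU_of_pow (hF : Fintype.card F = q ^ 2) (r : ℕ) [Fact r.Prime] [CharP F r] {k : ℕ} {g : GU n F q} (h : g ^ r ^ k = 1) :
    ∃ s : SU n F q, suToGU hF n s = g := by
  have h1 : g ∈ (detHom hF n).ker := detHom_of_pow hF r h
  rw [← suToGU_range hF] at h1
  exact h1

/-- elements of `r`-power order are inner -/
theorem mem_of_powU (hF : Fintype.card F = q ^ 2) (hn : 3 ≤ n) (r : ℕ) [Fact r.Prime] [CharP F r]
    (𝒢 : Subgroup (MulAut (PSU n F q))) (hinn : ∀ k : PSU n F q, MulAut.conj k ∈ 𝒢) :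
    ∀ x ∈ (diagU n F q).range, (∃ k : ℕ, x ^ r ^ k = 1) → x ∈ 𝒢 := by
  rintro _ ⟨g, rfl⟩ ⟨k, hk⟩
  obtain ⟨g', h1, h2⟩ := exists_liftU hF hn r g hk
  obtain ⟨s, hs⟩ := exists_SU_of_pow hF r h2
  rw [← h1, ← hs, ← conj_toPSU hF]
  exact hinn _

/-- elements of `M` come from products of unipotent matrices -/
theorem MM_liftU (hF : Fintype.card F = q ^ 2) (hn : 3 ≤ n) (r : ℕ) [Fact r.Prime] [CharP F r]
    (β : MulAut (PSU n F q)) :
    MM r (diagU n F q).range β ≤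
      (Subgroup.closure {g : GU n F q | (∃ k : ℕ, g ^ r ^ k = 1) ∧ diagU n F q g * β = β * diagU n F q g}).map (diagU n F q) := by
  rw [MM, Subgroup.closure_le]
  rintro _ ⟨⟨g, rfl⟩, h2, k, h3⟩
  obtain ⟨g', h4, h5⟩ := exists_liftU hF hn r g h3
  exact ⟨g', Subgroup.subset_closure ⟨⟨k, h5⟩, by rw [h4]; exact h2⟩, h4⟩

/-- commuting with a unipotent element, up to scalars -/
theorem commute_unipU' (hF : Fintype.card F = q ^ 2) (hn : 3 ≤ n) (r : ℕ) [Fact r.Prime] [CharP F r] {g m m' : GU n F q} {k : ℕ}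
    (hm : m ^ r ^ k = 1) (hm' : m' ^ r ^ k = 1)
    (h : diagU n F q (g * m') = diagU n F q (m * g)) : g * m' = m * g := by
  rw [diagU_eq_iff hF hn] at h
  obtain ⟨c, hc⟩ := h
  have h1 : g * m' * g⁻¹ = m * scU n F q c := by
    rw [hc, mul_assoc m g, (scU_comm' c g).eq, mul_assoc m, mul_inv_cancel_right]
  have h2 : (g * m' * g⁻¹) ^ r ^ k = 1 := by
    rw [conj_pow, hm', mul_one, mul_inv_cancel]
  rw [h1, Commute.mul_pow (scU_comm' c m), hm, one_mul, ← map_pow, ← map_one (scU n F q)] at h2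
  have h3 := eq_one_of_powU r (scU_injective (n := n) (by omega) h2)
  rw [h3, map_one, mul_one] at h1
  exact mul_inv_eq_iff_eq_mul.1 h1

/-- commuting with a unipotent element -/
theorem commute_unipU (hF : Fintype.card F = q ^ 2) (hn : 3 ≤ n) (r : ℕ) [Fact r.Prime] [CharP F r] {g m : GU n F q} {τ : F ≃+* F}
    {k : ℕ} (hm : m ^ r ^ k = 1) (h : cAutU g τ * diagU n F q m = diagU n F q m * cAutU g τ) : g * mapGU τ m = m * g := by
  apply commute_unipU' hF hn r hm (k := k) (by rw [← map_pow, hm, map_one])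
  rw [cAutU_eq, mul_assoc, phiU_comm, ← mul_assoc, ← mul_assoc, mul_left_inj] at h
  rw [map_mul, map_mul]
  exact h

/-- the fixed points of a twisted automorphism among unipotent elements -/
theorem commute_unipU2 (hF : Fintype.card F = q ^ 2) (hn : 3 ≤ n) (r : ℕ) [Fact r.Prime] [CharP F r] {A m : GU n F q} {σ : F ≃+* F}
    {k : ℕ} (hm : m ^ r ^ k = 1) (h : diagU n F q m * (diagU n F q A * cAutU 1 σ) = (diagU n F q A * cAutU 1 σ) * diagU n F q m) :
    m * A = A * mapGU σ m := by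
  refine (commute_unipU (g := A) (τ := σ) hF hn r hm ?_).symm
  rw [cAutU_eq]
  exact h.symm

theorem commute_of_fix {A m : GU n F q} {σ : F ≃+* F} (h : m * A = A * mapGU σ m) :
    diagU n F q m * (diagU n F q A * cAutU 1 σ) = (diagU n F q A * cAutU 1 σ) * diagU n F q m := by
  rw [mul_assoc, phiU_comm, ← mul_assoc, ← mul_assoc, ← map_mul, ← map_mul, h]

theorem cAutU_eq_one_of_smul (hF : Fintype.card F = q ^ 2) (hn : 3 ≤ n) {g : GU n F q} {α : F}
    (h : ((g : GL (Fin n) F) : Matrix (Fin n) (Fin n) F) = α • (1 : Matrix _ _ F)) : cAutU g (RingEquiv.refl F) = 1 := by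
  have hα : α ≠ 0 := by
    rintro rfl
    rw [zero_smul] at h
    have h1 := (g : GL (Fin n) F).det_ne_zero
    have : Nonempty (Fin n) := ⟨⟨0, by omega⟩⟩
    rw [h, Matrix.det_zero] at h1
    exact h1 rfl
  have hg : (g : GL (Fin n) F) = Matrix.GeneralLinearGroup.scalar (Fin n) (Units.mk0 α hα) := by
    apply Units.ext
    rw [h, Matrix.GeneralLinearGroup.coe_scalar, Matrix.scalar_apply, Matrix.smul_one_eq_diagonal]
    rfl
  have hU : Units.mk0 α hα ∈ U1 F q := by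
    rw [← scalar_mem_GU_iff (n := n) (by omega), ← hg]
    exact g.2
  exact (cAutU_eq_one_iff hF hn g _).2 ⟨rfl, ⟨_, hU⟩, Subtype.ext hg⟩

theorem of_diagU_eq_one (hF : Fintype.card F = q ^ 2) (hn : 3 ≤ n) {g : GU n F q} (h : diagU n F q g = 1) :
    ∃ α : F, ((g : GL (Fin n) F) : Matrix (Fin n) (Fin n) F) = α • (1 : Matrix _ _ F) := by
  rw [← map_one (diagU n F q), diagU_eq_iff hF hn] at h
  obtain ⟨c, hc⟩ := h
  rw [one_mul] at hc
  refine ⟨(c : Fˣ), ?_⟩
  rw [hc, coe_scU, Matrix.GeneralLinearGroup.coe_scalar, Matrix.scalar_apply, Matrix.smul_one_eq_diagonal]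

theorem conjU_eq_one (hF : Fintype.card F = q ^ 2) (hn : 3 ≤ n) {k : PSU n F q} (h : MulAut.conj k = 1) : k = 1 := by
  obtain ⟨s, rfl⟩ := toPSU_surjective k
  rw [conj_toPSU hF] at h
  obtain ⟨α, hα⟩ := of_diagU_eq_one hF hn h
  rw [suToGU_coe] at hα
  refine (QuotientGroup.eq_one_iff s).2 ?_
  rw [mem_center_SU_iff hF (by omega)]
  exact ⟨α, by rw [hα, Matrix.smul_one_eq_diagonal]⟩

theorem not_simple_32 (hF : Fintype.card F = 2 ^ 2) : ¬ IsSimpleGroup (PSU 3 F 2) := by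
  intro h
  obtain ⟨N, hN, hc⟩ := P32.exists_normal_nine hF
  rcases hN.eq_bot_or_eq_top with h1 | h1
  · rw [h1, Subgroup.card_bot] at hc; omega
  · rw [h1, Subgroup.card_top, P32.card_PSU hF] at hc; omega

theorem not32 (hF : Fintype.card F = q ^ 2) (h : IsSimpleGroup (PSU n F q)) : ¬ (n = 3 ∧ q = 2) := by
  rintro ⟨rfl, rfl⟩
  exact not_simple_32 hF h

/-- normal subgroups of `SU_3(2)` of order prime to 3 modulo the centre are central -/
theorem normal32 (hF : Fintype.card F = 2 ^ 2) (N : Subgroup (SU 3 F 2)) (hN : N.Normal)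
    (h : ∀ y ∈ N, ∃ m : ℕ, m.Coprime 3 ∧ y ^ m ∈ Subgroup.center (SU 3 F 2)) : N ≤ Subgroup.center (SU 3 F 2) := by
  intro g hg
  obtain ⟨M, hM, hM9⟩ := P32.exists_normal_nine hF
  -- the image of `N` meets `M` trivially
  have hinf : ∀ y ∈ N, toPSU 3 F 2 y ∈ M → toPSU 3 F 2 y = 1 := by
    intro y hy hyM
    obtain ⟨m, hm, hym⟩ := h y hy
    have h1 : toPSU 3 F 2 y ^ m = 1 := by
      rw [← map_pow]
      exact (QuotientGroup.eq_one_iff _).2 hym
    have h2 : toPSU 3 F 2 y ^ 9 = 1 := by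
      have := pow_card_eq_one' (x := (⟨_, hyM⟩ : M))
      rw [hM9] at this
      exact congrArg Subtype.val this
    have h3 := orderOf_dvd_of_pow_eq_one h1
    have h4 := orderOf_dvd_of_pow_eq_one h2
    have h5 : Nat.Coprime m 9 := by
      rw [show (9 : ℕ) = 3 ^ 2 by norm_num]
      exact Nat.Coprime.pow_right 2 hm
    exact orderOf_eq_one_iff.1 (Nat.eq_one_of_dvd_coprimes h5 h3 h4)
  by_contra hgc
  have hg1 : toPSU 3 F 2 g ≠ 1 := fun h1 => hgc ((QuotientGroup.eq_one_iff _).1 h1)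
  -- `g` fixes a point
  have hnotM : toPSU 3 F 2 g ∉ M := fun h1 => hg1 (hinf g hg h1)
  rw [P32.mem_iff_of_card_nine hF hM9] at hnotM
  push Not at hnotM
  obtain ⟨L, hL, -⟩ := hnotM
  obtain ⟨u, hu0, hu, hLu⟩ := L.exists_span
  rw [hLu] at hL
  -- a nontrivial element of `M`
  have hM1 : ∃ m ∈ M, m ≠ 1 := by
    by_contra hcon
    push Not at hcon
    have : M = ⊥ := (Subgroup.eq_bot_iff_forall M).2 hcon
    rw [this, Subgroup.card_bot] at hM9
    omega
  obtain ⟨m, hm, hm1⟩ := hM1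
  obtain ⟨s, rfl⟩ := toPSU_surjective m
  have hmL : toPSU 3 F 2 s ∉ P32.PL (Submodule.span F {u}) := by
    intro h1
    apply hm1
    refine (P32.mem_iff_of_card_nine hF hM9 _).1 hm L ?_
    rw [hLu]; exact h1
  have hsu : act s u ∉ Submodule.span F {u} := by
    intro h1
    apply hmL
    refine ⟨s, ?_, rfl⟩
    obtain ⟨c, hc⟩ := Submodule.mem_span_singleton.1 h1
    refine (P32.mem_line hu0).2 ⟨c, ?_, hc.symm⟩
    rintro rfl
    rw [zero_smul] at hc
    exact act_ne_zero hu0 hc.symm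
  -- the commutator
  have hcomm : toPSU 3 F 2 s * toPSU 3 F 2 g * (toPSU 3 F 2 s)⁻¹ = toPSU 3 F 2 g := by
    have h1 : g * s * g⁻¹ * s⁻¹ ∈ N := by
      have := N.mul_mem hg (hN.conj_mem _ (N.inv_mem hg) s)
      rwa [← mul_assoc, ← mul_assoc] at this
    have h2 : toPSU 3 F 2 (g * s * g⁻¹ * s⁻¹) ∈ M := by
      rw [map_mul, map_mul, map_mul, map_inv, map_inv]
      exact M.mul_mem (hM.conj_mem _ hm _) (M.inv_mem hm)
    have h3 := hinf _ h1 h2
    rw [map_mul, map_mul, map_mul, map_inv, map_inv, mul_inv_eq_one, mul_inv_eq_iff_eq_mul] at h3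
    rw [mul_inv_eq_iff_eq_mul]
    exact h3.symm
  have hL2 : toPSU 3 F 2 g ∈ P32.PL (Submodule.span F {act s u}) := by
    rw [← hcomm]
    obtain ⟨g', hg', hgg⟩ := hL
    refine ⟨s * g' * s⁻¹, ?_, ?_⟩
    · obtain ⟨c, hc0, hc⟩ := (P32.mem_line hu0).1 hg'
      refine (P32.mem_line (act_ne_zero hu0)).2 ⟨c, hc0, ?_⟩
      rw [act_mul, act_mul, act_inv_act, hc, act_smul]
    · rw [map_mul, map_mul, map_inv, hgg]; rfl
  exact hg1 (P32.PL_inf hF hu0 hu (act_ne_zero hu0) (by rw [act_form]; exact hu) hsu hL hL2)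

/-- automorphisms of odd order -/
theorem semilinear_of_oddU (hF : Fintype.card F = q ^ 2) (hn : 3 ≤ n) (hs : ¬ (n = 3 ∧ q = 2)) {x : MulAut (PSU n F q)} {m : ℕ}
    (h : x ^ m = 1) : ∃ (g : GU n F q) (τ : RingAut F), x = cAutU g τ ∧ τ ^ m = 1 := by
  obtain ⟨Ψ, -, -, h3⟩ := exists_type hF hn hs
  obtain ⟨g, σ, rfl⟩ := aut_classify hF hn hs x
  refine ⟨g, σ, rfl, ?_⟩
  have h4 : Ψ (cAutU g σ) = σ := by
    rw [cAutU_eq]
    exact h3 g σ
  have h5 : Ψ (cAutU g σ) ^ m = 1 := by rw [← map_pow, h, map_one]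
  rw [h4] at h5
  exact h5

/-- odd powers are scalar -/
theorem odd_scalarU (hF : Fintype.card F = q ^ 2) (hn : 3 ≤ n) {Y : Subgroup (MulAut (PSU n F q))} [Finite Y] (hc : (Nat.card Y).Coprime 2)
    (g : GU n F q) (hg : g ∈ Y.comap (diagU n F q)) :
    ∃ m : ℕ, Odd m ∧ ∃ c : F, (((g ^ m : GU n F q) : GL (Fin n) F) : Matrix (Fin n) (Fin n) F) = c • (1 : Matrix _ _ F) := by
  refine ⟨Nat.card Y, Nat.coprime_two_right.1 hc, ?_⟩
  have h1 : (diagU n F q g) ^ Nat.card Y = 1 := by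
    have := pow_card_eq_one' (x := (⟨diagU n F q g, hg⟩ : Y))
    exact congrArg Subtype.val this
  rw [← map_pow] at h1
  exact of_diagU_eq_one hF hn h1

end Cfsg.Agent.LB
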