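import Cfsg.Agent.LB.PsuBase

/-!
Local balance criterion for `PSU_n(q)`: field automorphisms of odd order.
-/

set_option autoImplicit false

namespace Cfsg.Agent.LB

open Matrix Cfsg.Agent.AutPSL Cfsg.Agent.AutLie Cfsg.Agent.AutPSU Cfsg.Agent.Uni

variable {F : Type*} [Field F] [Fintype F] {q : ℕ} {n : ℕ}

theorem subfield_top (hF : Fintype.card F = q ^ 2) (L : Subfield F) (h : ∀ s : F, s ^ (q + 1) = -1 → s ∈ L) (x : F) : x ∈ L := by
  classical
  have hcard : q < Nat.card L := by
    have h1 : Nat.card {x : F // x ^ (q + 1) = -1} = q + 1 :=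
      Uni.card_norm_eq hF (by rw [Uni.neg_pow_q hF, one_pow]) (by simp)
    have h2 : Nat.card {x : F // x ^ (q + 1) = -1} ≤ Nat.card L := by
      refine Nat.card_le_card_of_injective (fun y => (⟨y.1, h _ y.2⟩ : L)) ?_
      intro a b hab
      exact Subtype.ext (congrArg (fun z : L => (z : F)) hab)
    omega
  have hfr := Module.natCard_eq_pow_finrank (K := L) (V := F)
  rw [Nat.card_eq_fintype_card, hF] at hfr
  have hd : Module.finrank L F < 2 := by
    by_contra hcon
    push Not at hcon
    have h3 : (Nat.card L) ^ 2 ≤ (Nat.card L) ^ Module.finrank L F :=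
      Nat.pow_le_pow_right (by omega) hcon
    rw [← hfr] at h3
    have := Nat.pow_lt_pow_left hcard (n := 2) (by norm_num)
    omega
  have hd1 : Module.finrank L F = 1 := by
    have := Module.finrank_pos (R := L) (M := F)
    omega
  obtain ⟨c, hc⟩ := (finrank_eq_one_iff_of_nonzero' (1 : F) one_ne_zero).1 hd1 x
  rw [← hc]
  have : (c • (1 : F)) = (c : F) := by rw [Subfield.smul_def, smul_eq_mul, mul_one]
  rw [this]
  exact c.2

omit [Fintype F] in
/-- semilinear maps commuting with a transvection preserve its center -/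
theorem center_line' {u w : Fin n → F} (hw : w ≠ 0) {M g : GL (Fin n) F} {τ : F ≃+* F}
    (hM : (M : Matrix (Fin n) (Fin n) F) = 1 + Matrix.vecMulVec u w)
    (hc : g * mapGL τ M = M * g) : ∃ c : F, TT g τ u = c • u := by
  have h1 : ∀ x, (M : Matrix (Fin n) (Fin n) F) *ᵥ x = x + (w ⬝ᵥ x) • u := by
    intro x
    rw [hM, Matrix.add_mulVec, Matrix.one_mulVec, Matrix.vecMulVec_mulVec]
    congr 1
    ext i
    simp [mul_comm]
  obtain ⟨x, hx⟩ : ∃ x, w ⬝ᵥ x ≠ 0 := by
    by_contra hcon
    push Not at hcon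
    exact hw ((dotProduct_eq_zero_iff).1 hcon)
  have h2 := TT_mulVec hc x
  rw [h1, h1, TT_add, TT_smul] at h2
  have h3 := add_left_cancel h2
  have h4 : τ (w ⬝ᵥ x) ≠ 0 := by
    rw [Ne, map_eq_zero_iff τ τ.injective]
    exact hx
  refine ⟨(τ (w ⬝ᵥ x))⁻¹ * (w ⬝ᵥ TT g τ x), ?_⟩
  rw [mul_smul, ← h3, smul_smul, inv_mul_cancel₀ h4, one_smul]

/-- the matrix of a transvection -/
theorem transv_matrix (hF : Fintype.card F = q ^ 2) {u : Fin n → F} {a : F} (hu : hermForm n F q u u = 0) (ha : a ^ q = -a) :
    ∃ g : SU n F q, ((g : Matrix.SpecialLinearGroup (Fin n) F) : Matrix (Fin n) (Fin n) F) =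
      1 + Matrix.vecMulVec u (fun k => a * (u k) ^ q) ∧ ((suHom n F q g : Matrix (Fin n) (Fin n) F) - 1) ^ 2 = 0 := by
  obtain ⟨g, hg, hg2⟩ := transv_sq hF hu ha
  refine ⟨g, ?_, hg2⟩
  apply Matrix.mulVec_injective
  funext x
  have := hg x
  rw [act_def] at this
  rw [this, Matrix.add_mulVec, Matrix.one_mulVec, Matrix.vecMulVec_mulVec]
  congr 1
  have h1 : (fun k => a * u k ^ q) ⬝ᵥ x = a * hermForm n F q x u := by
    rw [dotProduct, hermForm_def, Finset.mul_sum]
    exact Finset.sum_congr rfl fun i _ => by ring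
  rw [h1]
  ext i
  simp [mul_comm]

section field

variable {K : Type*} [Field K] [Fintype K] {q₀ : ℕ}

/-- **field automorphisms of odd prime order** -/
theorem good_fieldU (hF : Fintype.card F = q ^ 2) (hn : 3 ≤ n) (hs : ¬ (n = 3 ∧ q = 2)) (r : ℕ) [Fact r.Prime] [CharP F r]
    {p : ℕ} (hp : p.Prime) (hodd : Odd p) (hpr : p ≠ r) {σ : RingAut F} (hσ : orderOf σ = p)
    (hK : Fintype.card K = q₀ ^ 2) (j : K →+* F) (hq : q = q₀ ^ p) (hj : ∀ x, σ x = x ↔ x ∈ Set.range j)
    (hdvd : p ∣ Nat.card ↥(MonoidHom.eqLocus (cAutU (1 : GU n F q) σ : MulAut (PSU n F q)).toMonoidHom (MonoidHom.id (PSU n F q)))) :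
    Good p r (diagU n F q).range (cAutU 1 σ) := by
  classical
  have hpF : Fact p.Prime := ⟨hp⟩
  have hfinK : Finite (PSU n F q) := Quotient.finite _
  have hfin : Finite (MulAut (PSU n F q)) := inferInstance
  have hcharK : CharP K r := (RingHom.charP_iff j j.injective r).2 inferInstance
  have hσodd : Odd (orderOf σ) := by rw [hσ]; exact hodd
  let ψ : GU n K q₀ →* MulAut (PSU n F q) := (diagU n F q).comp (embGU hF hK j hodd hq n)
  have hψc : ∀ g, ψ g * cAutU 1 σ = cAutU 1 σ * ψ g := by
    intro g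
    change diagU n F q _ * _ = _ * diagU n F q _
    rw [phiU_comm, mapGU_embGU hF hK j hodd hq σ hj]
  let ρ : SU n K q₀ →* MulAut (PSU n F q) := ψ.comp (suToGU hK n)
  have hρc : ∀ s, ρ s * cAutU 1 σ = cAutU 1 σ * ρ s := fun s => hψc _
  have hcoe : ∀ s : SU n K q₀, (((embGU hF hK j hodd hq n (suToGU hK n s) : GU n F q) : GL (Fin n) F) : Matrix (Fin n) (Fin n) F) =
      ((s : Matrix.SpecialLinearGroup (Fin n) K) : Matrix (Fin n) (Fin n) K).map j := fun s => rfl
  have hρ1 : ∀ s, ρ s = 1 → s ∈ Subgroup.center (SU n K q₀) := by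
    intro s h
    obtain ⟨α, hα⟩ := of_diagU_eq_one hF hn (g := embGU hF hK j hodd hq n (suToGU hK n s)) h
    rw [hcoe] at hα
    rw [mem_center_SU_iff hK (by omega)]
    refine ⟨((s : Matrix.SpecialLinearGroup (Fin n) K) : Matrix (Fin n) (Fin n) K) ⟨0, by omega⟩ ⟨0, by omega⟩, ?_⟩
    have h0 : ∀ i k, j (((s : Matrix.SpecialLinearGroup (Fin n) K) : Matrix (Fin n) (Fin n) K) i k) = if i = k then α else 0 := by
      intro i k
      have := congrFun (congrFun hα i) k
      rw [Matrix.map_apply] at this
      rw [this, Matrix.smul_apply, Matrix.one_apply, smul_eq_mul, mul_ite, mul_one, mul_zero]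
    ext i k
    apply j.injective
    rw [h0, Matrix.diagonal_apply]
    by_cases hik : i = k
    · rw [if_pos hik, if_pos hik, h0, if_pos rfl]
    · rw [if_neg hik, if_neg hik, map_zero]
  have hρ2 : ∀ s ∈ Subgroup.center (SU n K q₀), ρ s = 1 := by
    intro s h
    obtain ⟨c, hc⟩ := (mem_center_SU_iff hK (by omega) s).1 h
    refine cAutU_eq_one_of_smul hF hn (α := j c) ?_
    rw [hcoe, hc]
    ext i k
    rw [Matrix.map_apply, Matrix.diagonal_apply, Matrix.smul_apply, Matrix.one_apply, smul_eq_mul, mul_ite, mul_one, mul_zero]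
    split_ifs <;> simp
  constructor
  · intro Y hY hYc hYn
    have hYlift : ∀ y ∈ Y, ∃ s : SU n K q₀, ρ s = y := by
      intro y hy
      obtain ⟨g, hg, rfl⟩ := MM_liftU hF hn r _ (hY hy)
      have hgR : g ∈ ((embGU hF hK j hodd hq n).comp (suToGU hK n)).range := by
        refine (Subgroup.closure_le (K := ((embGU hF hK j hodd hq n).comp (suToGU hK n)).range)).2 ?_ hg
        rintro g ⟨⟨k, hk⟩, h⟩
        have h1 := commute_unipU (g := (1 : GU n F q)) (τ := σ) hF hn r hk h.symm
        rw [one_mul, mul_one] at h1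
        obtain ⟨h0, hh⟩ := exists_of_fixedU hF hK j hodd hq σ hj g h1
        have h3 : h0 ^ r ^ k = 1 := by
          have h4 : embGU hF hK j hodd hq n (h0 ^ r ^ k) = 1 := by rw [map_pow, hh, hk]
          have h5 := congrArg Subtype.val h4
          apply Subtype.ext
          apply map_injective_GL j
          rw [Subgroup.coe_one, map_one]
          exact h5
        obtain ⟨s, hs⟩ := exists_SU_of_pow hK r h3
        exact ⟨s, by rw [← hh, ← hs]; rfl⟩
      obtain ⟨s, rfl⟩ := hgR
      exact ⟨s, rfl⟩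
    have hN : (Y.comap ρ).Normal := comap_normal ρ fun s y hy => hYn _ (hρc s) y hy
    have hfinish : Y.comap ρ ≤ Subgroup.center (SU n K q₀) → Y = ⊥ := by
      intro h
      rw [eq_bot_iff]
      intro y hy
      obtain ⟨s, rfl⟩ := hYlift y hy
      exact hρ2 s (h hy)
    -- the element of order `p`
    obtain ⟨g0, hg0p, hg01⟩ : ∃ g0 : GU n K q₀, ψ g0 ^ p = 1 ∧ ψ g0 ≠ 1 := by
      obtain ⟨k, hk⟩ := exists_prime_orderOf_dvd_card' p hdvd
      obtain ⟨s, hs'⟩ := toPSU_surjective (k : PSU n F q)
      have hkord : orderOf (k : PSU n F q) = p := by rw [Subgroup.orderOf_coe, hk]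
      have hkfix : cAutU (1 : GU n F q) σ (k : PSU n F q) = k := k.2
      have hcj : MulAut.conj (k : PSU n F q) = diagU n F q (suToGU hF n s) := by
        rw [← hs', conj_toPSU hF]
      have hcomm : diagU n F q (suToGU hF n s) * cAutU 1 σ = cAutU 1 σ * diagU n F q (suToGU hF n s) := by
        rw [← hcj]
        ext x
        change (k : PSU n F q) * (cAutU (1 : GU n F q) σ x) * (k : PSU n F q)⁻¹ =
          cAutU (1 : GU n F q) σ ((k : PSU n F q) * x * (k : PSU n F q)⁻¹)
        rw [map_mul, map_mul, map_inv, hkfix]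
      obtain ⟨b, hb⟩ := (commute_phiU_iff hF hn σ hσodd _).1 hcomm
      obtain ⟨g0, hg0⟩ := exists_of_fixedU hF hK j hodd hq σ hj _ hb
      have hψ : ψ g0 = MulAut.conj (k : PSU n F q) := by
        change diagU n F q (embGU hF hK j hodd hq n g0) = _
        rw [hg0, hcj]
        exact (diagU_eq_iff hF hn _ _).2 ⟨b, rfl⟩
      refine ⟨g0, ?_, ?_⟩
      · rw [hψ, ← map_pow, ← hkord, pow_orderOf_eq_one, map_one]
      · rw [hψ]
        intro h1
        have h2 := conjU_eq_one hF hn h1
        rw [h2, orderOf_one] at hkord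
        exact hp.one_lt.ne hkord
    have hordg0 : orderOf (ψ g0) = p := orderOf_eq_prime hg0p hg01
    by_cases h32 : n = 3 ∧ q₀ = 2
    · obtain ⟨rfl, rfl⟩ := h32
      have hp3 : p = 3 := by
        have h1 : p ∣ Nat.card (GU 3 K 2) := by
          have h2 := orderOf_map_dvd ψ g0
          rw [hordg0] at h2
          exact h2.trans (orderOf_dvd_natCard g0)
        rw [card_GU_eq_mul_card_SU hK (by norm_num), P32.card_SU hK] at h1
        have h2 : p ∣ 2 ^ 3 * 3 ^ 4 := by
          refine h1.trans ?_
          norm_num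
        rcases (Nat.Prime.dvd_mul hp).1 h2 with h3 | h3
        · exfalso
          have h4 := (Nat.prime_dvd_prime_iff_eq hp Nat.prime_two).1 (hp.dvd_of_dvd_pow h3)
          rw [h4] at hodd
          exact absurd hodd (by decide)
        · exact (Nat.prime_dvd_prime_iff_eq hp Nat.prime_three).1 (hp.dvd_of_dvd_pow h3)
      apply hfinish
      refine normal32 hK _ hN ?_
      intro y hy
      refine ⟨Nat.card Y, by rw [hp3] at hYc; exact hYc, ?_⟩
      apply hρ1
      rw [map_pow]
      have := pow_card_eq_one' (x := (⟨ρ y, hy⟩ : Y))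
      exact congrArg Subtype.val this
    · rcases normal_le_center_or_top hK hn h32 (Y.comap ρ) with h | h
      · exact hfinish h
      · exfalso
        have hmemY : ∀ s, ρ s ∈ Y := fun s => by
          have : s ∈ Y.comap ρ := h ▸ Subgroup.mem_top s
          exact this
        have hpq : p ∣ q₀ + 1 := by
          have h1 : detHom hK n (g0 ^ (q₀ + 1)) = 1 := by
            rw [map_pow]
            apply Subtype.ext
            apply Units.ext
            rw [Subgroup.coe_pow, Units.val_pow_eq_pow_val]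
            exact mem_U1.1 (detHom hK n g0).2
          rw [← MonoidHom.mem_ker, ← suToGU_range hK] at h1
          obtain ⟨s, hs'⟩ := h1
          have h2 : ψ g0 ^ (q₀ + 1) = 1 := by
            rw [← map_pow, ← hs']
            apply not_dvd_of_mem hp hYc (hmemY s)
            change ψ (suToGU hK n s) ^ p = 1
            rw [hs', map_pow, ← pow_mul, mul_comm, pow_mul, hg0p, one_pow]
          have h3 := orderOf_dvd_of_pow_eq_one h2
          rwa [hordg0] at h3
        obtain ⟨ζ, hζ⟩ : ∃ ζ : U1 K q₀, orderOf ζ = p := by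
          apply exists_prime_orderOf_dvd_card' p
          have h1 : Nat.card (U1 K q₀) = q₀ + 1 := card_norm_ker hK
          rw [h1]; exact hpq
        have hζ1 : (((ζ : Kˣ) : K)) ^ p = 1 := by
          have := congrArg (fun z : U1 K q₀ => (((z : U1 K q₀) : Kˣ) : K)) (pow_orderOf_eq_one ζ)
          rw [hζ] at this
          simpa using this
        have hζne : ((ζ : Kˣ) : K) ≠ 1 := by
          intro h1
          have : ζ = 1 := Subtype.ext (Units.ext h1)
          rw [this, orderOf_one] at hζ
          exact hp.one_lt.ne hζ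
        have h01 : (⟨0, by omega⟩ : Fin n) ≠ ⟨1, by omega⟩ := by simp
        obtain ⟨s, hs'⟩ := exists_SU_diag (q := q₀) _ _ h01 (mem_U1.1 ζ.2)
        have hsp : s ^ p = 1 := by
          apply SU_ext
          have h1 : ∀ m : ℕ, ((s ^ m : SU n K q₀) : Matrix.SpecialLinearGroup (Fin n) K).1 =
              Matrix.diagonal (fun k => (Function.update (Function.update (1 : Fin n → K) ⟨0, by omega⟩ ((ζ : Kˣ) : K)) ⟨1, by omega⟩
                (((ζ : Kˣ) : K))⁻¹ k) ^ m) := by
            intro m
            have : ((s ^ m : SU n K q₀) : Matrix.SpecialLinearGroup (Fin n) K).1 =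
              (((s : Matrix.SpecialLinearGroup (Fin n) K) : Matrix (Fin n) (Fin n) K)) ^ m := by
              rw [Subgroup.coe_pow]
              exact Matrix.SpecialLinearGroup.coe_pow _ _
            rw [this, hs', Matrix.diagonal_pow]
            rfl
          rw [h1 p]
          change _ = (1 : Matrix (Fin n) (Fin n) K)
          rw [← Matrix.diagonal_one]
          congr 1
          funext k
          by_cases h1 : k = ⟨1, by omega⟩
          · rw [h1, Function.update_self, inv_pow, hζ1, inv_one]
          · rw [Function.update_of_ne h1]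
            by_cases h0 : k = ⟨0, by omega⟩
            · rw [h0, Function.update_self, hζ1]
            · rw [Function.update_of_ne h0]; simp
        have h4 : ρ s = 1 := by
          apply not_dvd_of_mem hp hYc (hmemY s)
          rw [← map_pow, hsp, map_one]
        obtain ⟨c, hc⟩ := (mem_center_SU_iff hK (by omega) s).1 (hρ1 s h4)
        rw [hs'] at hc
        have h6 : ∀ k : Fin n, (Function.update (Function.update (1 : Fin n → K) ⟨0, by omega⟩ ((ζ : Kˣ) : K)) ⟨1, by omega⟩
            (((ζ : Kˣ) : K))⁻¹) k = c := by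
          intro k
          have := congrFun (congrFun hc k) k
          rwa [Matrix.diagonal_apply_eq, Matrix.diagonal_apply_eq] at this
        have h7 := h6 ⟨0, by omega⟩
        have h8 := h6 ⟨2, by omega⟩
        rw [Function.update_of_ne (by simp), Function.update_self] at h7
        rw [Function.update_of_ne (by simp), Function.update_of_ne (by simp)] at h8
        rw [← h8] at h7
        exact hζne h7
  · intro x _ hox hxm
    obtain ⟨g, τ, rfl, -⟩ := semilinear_of_oddU hF hn hs (pow_orderOf_eq_one x)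
    obtain ⟨a, ha0, ha⟩ := exists_skew hK
    obtain ⟨s₁, hs₁⟩ := exists_norm_eq hK (c := (-1 : K)) (by rw [neg_pow_q hK, one_pow])
    obtain ⟨c, hc, hc2⟩ := exists_norm_one_sq_ne hK
    have hc1 : c ≠ 1 := by rintro rfl; exact hc2 (one_pow 2)
    have hs0 : ∀ s : K, s ^ (q₀ + 1) = -1 → s ≠ 0 := by
      rintro s hs rfl
      rw [zero_pow (by omega)] at hs
      exact (neg_ne_zero.2 one_ne_zero) hs.symm
    have hs₂ : (c * s₁) ^ (q₀ + 1) = -1 := by rw [mul_pow, hc, one_mul, hs₁]
    have hne : j s₁ ≠ j (c * s₁) := by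
      intro h
      have h3 := j.injective h
      have h4 : (c - 1) * s₁ = 0 := by linear_combination -h3
      rcases mul_eq_zero.1 h4 with h5 | h5
      · exact hc1 (sub_eq_zero.1 h5)
      · exact hs0 _ hs₁ h5
    obtain ⟨⟨α, hα⟩, hτ⟩ := line_lemma hn (g : GL (Fin n) F) τ {s | ∃ s₀ : K, s₀ ^ (q₀ + 1) = -1 ∧ j s₀ = s} (s₁ := j s₁)
      (s₂ := j (c * s₁)) ⟨_, hs₁, rfl⟩ ⟨_, hs₂, rfl⟩ hne (by
        rintro _ ⟨s, hs, rfl⟩
        rw [Ne, map_eq_zero_iff j j.injective]
        exact hs0 s hs) (by
      rintro i k hik _ ⟨s, hs, rfl⟩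
      obtain ⟨t, ht, ht2⟩ := transv_matrix hK (herm_pair hik hs) ha
      have htr : suToGU hK n t ^ r ^ 1 = 1 := by
        apply Subtype.ext
        rw [Subgroup.coe_pow, Subgroup.coe_one]
        exact pow_of_sq r ht2
      have htr' : (embGU hF hK j hodd hq n (suToGU hK n t)) ^ r ^ 1 = 1 := by rw [← map_pow, htr, map_one]
      have hcm := commute_unipU hF hn r htr' (by
        apply hxm
        exact mem_MM r _ _ ⟨_, rfl⟩ (hρc t) (k := 1) (by rw [← map_pow, htr', map_one]))
      have hcm' := congrArg Subtype.val hcm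
      have hu : (Pi.single i 1 + j s • Pi.single k 1 : Fin n → F) = fun l => j ((Pi.single i 1 + s • Pi.single k 1 : Fin n → K) l) := by
        funext l
        simp only [Pi.add_apply, Pi.smul_apply, smul_eq_mul, map_add, map_mul]
        congr 1
        · by_cases hl : l = i
          · subst hl; simp
          · rw [Pi.single_eq_of_ne hl, Pi.single_eq_of_ne hl, map_zero]
        · congr 1
          by_cases hl : l = k
          · subst hl; simp
          · rw [Pi.single_eq_of_ne hl, Pi.single_eq_of_ne hl, map_zero]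
      refine center_line' (M := ((embGU hF hK j hodd hq n (suToGU hK n t) : GU n F q) : GL (Fin n) F))
        (w := fun l => j (a * ((Pi.single i 1 + s • Pi.single k 1 : Fin n → K) l) ^ q₀)) ?_ ?_ hcm'
      · intro h
        have := congrFun h i
        simp only [Pi.add_apply, Pi.smul_apply, Pi.single_eq_same, Pi.single_eq_of_ne hik, smul_zero, add_zero, one_pow, mul_one,
          Pi.zero_apply, map_eq_zero_iff j j.injective] at this
        exact ha0 this
      · rw [hcoe, ht, hu]
        ext l m
        simp only [Matrix.map_apply, Matrix.add_apply, Matrix.vecMulVec_apply, map_add, map_mul]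
        congr 1
        by_cases hlm : l = m
        · subst hlm; rw [Matrix.one_apply_eq, Matrix.one_apply_eq, map_one]
        · rw [Matrix.one_apply_ne hlm, Matrix.one_apply_ne hlm, map_zero])
    have hτσ : τ ∈ Subgroup.zpowers σ := by
      apply gal
      intro x hx
      obtain ⟨y, rfl⟩ := (hj x).1 hx
      have := subfield_top hK ((fixF (τ : F ≃+* F)).comap j) (fun s hs => hτ _ ⟨s, hs, rfl⟩) y
      exact this
    have hx1 : cAutU g τ = cAutU 1 τ := by
      rw [cAutU_eq, cAutU_eq_one_of_smul hF hn hα, one_mul]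
    have hxp : (cAutU g τ) ^ p = 1 := by
      have hτp : τ ^ p = 1 := by
        obtain ⟨k, hk⟩ := hτσ
        change σ ^ k = τ at hk
        rw [← hk, ← zpow_natCast, ← _root_.zpow_mul, mul_comm, _root_.zpow_mul, zpow_natCast, ← hσ, pow_orderOf_eq_one, _root_.one_zpow]
      rw [hx1]
      have := cAutU_one_pow (n := n) (q := q) τ p
      rw [this, hτp]
      exact cAutU_one
    have h5 := orderOf_dvd_of_pow_eq_one hxp
    exact orderOf_eq_one_iff.1 (Nat.eq_one_of_dvd_coprimes hox dvd_rfl h5)

end field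

end Cfsg.Agent.LB
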