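import Cfsg.Agent.LB.PsuF

/-!
Local balance criterion for `PSU_n(q)`: involutory automorphisms, the rational form.
-/

set_option autoImplicit false

namespace Cfsg.Agent.LB

open Matrix Cfsg.Agent.AutPSL Cfsg.Agent.AutLie Cfsg.Agent.AutPSU Cfsg.Agent.Uni

variable {F : Type*} [Field F] [Fintype F] {q : ℕ} {n : ℕ}

/-- the twisted semilinear map -/
def Tm (q : ℕ) (A : Matrix (Fin n) (Fin n) F) (lam : F) (v : Fin n → F) : Fin n → F := lam • (A *ᵥ (fun i => (v i) ^ q))

theorem Tm_add (hF : Fintype.card F = q ^ 2) (A : Matrix (Fin n) (Fin n) F) (lam : F) (x y : Fin n → F) :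
    Tm q A lam (x + y) = Tm q A lam x + Tm q A lam y := by
  rw [Tm, Tm, Tm, ← smul_add, ← Matrix.mulVec_add]
  congr 2
  funext i
  simp only [Pi.add_apply]
  exact add_pow_q hF _ _

omit [Fintype F] in
theorem Tm_smul (A : Matrix (Fin n) (Fin n) F) (lam : F) (c : F) (x : Fin n → F) :
    Tm q A lam (c • x) = c ^ q • Tm q A lam x := by
  have : (fun i => ((c • x) i) ^ q) = c ^ q • (fun i => (x i) ^ q) := by
    funext i
    simp only [Pi.smul_apply, smul_eq_mul, mul_pow]
  rw [Tm, Tm, smul_comm (c ^ q) lam, this, Matrix.mulVec_smul]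

section

variable (hF : Fintype.card F = q ^ 2) {A : GU n F q} {lam c : F} (hlam : lam ^ (q + 1) = c) (hc : c * c = 1)
  (hA : ((A : GL (Fin n) F) : Matrix (Fin n) (Fin n) F) * (((A : GL (Fin n) F) : Matrix (Fin n) (Fin n) F)).map (frobQ hF) =
    c • (1 : Matrix (Fin n) (Fin n) F))

include hF in
theorem frob_mulVec (M : Matrix (Fin n) (Fin n) F) (x : Fin n → F) :
    (fun i => ((M *ᵥ x) i) ^ q) = (M.map (frobQ hF)) *ᵥ (fun i => (x i) ^ q) := by
  funext i
  rw [Matrix.mulVec, Matrix.mulVec, dotProduct, dotProduct, sum_pow_q hF]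
  refine Finset.sum_congr rfl fun k _ => ?_
  rw [mul_pow, Matrix.map_apply, frobQ_apply]

include hlam hc hA in
theorem Tm_Tm (x : Fin n → F) : Tm q ((A : GL (Fin n) F) : Matrix (Fin n) (Fin n) F) lam
    (Tm q ((A : GL (Fin n) F) : Matrix (Fin n) (Fin n) F) lam x) = x := by
  have h1 : (fun i => (Tm q ((A : GL (Fin n) F) : Matrix (Fin n) (Fin n) F) lam x i) ^ q) =
      lam ^ q • ((((A : GL (Fin n) F) : Matrix (Fin n) (Fin n) F)).map (frobQ hF) *ᵥ x) := by
    have h2 := frob_mulVec hF ((A : GL (Fin n) F) : Matrix (Fin n) (Fin n) F) (fun i => (x i) ^ q)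
    have h3 : (fun i => ((fun i => (x i) ^ q) i) ^ q) = x := by funext i; exact pow_q_pow_q hF _
    rw [h3] at h2
    rw [← h2]
    funext i
    rw [Tm, Pi.smul_apply, Pi.smul_apply, smul_eq_mul, smul_eq_mul, mul_pow]
  rw [Tm, h1, Matrix.mulVec_smul, Matrix.mulVec_mulVec, hA, Matrix.smul_mulVec, Matrix.one_mulVec, smul_smul, smul_smul]
  have : lam * (lam ^ q * c) = 1 := by
    rw [← mul_assoc, ← pow_succ', hlam, hc]
  rw [← mul_assoc] at this
  rw [this, one_smul]

include hF hlam in
theorem Tm_form (x y : Fin n → F) : hermForm n F q (Tm q ((A : GL (Fin n) F) : Matrix (Fin n) (Fin n) F) lam x)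
    (Tm q ((A : GL (Fin n) F) : Matrix (Fin n) (Fin n) F) lam y) = c * (hermForm n F q x y) ^ q := by
  rw [Tm, Tm, hermForm_smul_left, hermForm_smul_right]
  have h1 := GU_pres A (fun i => (x i) ^ q) (fun i => (y i) ^ q)
  rw [h1, ← mul_assoc, ← pow_succ', hlam]
  congr 1
  rw [hermForm_def, hermForm_def, sum_pow_q hF]
  refine Finset.sum_congr rfl fun i _ => ?_
  rw [mul_pow]

/-- the rational form -/
def V0 (hF : Fintype.card F = q ^ 2) (A : GU n F q) (lam : F) : AddSubgroup (Fin n → F) where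
  carrier := {v | Tm q ((A : GL (Fin n) F) : Matrix (Fin n) (Fin n) F) lam v = v}
  zero_mem' := by
    change Tm q _ lam 0 = 0
    have := Tm_smul (q := q) ((A : GL (Fin n) F) : Matrix (Fin n) (Fin n) F) lam 0 0
    rwa [zero_smul, zero_pow (q_ne_zero hF), zero_smul] at this
  add_mem' := by
    intro a b ha hb
    change Tm q _ lam (a + b) = a + b
    change Tm q _ lam a = a at ha
    change Tm q _ lam b = b at hb
    rw [Tm_add hF, ha, hb]
  neg_mem' := by
    intro a ha
    change Tm q _ lam (-a) = -a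
    change Tm q _ lam a = a at ha
    have := Tm_smul (q := q) ((A : GL (Fin n) F) : Matrix (Fin n) (Fin n) F) lam (-1) a
    rwa [neg_one_smul, neg_pow_q hF, one_pow, neg_one_smul, ha] at this

theorem mem_V0 {A : GU n F q} {lam : F} {v : Fin n → F} : v ∈ V0 hF A lam ↔ Tm q ((A : GL (Fin n) F) : Matrix (Fin n) (Fin n) F) lam v = v := Iff.rfl

theorem V0_smul {A : GU n F q} {lam : F} {a : F} {v : Fin n → F} (ha : a ∈ fixF (frobQ hF : F ≃+* F)) (hv : v ∈ V0 hF A lam) :
    a • v ∈ V0 hF A lam := by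
  rw [mem_V0] at hv ⊢
  rw [Tm_smul, hv]
  congr 1

include hlam hc hA in
theorem V0_span : Submodule.span F (V0 hF A lam : Set (Fin n → F)) = ⊤ := by
  rw [eq_top_iff]
  intro v _
  obtain ⟨ε, hε⟩ := exists_pow_q_ne hF
  have hT := Tm_Tm hF hlam hc hA
  have key : ∀ w : Fin n → F, w + Tm q ((A : GL (Fin n) F) : Matrix (Fin n) (Fin n) F) lam w ∈ V0 hF A lam := by
    intro w
    rw [mem_V0, Tm_add hF, hT, add_comm]
  have h1 := key v
  have h2 := key (ε • v)
  rw [Tm_smul] at h2
  have h3 : v = (ε ^ q - ε)⁻¹ • (ε ^ q • (v + Tm q ((A : GL (Fin n) F) : Matrix (Fin n) (Fin n) F) lam v) -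
      (ε • v + ε ^ q • Tm q ((A : GL (Fin n) F) : Matrix (Fin n) (Fin n) F) lam v)) := by
    rw [smul_add, add_sub_add_right_eq_sub, ← sub_smul, smul_smul, inv_mul_cancel₀ (sub_ne_zero.2 hε), one_smul]
  rw [h3]
  exact Submodule.smul_mem _ _ (Submodule.sub_mem _ (Submodule.smul_mem _ _ (Submodule.subset_span h1)) (Submodule.subset_span h2))

include hlam in
theorem V0_form {x y : Fin n → F} (hx : x ∈ V0 hF A lam) (hy : y ∈ V0 hF A lam) :
    hermForm n F q x y = c * (hermForm n F q x y) ^ q := by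
  have := Tm_form hF (A := A) hlam x y
  rw [mem_V0] at hx hy
  rwa [hx, hy] at this

include hlam hc hA in
theorem V0_nondeg {x : Fin n → F} (hx0 : x ≠ 0) : ∃ y ∈ V0 hF A lam, hermForm n F q x y ≠ 0 := by
  by_contra hcon
  push Not at hcon
  apply hx0
  apply hermForm_nondeg hF
  intro v
  have hv : v ∈ Submodule.span F (V0 hF A lam : Set (Fin n → F)) := by rw [V0_span hF hlam hc hA]; trivial
  induction hv using Submodule.span_induction with
  | mem v hv => exact hcon v hv
  | zero => exact hermForm_zero_right hF x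
  | add u v _ _ hu hv => rw [hermForm_add_right hF, hu, hv, add_zero]
  | smul a v _ hv => rw [hermForm_smul_right, hv, mul_zero]

/-- isometries of the rational form -/
def IsoV (hF : Fintype.card F = q ^ 2) (A : GU n F q) (lam : F) (g : GL (Fin n) F) : Prop :=
  (∀ x ∈ V0 hF A lam, (g : Matrix (Fin n) (Fin n) F) *ᵥ x ∈ V0 hF A lam) ∧
  ∀ x ∈ V0 hF A lam, ∀ y ∈ V0 hF A lam,
    hermForm n F q ((g : Matrix (Fin n) (Fin n) F) *ᵥ x) ((g : Matrix (Fin n) (Fin n) F) *ᵥ y) = hermForm n F q x y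

theorem IsoV_of_mem {g : GU n F q} (h : g * A = A * mapGU (frobQ hF) g) : IsoV hF A lam g := by
  refine ⟨fun x hx => ?_, fun x _ y _ => GU_pres g x y⟩
  rw [mem_V0] at hx ⊢
  have h1 := congrArg (fun z : GU n F q => ((z : GL (Fin n) F) : Matrix (Fin n) (Fin n) F)) h
  have h2 : ((g : GL (Fin n) F) : Matrix (Fin n) (Fin n) F) * ((A : GL (Fin n) F) : Matrix (Fin n) (Fin n) F) =
    ((A : GL (Fin n) F) : Matrix (Fin n) (Fin n) F) * (((g : GL (Fin n) F) : Matrix (Fin n) (Fin n) F)).map (frobQ hF) := h1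
  rw [Tm, frob_mulVec hF, Matrix.mulVec_mulVec, ← h2, ← Matrix.mulVec_mulVec, ← Matrix.mulVec_smul]
  congr 1

include hlam hc hA in
theorem mem_of_IsoV {g : GL (Fin n) F} (h : IsoV hF A lam g) (hl : lam ≠ 0) :
    ∃ hg : g ∈ GU n F q, (⟨g, hg⟩ : GU n F q) * A = A * mapGU (frobQ hF) ⟨g, hg⟩ := by
  have hspan : ∀ v : Fin n → F, v ∈ Submodule.span F (V0 hF A lam : Set (Fin n → F)) := fun v => by
    rw [V0_span hF hlam hc hA]; trivial
  have h1 : Pres q (g : Matrix (Fin n) (Fin n) F) := by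
    have h2 : ∀ x ∈ V0 hF A lam, ∀ y, hermForm n F q ((g : Matrix (Fin n) (Fin n) F) *ᵥ x) ((g : Matrix (Fin n) (Fin n) F) *ᵥ y) =
        hermForm n F q x y := by
      intro x hx y
      have hy := hspan y
      induction hy using Submodule.span_induction with
      | mem y hy => exact h.2 x hx y hy
      | zero => rw [Matrix.mulVec_zero, hermForm_zero_right hF, hermForm_zero_right hF]
      | add u v _ _ hu hv => rw [Matrix.mulVec_add, hermForm_add_right hF, hermForm_add_right hF, hu, hv]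
      | smul a v _ hv => rw [Matrix.mulVec_smul, hermForm_smul_right, hermForm_smul_right, hv]
    intro x y
    have hx := hspan x
    induction hx using Submodule.span_induction with
    | mem x hx => exact h2 x hx y
    | zero => rw [Matrix.mulVec_zero, hermForm_zero_left, hermForm_zero_left]
    | add u v _ _ hu hv => rw [Matrix.mulVec_add, hermForm_add_left, hermForm_add_left, hu, hv]
    | smul a v _ hv => rw [Matrix.mulVec_smul, hermForm_smul_left, hermForm_smul_left, hv]
  refine ⟨h1, Subtype.ext (Units.ext ?_)⟩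
  change (g : Matrix (Fin n) (Fin n) F) * ((A : GL (Fin n) F) : Matrix (Fin n) (Fin n) F) =
    ((A : GL (Fin n) F) : Matrix (Fin n) (Fin n) F) * ((g : Matrix (Fin n) (Fin n) F)).map (frobQ hF)
  have h3 : ∀ w : Fin n → F, (g : Matrix (Fin n) (Fin n) F) *ᵥ Tm q ((A : GL (Fin n) F) : Matrix (Fin n) (Fin n) F) lam w =
      Tm q ((A : GL (Fin n) F) : Matrix (Fin n) (Fin n) F) lam ((g : Matrix (Fin n) (Fin n) F) *ᵥ w) := by
    intro w
    have hw := hspan w
    induction hw using Submodule.span_induction with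
    | mem w hw =>
      have h4 := h.1 w hw
      have h5 : w ∈ V0 hF A lam := hw
      rw [mem_V0] at h4 h5
      rw [h5, h4]
    | zero =>
      have h0 := (V0 hF A lam).zero_mem
      rw [mem_V0] at h0
      rw [h0, Matrix.mulVec_zero, h0]
    | add u v _ _ hu hv => rw [Tm_add hF, Matrix.mulVec_add, Matrix.mulVec_add, Tm_add hF, hu, hv]
    | smul a v _ hv => rw [Tm_smul, Matrix.mulVec_smul, Matrix.mulVec_smul, Tm_smul, hv]
  apply Matrix.mulVec_injective
  funext v
  have h4 := h3 (fun i => (v i) ^ q)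
  have h5 : (fun i => ((fun i => (v i) ^ q) i) ^ q) = v := by funext i; exact pow_q_pow_q hF _
  rw [Tm, Tm, frob_mulVec hF, h5, Matrix.mulVec_smul, Matrix.mulVec_mulVec, Matrix.mulVec_mulVec] at h4
  exact smul_right_injective _ hl h4

/-- the symmetric form on the rational form -/
noncomputable def rsU (hF : Fintype.card F = q ^ 2) {A : GU n F q} {lam : F} (hlam : lam ^ (q + 1) = 1)
    (hA : ((A : GL (Fin n) F) : Matrix (Fin n) (Fin n) F) * (((A : GL (Fin n) F) : Matrix (Fin n) (Fin n) F)).map (frobQ hF) =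
      (1 : F) • (1 : Matrix (Fin n) (Fin n) F)) : RS F n where
  φ y := fun i => (y i) ^ q
  k := fixF (frobQ hF : F ≃+* F)
  V := V0 hF A lam
  smul_mem := fun ha hv => V0_smul hF ha hv
  mem_k := by
    intro x y hx hy
    change (hermForm n F q x y) ^ q = hermForm n F q x y
    have := V0_form hF hlam hx hy
    rw [one_mul] at this
    exact this.symm
  symm := by
    intro x y hx hy
    change hermForm n F q x y = hermForm n F q y x
    have := V0_form hF hlam hx hy
    rw [one_mul, hermForm_symm hF] at this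
    exact this
  nondeg := by
    intro x _ hx0
    exact V0_nondeg hF hlam (one_mul 1) hA hx0
  span := V0_span hF hlam (one_mul 1) hA

/-- the alternating form on the rational form -/
noncomputable def ssU (hF : Fintype.card F = q ^ 2) (h2 : (2 : F) ≠ 0) {A : GU n F q} {lam μ : F} (hlam : lam ^ (q + 1) = -1) (hμ0 : μ ≠ 0)
    (hμ : μ ^ q = -μ)
    (hA : ((A : GL (Fin n) F) : Matrix (Fin n) (Fin n) F) * (((A : GL (Fin n) F) : Matrix (Fin n) (Fin n) F)).map (frobQ hF) =
      (-1 : F) • (1 : Matrix (Fin n) (Fin n) F)) : SS F n where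
  φ y := fun i => μ * (y i) ^ q
  k := fixF (frobQ hF : F ≃+* F)
  V := V0 hF A lam
  smul_mem := fun ha hv => V0_smul hF ha hv
  mem_k := by
    intro x y hx hy
    have h1 : x ⬝ᵥ (fun i => μ * (y i) ^ q) = μ * hermForm n F q x y := by
      rw [dotProduct, hermForm_def, Finset.mul_sum]
      exact Finset.sum_congr rfl fun i _ => by ring
    rw [h1]
    change (μ * hermForm n F q x y) ^ q = μ * hermForm n F q x y
    have := V0_form hF hlam hx hy
    rw [mul_pow, hμ]
    linear_combination -μ * this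
  anti := by
    intro x y hx hy
    have h1 : ∀ x y : Fin n → F, x ⬝ᵥ (fun i => μ * (y i) ^ q) = μ * hermForm n F q x y := by
      intro x y
      rw [dotProduct, hermForm_def, Finset.mul_sum]
      exact Finset.sum_congr rfl fun i _ => by ring
    rw [h1, h1]
    have := V0_form hF hlam hx hy
    rw [hermForm_symm hF] at this
    linear_combination μ * this
  self := by
    intro x hx
    have h1 : ∀ x y : Fin n → F, x ⬝ᵥ (fun i => μ * (y i) ^ q) = μ * hermForm n F q x y := by
      intro x y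
      rw [dotProduct, hermForm_def, Finset.mul_sum]
      exact Finset.sum_congr rfl fun i _ => by ring
    rw [h1]
    have := V0_form hF hlam hx hx
    rw [hermForm_symm hF] at this
    have h3 : 2 * hermForm n F q x x = 0 := by linear_combination this
    rw [(mul_eq_zero.1 h3).resolve_left h2, mul_zero]
  nondeg := by
    intro x _ hx0
    have h1 : ∀ x y : Fin n → F, x ⬝ᵥ (fun i => μ * (y i) ^ q) = μ * hermForm n F q x y := by
      intro x y
      rw [dotProduct, hermForm_def, Finset.mul_sum]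
      exact Finset.sum_congr rfl fun i _ => by ring
    obtain ⟨y, hy, hxy⟩ := V0_nondeg hF hlam (by ring) hA hx0
    exact ⟨y, hy, by rw [h1]; exact mul_ne_zero hμ0 hxy⟩
  span := V0_span hF hlam (by ring) hA

include hlam hc hA in
theorem V0_three (hn : 3 ≤ n) (v w : Fin n → F) : ∃ x ∈ V0 hF A lam, ∀ a b : F, x ≠ a • v + b • w := by
  by_contra hcon
  push Not at hcon
  obtain ⟨x, hx⟩ := three_vec hn v w
  have h1 : Submodule.span F (V0 hF A lam : Set (Fin n → F)) ≤ Submodule.span F ({v, w} : Set (Fin n → F)) := by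
    rw [Submodule.span_le]
    intro y hy
    obtain ⟨a, b, hab⟩ := hcon y hy
    rw [SetLike.mem_coe, Submodule.mem_span_pair]
    exact ⟨a, b, hab.symm⟩
  rw [V0_span hF hlam hc hA] at h1
  have h2 := h1 (show x ∈ ⊤ by trivial)
  rw [Submodule.mem_span_pair] at h2
  obtain ⟨a, b, hab⟩ := h2
  exact hx a b hab.symm

/-- the subgroup of isometries -/
noncomputable def CA (hF : Fintype.card F = q ^ 2) (A : GU n F q) : Subgroup (GU n F q) where
  carrier := {g | g * A = A * mapGU (frobQ hF) g}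
  one_mem' := by change 1 * A = A * mapGU (frobQ hF) 1; rw [map_one, one_mul, mul_one]
  mul_mem' := by
    intro a b ha hb
    change a * b * A = A * mapGU (frobQ hF) (a * b)
    change a * A = _ at ha
    change b * A = _ at hb
    rw [map_mul, mul_assoc, hb, ← mul_assoc, ha, mul_assoc]
  inv_mem' := by
    intro a ha
    change a⁻¹ * A = A * mapGU (frobQ hF) a⁻¹
    change a * A = _ at ha
    rw [map_inv, inv_mul_eq_iff_eq_mul, ← mul_assoc, ha, mul_inv_cancel_right]

theorem mem_CA {g : GU n F q} : g ∈ CA hF A ↔ g * A = A * mapGU (frobQ hF) g := Iff.rfl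

theorem MM_CA (hn : 3 ≤ n) (r : ℕ) [Fact r.Prime] [CharP F r] {y : MulAut (PSU n F q)}
    (hy : y ∈ MM r (diagU n F q).range (diagU n F q A * cAutU 1 (frobQ hF))) : ∃ g ∈ CA hF A, diagU n F q g = y := by
  obtain ⟨g, hg, rfl⟩ := MM_liftU hF hn r _ hy
  refine ⟨g, ?_, rfl⟩
  refine (Subgroup.closure_le (K := CA hF A)).2 ?_ hg
  rintro g ⟨⟨k, hk⟩, h⟩
  exact commute_unipU2 hF hn r hk h

theorem CA_MM (r : ℕ) {g : GU n F q} (hg : g ∈ CA hF A) {k : ℕ} (hk : g ^ r ^ k = 1) :
    diagU n F q g ∈ MM r (diagU n F q).range (diagU n F q A * cAutU 1 (frobQ hF)) :=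
  mem_MM r _ _ ⟨g, rfl⟩ (commute_of_fix hg) (k := k) (by rw [← map_pow, hk, map_one])

/-- the field automorphism is trivial -/
theorem tau_one (hF : Fintype.card F = q ^ 2) {τ : RingAut F} {m : ℕ} (hm : Odd m) (hτ : τ ^ m = 1) (h : ∀ x, frobQ hF x = x → τ x = x) :
    τ = 1 := by
  have h1 := gal h
  have h2 : τ ^ 2 = 1 := by
    obtain ⟨k, hk⟩ := h1
    change frobQ hF ^ k = τ at hk
    rw [← hk, ← zpow_natCast, ← _root_.zpow_mul, mul_comm, _root_.zpow_mul, zpow_natCast, frobQ_sq, _root_.one_zpow]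
  have h3 := orderOf_dvd_of_pow_eq_one h2
  have h4 := orderOf_dvd_of_pow_eq_one hτ
  exact orderOf_eq_one_iff.1 (Nat.eq_one_of_dvd_coprimes (Nat.coprime_two_right.2 hm) h4 h3)

end

end Cfsg.Agent.LB
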