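import Cfsg.Agent.LB.PsuG

/-!
Local balance criterion for `PSU_n(q)`: involutory automorphisms.
-/

set_option autoImplicit false

namespace Cfsg.Agent.LB

open Matrix Cfsg.Agent.AutPSL Cfsg.Agent.AutLie Cfsg.Agent.AutPSU Cfsg.Agent.Uni

variable {F : Type*} [Field F] [Fintype F] {q : ℕ} {n : ℕ}

/-- the scalar conclusion -/
theorem smul_of_span {V : Set (Fin n → F)} (hV : Submodule.span F V = ⊤) {g : GL (Fin n) F} {α : F}
    (h : ∀ x ∈ V, (g : Matrix (Fin n) (Fin n) F) *ᵥ x = α • x) : (g : Matrix (Fin n) (Fin n) F) = α • (1 : Matrix _ _ F) := by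
  apply Matrix.mulVec_injective
  funext y
  have hy : y ∈ Submodule.span F V := by rw [hV]; trivial
  rw [Matrix.smul_mulVec, Matrix.one_mulVec]
  induction hy using Submodule.span_induction with
  | zero => rw [Matrix.mulVec_zero, smul_zero]
  | add x y _ _ hx hy => rw [Matrix.mulVec_add, smul_add, hx, hy]
  | smul c x _ hx => rw [Matrix.mulVec_smul, hx, smul_comm]
  | mem y hy => exact h y hy

theorem conj_mem_map {G : Type*} [Group G] {H : Subgroup G} {N : Subgroup H} {x : G} (hx : x ∈ H)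
    (h : ∀ g ∈ N, ⟨x, hx⟩ * g * ⟨x, hx⟩⁻¹ ∈ N) : ∀ g ∈ N.map H.subtype, x * g * x⁻¹ ∈ N.map H.subtype := by
  rintro _ ⟨g, hg, rfl⟩
  exact ⟨_, h g hg, rfl⟩

section

variable (hF : Fintype.card F = q ^ 2) (hn : 3 ≤ n) (hs : ¬ (n = 3 ∧ q = 2)) (r : ℕ) [Fact r.Prime] [CharP F r] (hr : r ≠ 2)

include hn hs hr in
/-- the symmetric case -/
theorem good_symU {A : GU n F q} {lam : F} (hlam : lam ^ (q + 1) = 1)
    (hA : ((A : GL (Fin n) F) : Matrix (Fin n) (Fin n) F) * (((A : GL (Fin n) F) : Matrix (Fin n) (Fin n) F)).map (frobQ hF) =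
      (1 : F) • (1 : Matrix (Fin n) (Fin n) F)) :
    Good 2 r (diagU n F q).range (diagU n F q A * cAutU 1 (frobQ hF)) := by
  have h2 : (2 : F) ≠ 0 := Ring.two_ne_zero (R := F) (by rw [ringChar.eq F r]; exact hr)
  have hfin : Finite (MulAut (PSU n F q)) := by
    have : Finite (PSU n F q) := Quotient.finite _
    infer_instance
  have hl0 : lam ≠ 0 := by
    rintro rfl
    rw [zero_pow (by omega)] at hlam
    exact zero_ne_one hlam
  set S := rsU hF hlam hA with hS
  have hSV : S.V = V0 hF A lam := rfl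
  have hSh : ∀ x y, S.h x y = hermForm n F q x y := fun x y => rfl
  have h3 : ∀ v w : Fin n → F, ∃ x ∈ S.V, ∀ a b : F, x ≠ a • v + b • w := V0_three hF hlam (one_mul 1) hA hn
  have hiso : ∀ g : GL (Fin n) F, S.Isom g → ∃ hg : g ∈ GU n F q, (⟨g, hg⟩ : GU n F q) ∈ CA hF A := by
    intro g hg
    exact mem_of_IsoV hF hlam (one_mul 1) hA (g := g) ⟨hg.1, hg.2⟩ hl0
  have hiso' : ∀ g : GU n F q, g ∈ CA hF A → S.Isom (g : GL (Fin n) F) := by
    intro g hg
    have := IsoV_of_mem hF (lam := lam) hg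
    exact ⟨this.1, this.2⟩
  constructor
  · intro Y hY hYc hYn
    rw [eq_bot_iff]
    intro y hy
    rw [Subgroup.mem_bot]
    obtain ⟨g, hg, rfl⟩ := MM_CA hF hn r (hY hy)
    have hgi := hiso' g hg
    let 𝒩 : Subgroup (GL (Fin n) F) := (Y.comap (diagU n F q)).map (GU n F q).subtype
    have hg𝒩 : (g : GL (Fin n) F) ∈ 𝒩 := ⟨g, hy, rfl⟩
    have hN : ∀ (v : Fin n → F) (hv : S.h v v ≠ 0), v ∈ S.V → ∀ g ∈ 𝒩, S.R v hv * g * (S.R v hv)⁻¹ ∈ 𝒩 := by
      intro v hv hvV
      obtain ⟨h5, h6⟩ := hiso _ (RS.isom_R hvV hv)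
      refine conj_mem_map h5 ?_
      intro g hg
      rw [Subgroup.mem_comap, map_mul, map_mul, map_inv]
      exact hYn _ (commute_of_fix h6) _ hg
    have hodd : ∀ g ∈ 𝒩, ∃ m : ℕ, Odd m ∧ ∃ c : F, ((g ^ m : GL (Fin n) F) : Matrix (Fin n) (Fin n) F) = c • (1 : Matrix _ _ F) := by
      rintro _ ⟨g, hg, rfl⟩
      exact odd_scalarU hF hn hYc g hg
    obtain ⟨c, hc⟩ := RS.scalar_of_fix h2 h3 hgi (fun v hv hv0 =>
      RS.refl_lemma h2 h3 hN hodd hg𝒩 hgi hv hv0)
    exact cAutU_eq_one_of_smul hF hn hc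
  · intro x _ hox hxm
    obtain ⟨g, τ, rfl, hτ⟩ := semilinear_of_oddU hF hn hs (pow_orderOf_eq_one x)
    obtain ⟨h5, α, h6⟩ := RS.semi_lemma (S := S) h2 h3 τ (TT (g : GL (Fin n) F) τ) (TT_add _ τ) (TT_smul _ τ) (TT_inj _ τ) (by
      intro e he he0 hee
      obtain ⟨v, hv, hev, hvv⟩ := RS.exists_perp_iso h2 h3 he he0 hee
      have hve0 : S.h (v + e) (v + e) ≠ 0 := by
        rw [RS.h_add_left, RS.h_add_right hv hv he, RS.h_add_right he hv he, RS.h_symm hv he, hev, hee]
        simpa using hvv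
      set z := S.R v hvv * S.R (v + e) hve0 with hz
      have hzact := fun x (hx : x ∈ S.V) => RS.Z_mulVec (S := S) hv he hvv hee hev hve0 (x := x) hx
      have hve : S.h v e = 0 := by rw [RS.h_symm hv he]; exact hev
      have hz1 : ∀ x ∈ S.V, ((z : Matrix (Fin n) (Fin n) F) - 1) *ᵥ x = (2 / S.h v v) • (S.h x e • v - S.h x v • e - S.h x e • e) := by
        intro x hx
        rw [Matrix.sub_mulVec, Matrix.one_mulVec, hzact x hx]
        abel
      have hzi : S.Isom z := (RS.isom_R hv hvv).mul (RS.isom_R (S.V.add_mem hv he) hve0)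
      have hzV : ∀ x ∈ S.V, ((z : Matrix (Fin n) (Fin n) F) - 1) *ᵥ x ∈ S.V := by
        intro x hx
        rw [Matrix.sub_mulVec, Matrix.one_mulVec]
        exact S.V.sub_mem (hzi.1 x hx) hx
      have hz2 : ∀ x ∈ S.V, ((z : Matrix (Fin n) (Fin n) F) - 1) *ᵥ (((z : Matrix (Fin n) (Fin n) F) - 1) *ᵥ x) =
          (-(4 / S.h v v) * S.h x e) • e := by
        intro x hx
        rw [hz1 _ (hzV x hx), hz1 _ hx, RS.h_smul_left, RS.h_sub_left, RS.h_sub_left, RS.h_smul_left, RS.h_smul_left, RS.h_smul_left,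
          RS.h_smul_left, RS.h_sub_left, RS.h_sub_left, RS.h_smul_left, RS.h_smul_left, RS.h_smul_left, hee, hev, hve]
        ext i
        simp only [Pi.smul_apply, Pi.sub_apply, smul_eq_mul]
        field_simp
        ring
      have hz3 : ((z : Matrix (Fin n) (Fin n) F) - 1) ^ 3 = 0 := by
        have hspan : ∀ x : Fin n → F, (((z : Matrix (Fin n) (Fin n) F) - 1) ^ 3) *ᵥ x = 0 := by
          intro x
          have hx : x ∈ Submodule.span F (S.V : Set (Fin n → F)) := by rw [S.span]; trivial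
          induction hx using Submodule.span_induction with
          | zero => rw [Matrix.mulVec_zero]
          | add x y _ _ hx hy => rw [Matrix.mulVec_add, hx, hy, add_zero]
          | smul c x _ hx => rw [Matrix.mulVec_smul, hx, smul_zero]
          | mem x hx =>
            rw [pow_succ, pow_two, ← Matrix.mulVec_mulVec, ← Matrix.mulVec_mulVec, hz2 _ (hzV x hx), hz1 x hx, RS.h_smul_left,
              RS.h_sub_left, RS.h_sub_left, RS.h_smul_left, RS.h_smul_left, RS.h_smul_left, hve, hee]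
            simp
        apply Matrix.mulVec_injective
        funext x
        rw [hspan, Matrix.zero_mulVec]
      obtain ⟨hzU, hzC⟩ := hiso z hzi
      have hzr : (⟨z, hzU⟩ : GU n F q) ^ r ^ 1 = 1 := by
        apply Subtype.ext
        rw [Subgroup.coe_pow, Subgroup.coe_one]
        exact pow_of_cube r hr hz3
      have hzc' := commute_unipU hF hn r hzr (hxm _ (CA_MM hF r hzC hzr))
      have hzc : (g : GL (Fin n) F) * mapGL τ z = z * (g : GL (Fin n) F) := congrArg Subtype.val hzc'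
      have hT1 : ∀ x, TT (g : GL (Fin n) F) τ (((z : Matrix (Fin n) (Fin n) F) - 1) *ᵥ x) =
          ((z : Matrix (Fin n) (Fin n) F) - 1) *ᵥ TT (g : GL (Fin n) F) τ x := by
        intro x
        rw [Matrix.sub_mulVec, Matrix.sub_mulVec, Matrix.one_mulVec, Matrix.one_mulVec, sub_eq_add_neg, TT_add, TT_mulVec hzc,
          sub_eq_add_neg]
        congr 1
        have := TT_smul (g : GL (Fin n) F) τ (-1) x
        rwa [neg_one_smul, map_neg, map_one, neg_one_smul] at this
      obtain ⟨y, hy, hey⟩ := S.nondeg he he0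
      change S.h e y ≠ 0 at hey
      have hye : S.h y e ≠ 0 := by rw [RS.h_symm hy he]; exact hey
      have h7 := hT1 (((z : Matrix (Fin n) (Fin n) F) - 1) *ᵥ y)
      -- `(z - 1)²` on all vectors
      have hz2' : ∀ x : Fin n → F, ((z : Matrix (Fin n) (Fin n) F) - 1) *ᵥ (((z : Matrix (Fin n) (Fin n) F) - 1) *ᵥ x) =
          (-(4 / S.h v v) * S.h x e) • e := by
        intro x
        have hx : x ∈ Submodule.span F (S.V : Set (Fin n → F)) := by rw [S.span]; trivial
        induction hx using Submodule.span_induction with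
        | zero => rw [Matrix.mulVec_zero, Matrix.mulVec_zero, RS.h_zero_left, mul_zero, zero_smul]
        | add x y _ _ hx hy => rw [Matrix.mulVec_add, Matrix.mulVec_add, hx, hy, RS.h_add_left, mul_add, add_smul]
        | smul c x _ hx => rw [Matrix.mulVec_smul, Matrix.mulVec_smul, hx, RS.h_smul_left, smul_smul]; congr 1; ring
        | mem x hx => exact hz2 x hx
      rw [hT1 y, hz2', hz2', TT_smul] at h7
      have h40 : (4 : F) ≠ 0 := by
        have : (4 : F) = 2 * 2 := by norm_num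
        rw [this]; exact mul_ne_zero h2 h2
      have hs0 : τ (-(4 / S.h v v) * S.h y e) ≠ 0 := by
        rw [Ne, map_eq_zero_iff τ τ.injective]
        exact mul_ne_zero (neg_ne_zero.2 (div_ne_zero h40 hvv)) hye
      refine ⟨(τ (-(4 / S.h v v) * S.h y e))⁻¹ * (-(4 / S.h v v) * S.h (TT (g : GL (Fin n) F) τ y) e), ?_⟩
      rw [mul_smul, ← h7, smul_smul, inv_mul_cancel₀ hs0, one_smul])
    have hτ1 : τ = 1 := tau_one hF (Nat.coprime_two_right.1 hox) hτ (fun c hc => h5 c hc)
    rw [hτ1] at h6 ⊢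
    refine cAutU_eq_one_of_smul hF hn (α := α) (smul_of_span S.span fun x hx => ?_)
    exact h6 x hx

include hn hs hr in
/-- the alternating case -/
theorem good_altU {A : GU n F q} {lam : F} (hlam : lam ^ (q + 1) = -1)
    (hA : ((A : GL (Fin n) F) : Matrix (Fin n) (Fin n) F) * (((A : GL (Fin n) F) : Matrix (Fin n) (Fin n) F)).map (frobQ hF) =
      (-1 : F) • (1 : Matrix (Fin n) (Fin n) F)) :
    Good 2 r (diagU n F q).range (diagU n F q A * cAutU 1 (frobQ hF)) := by
  have h2 : (2 : F) ≠ 0 := Ring.two_ne_zero (R := F) (by rw [ringChar.eq F r]; exact hr)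
  have hfin : Finite (MulAut (PSU n F q)) := by
    have : Finite (PSU n F q) := Quotient.finite _
    infer_instance
  have hl0 : lam ≠ 0 := by
    rintro rfl
    rw [zero_pow (by omega)] at hlam
    exact (neg_ne_zero.2 one_ne_zero) hlam.symm
  have hm1 : (-1 : F) * -1 = 1 := by ring
  obtain ⟨μ, hμ0, hμ⟩ := exists_skew hF
  set S := ssU hF h2 hlam hμ0 hμ hA with hS
  have hSh : ∀ x y, S.h x y = μ * hermForm n F q x y := by
    intro x y
    change x ⬝ᵥ (fun i => μ * (y i) ^ q) = _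
    rw [dotProduct, hermForm_def, Finset.mul_sum]
    exact Finset.sum_congr rfl fun i _ => by ring
  have h3 : ∀ v w : Fin n → F, ∃ x ∈ S.V, ∀ a b : F, x ≠ a • v + b • w := V0_three hF hlam hm1 hA hn
  have hex : ∃ v ∈ S.V, v ≠ 0 := by
    obtain ⟨x, hx, hx'⟩ := h3 (0 : Fin n → F) 0
    refine ⟨x, hx, ?_⟩
    have := hx' 0 0
    simpa using this
  have hiso : ∀ g : GL (Fin n) F, S.Isom g → ∃ hg : g ∈ GU n F q, (⟨g, hg⟩ : GU n F q) ∈ CA hF A := by
    intro g hg
    refine mem_of_IsoV hF hlam hm1 hA (g := g) ⟨hg.1, fun x hx y hy => ?_⟩ hl0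
    have := hg.2 x hx y hy
    rw [hSh, hSh] at this
    exact mul_left_cancel₀ hμ0 this
  have hiso' : ∀ g : GU n F q, g ∈ CA hF A → S.Isom (g : GL (Fin n) F) := by
    intro g hg
    have := IsoV_of_mem hF (lam := lam) hg
    exact ⟨this.1, fun x hx y hy => by rw [hSh, hSh, this.2 x hx y hy]⟩
  have hpow : ∀ (v : Fin n → F) (hv : v ∈ S.V) (a : F), S.t v hv a ^ r ^ 1 = 1 := by
    intro v hv a
    rw [pow_one, SS.t_pow, CharP.cast_eq_zero, zero_mul, SS.t_zero]
  constructor
  · intro Y hY hYc hYn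
    rw [eq_bot_iff]
    intro y hy
    rw [Subgroup.mem_bot]
    obtain ⟨g, hg, rfl⟩ := MM_CA hF hn r (hY hy)
    have hgi := hiso' g hg
    let 𝒩 : Subgroup (GL (Fin n) F) := (Y.comap (diagU n F q)).map (GU n F q).subtype
    have hg𝒩 : (g : GL (Fin n) F) ∈ 𝒩 := ⟨g, hy, rfl⟩
    have hN : ∀ (v : Fin n → F) (hv : v ∈ S.V) (a : F), a ∈ S.k → ∀ g ∈ 𝒩, S.t v hv a * g * (S.t v hv a)⁻¹ ∈ 𝒩 := by
      intro v hv a ha
      obtain ⟨h5, h6⟩ := hiso _ (SS.isom_t hv ha)
      refine conj_mem_map h5 ?_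
      intro g hg
      rw [Subgroup.mem_comap, map_mul, map_mul, map_inv]
      exact hYn _ (commute_of_fix h6) _ hg
    have hodd : ∀ g ∈ 𝒩, ∃ m : ℕ, Odd m ∧ ∃ c : F, ((g ^ m : GL (Fin n) F) : Matrix (Fin n) (Fin n) F) = c • (1 : Matrix _ _ F) := by
      rintro _ ⟨g, hg, rfl⟩
      exact odd_scalarU hF hn hYc g hg
    obtain ⟨c, hc⟩ := SS.semi_scalar (S := S) (RingEquiv.refl F) (fun x => ((g : GL (Fin n) F) : Matrix (Fin n) (Fin n) F) *ᵥ x)
      (fun x y => Matrix.mulVec_add _ _ _) (fun c x => Matrix.mulVec_smul _ _ _) (fun c _ => rfl) (fun v hv =>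
      SS.tv_lemma h2 h3 hN hodd hg𝒩 hgi hv)
    exact cAutU_eq_one_of_smul hF hn (α := c) (smul_of_span S.span fun x hx => hc x hx)
  · intro x _ hox hxm
    obtain ⟨g, τ, rfl, hτ⟩ := semilinear_of_oddU hF hn hs (pow_orderOf_eq_one x)
    obtain ⟨h5, α, h6⟩ := SS.semi_lemma (S := S) τ (TT (g : GL (Fin n) F) τ) (TT_add _ τ) (TT_smul _ τ) (TT_inj _ τ) hex (by
      intro v hv a ha x
      obtain ⟨htU, htC⟩ := hiso _ (SS.isom_t hv ha)
      have htr : (⟨S.t v hv a, htU⟩ : GU n F q) ^ r ^ 1 = 1 := by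
        apply Subtype.ext
        rw [Subgroup.coe_pow, Subgroup.coe_one]
        exact hpow v hv a
      have := commute_unipU hF hn r htr (hxm _ (CA_MM hF r htC htr))
      exact TT_mulVec (congrArg Subtype.val this) x)
    have hτ1 : τ = 1 := tau_one hF (Nat.coprime_two_right.1 hox) hτ (fun c hc => h5 c hc)
    rw [hτ1] at h6 ⊢
    refine cAutU_eq_one_of_smul hF hn (α := α) (smul_of_span S.span fun x hx => ?_)
    exact h6 x hx

include hn hs hr in
/-- **involutory automorphisms** -/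
theorem good_graphU {A : GU n F q} (hβ : (diagU n F q A * cAutU 1 (frobQ hF)) ^ 2 = 1) :
    Good 2 r (diagU n F q).range (diagU n F q A * cAutU 1 (frobQ hF)) := by
  have h1 : diagU n F q (A * mapGU (frobQ hF) A) = 1 := by
    have h2 : (cAutU (1 : GU n F q) (frobQ hF) : MulAut (PSU n F q)) * cAutU 1 (frobQ hF) = 1 := by
      have := cAutU_one_pow (n := n) (q := q) (frobQ hF) 2
      rw [frobQ_sq, pow_two] at this
      rw [this]; exact cAutU_one
    rw [pow_two, mul_assoc, ← mul_assoc (cAutU (1 : GU n F q) (frobQ hF)), phiU_comm, mul_assoc (diagU n F q (mapGU _ A)), h2, mul_one,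
      ← map_mul] at hβ
    exact hβ
  obtain ⟨c, hc⟩ := of_diagU_eq_one hF hn h1
  have hA : ((A : GL (Fin n) F) : Matrix (Fin n) (Fin n) F) * (((A : GL (Fin n) F) : Matrix (Fin n) (Fin n) F)).map (frobQ hF) =
      c • (1 : Matrix (Fin n) (Fin n) F) := hc
  have hfr : ∀ x : F, frobQ hF (frobQ hF x) = x := fun x => pow_q_pow_q hF x
  have h0 : Nonempty (Fin n) := ⟨⟨0, by omega⟩⟩
  -- `Ā A = c`
  have hA' : (((A : GL (Fin n) F) : Matrix (Fin n) (Fin n) F)).map (frobQ hF) * ((A : GL (Fin n) F) : Matrix (Fin n) (Fin n) F) =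
      (frobQ hF c) • (1 : Matrix (Fin n) (Fin n) F) := by
    have := congrArg (fun M : Matrix (Fin n) (Fin n) F => M.map (frobQ hF)) hA
    simp only [Matrix.map_mul] at this
    rw [Matrix.map_map] at this
    have h3 : (frobQ hF : F → F) ∘ (frobQ hF : F → F) = id := funext hfr
    rw [h3, Matrix.map_id] at this
    rw [this]
    ext i j
    rw [Matrix.map_apply, Matrix.smul_apply, Matrix.smul_apply, smul_eq_mul, smul_eq_mul, map_mul]
    congr 1
    by_cases hij : i = j
    · subst hij; simp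
    · rw [Matrix.one_apply_ne hij, map_zero]
  have hcne : ∀ a : F, a • (1 : Matrix (Fin n) (Fin n) F) = 0 → a = 0 := by
    intro a ha
    have := congrFun (congrFun ha ⟨0, by omega⟩) ⟨0, by omega⟩
    simpa using this
  have hc1 : frobQ hF c = c := by
    have e1 : ((A : GL (Fin n) F) : Matrix (Fin n) (Fin n) F) *
        ((((A : GL (Fin n) F) : Matrix (Fin n) (Fin n) F)).map (frobQ hF) * ((A : GL (Fin n) F) : Matrix (Fin n) (Fin n) F)) =
        c • ((A : GL (Fin n) F) : Matrix (Fin n) (Fin n) F) := by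
      rw [← Matrix.mul_assoc, hA, Matrix.smul_mul, Matrix.one_mul]
    rw [hA', Matrix.mul_smul, Matrix.mul_one] at e1
    have e2 : (frobQ hF c - c) • ((A : GL (Fin n) F) : Matrix (Fin n) (Fin n) F) = 0 := by rw [sub_smul, e1, sub_self]
    rcases smul_eq_zero.1 e2 with h4 | h4
    · exact sub_eq_zero.1 h4
    · exfalso
      have h5 := (A : GL (Fin n) F).det_ne_zero
      rw [h4, Matrix.det_zero] at h5
      exact h5 rfl
  have hcU : c ^ (q + 1) = 1 := by
    have h4 : c ≠ 0 := by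
      rintro rfl
      rw [zero_smul] at hA
      have h5 := congrArg Matrix.det hA
      rw [Matrix.det_mul, Matrix.det_zero] at h5
      have h6 := (A : GL (Fin n) F).det_ne_zero
      have h7 : ((((A : GL (Fin n) F) : Matrix (Fin n) (Fin n) F)).map (frobQ hF)).det ≠ 0 := by
        have := (mapGL (frobQ hF) (A : GL (Fin n) F)).det_ne_zero
        exact this
      rcases mul_eq_zero.1 h5 with h | h
      · exact h6 h
      · exact h7 h
    have h8 : ((A * mapGU (frobQ hF) A : GU n F q) : GL (Fin n) F) = Matrix.GeneralLinearGroup.scalar (Fin n) (Units.mk0 c h4) := by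
      apply Units.ext
      rw [hc, Matrix.GeneralLinearGroup.coe_scalar, Matrix.scalar_apply, Matrix.smul_one_eq_diagonal]
      rfl
    have h9 := (A * mapGU (frobQ hF) A : GU n F q).2
    rw [h8, scalar_mem_GU_iff (by omega)] at h9
    exact mem_U1.1 h9
  have hcc : c * c = 1 := by
    have : c ^ q = c := hc1
    rw [pow_succ, this] at hcU
    exact hcU
  have h7 : (c - 1) * (c + 1) = 0 := by linear_combination hcc
  rcases mul_eq_zero.1 h7 with h | h
  · have hc' : c = 1 := sub_eq_zero.1 h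
    rw [hc'] at hA
    exact good_symU hF hn hs r hr (lam := 1) (one_pow _) hA
  · have hc' : c = -1 := eq_neg_of_add_eq_zero_left h
    rw [hc'] at hA
    obtain ⟨lam, hlam⟩ := exists_norm_eq hF (c := (-1 : F)) (by rw [neg_pow_q hF, one_pow])
    exact good_altU hF hn hs r hr hlam hA

end

end Cfsg.Agent.LB
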