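import Cfsg.Agent.LB.PsuG2
import Cfsg.Agent.AutLie.FixField

/-!
Local balance criterion for `PSU_n(q)`: the theorem.
-/

set_option autoImplicit false

namespace Cfsg.Agent.LB

open Matrix Cfsg.Agent.AutPSL Cfsg.Agent.AutLie Cfsg.Agent.AutPSU Cfsg.Agent.Uni

theorem exists_q {F : Type*} [Field F] [Fintype F] {q : ℕ} (hF : Fintype.card F = q ^ 2) (r : ℕ) [Fact r.Prime] [inst : CharP F r] :
    ∃ f : ℕ, 0 < f ∧ q = r ^ f := by
  obtain ⟨p', f, hp', hc, hf, hqf⟩ := q_prime_pow hF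
  have : p' = r := CharP.eq F hc inst
  exact ⟨f, hf, this ▸ hqf⟩

theorem good_fieldU' {F : Type*} [Field F] [Fintype F] {q : ℕ} {n : ℕ} (hF : Fintype.card F = q ^ 2) (hn : 3 ≤ n)
    (hs : ¬ (n = 3 ∧ q = 2)) (r : ℕ) [Fact r.Prime] [CharP F r]
    {p : ℕ} (hp : p.Prime) (hodd : Odd p) (hpr : p ≠ r) {σ : RingAut F} (hσ : orderOf σ = p)
    (hdvd : p ∣ Nat.card ↥(MonoidHom.eqLocus (cAutU (1 : GU n F q) σ : MulAut (PSU n F q)).toMonoidHom (MonoidHom.id (PSU n F q)))) :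
    Good p r (diagU n F q).range (cAutU 1 σ) := by
  obtain ⟨f, hf, hqf⟩ := exists_q hF r
  have hF' : Fintype.card F = r ^ (2 * f) := by rw [hF, hqf, ← pow_mul, mul_comm]
  have hdvd' : p ∣ f := by
    have h1 : p ∣ 2 * f := hσ ▸ orderOf_ringAut_dvd hF' σ
    rcases (Nat.Prime.dvd_mul hp).1 h1 with h2 | h2
    · have h3 := (Nat.prime_dvd_prime_iff_eq hp Nat.prime_two).1 h2
      rw [h3] at hodd
      exact absurd hodd (by decide)
    · exact h2
  obtain ⟨k, hk⟩ := hdvd'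
  have hk0 : k ≠ 0 := by
    rintro rfl
    rw [mul_zero] at hk
    omega
  have hfr2 : 2 * f / p = 2 * k := by
    rw [hk, show 2 * (p * k) = p * (2 * k) by ring, Nat.mul_div_cancel_left _ hp.pos]
  let K := GaloisField r (2 * k)
  have : Finite K := inferInstance
  let _ : Fintype K := Fintype.ofFinite K
  have hKc : Fintype.card K = r ^ (2 * k) := by
    rw [← Nat.card_eq_fintype_card]
    exact GaloisField.card r (2 * k) (by omega)
  have hK : Fintype.card K = (r ^ k) ^ 2 := by rw [hKc, ← pow_mul, mul_comm]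
  obtain ⟨j, hj⟩ := exists_embedding hF' σ K (by rw [hσ, hfr2]; exact hKc)
  have hqq : q = (r ^ k) ^ p := by rw [hqf, hk, ← pow_mul, mul_comm]
  exact good_fieldU hF hn hs r hp hodd hpr hσ hK j hqq hj hdvd

theorem psu_criterion
    (F : Type*) [Field F] [Fintype F] (r : ℕ) [Fact r.Prime] [CharP F r] (q : ℕ) (hF : Fintype.card F = q ^ 2)
    (n : ℕ) (hn : 3 ≤ n) (hK : IsSimpleGroup (Cfsg.PSU n F q))
    (𝒢 : Subgroup (MulAut (Cfsg.PSU n F q))) (hinn : ∀ k : Cfsg.PSU n F q, MulAut.conj k ∈ 𝒢)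
    (p : ℕ) [Fact p.Prime] (hpr : p ≠ r) (β : MulAut (Cfsg.PSU n F q)) (hord : orderOf β = p)
    (hnot : ¬ Cfsg.IsInnerDiagonalAutPSU β) :
    Cfsg.pPrimeCore p ↥(𝒢 ⊓ Subgroup.centralizer {β}) ≠ ⊥ ↔
      ((∃ γ φ : MulAut (Cfsg.PSU n F q), Cfsg.IsInnerDiagonalAutPSU γ ∧ (∃ σ : F ≃+* F, Cfsg.IsFieldAutPSUOf σ φ) ∧ β = φ.trans γ) ∧
        Nat.Coprime p (Nat.card ↥(MonoidHom.eqLocus β.toMonoidHom (MonoidHom.id (Cfsg.PSU n F q))))) := by
  have hp : p.Prime := Fact.out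
  have hs := not32 hF hK
  have hfinK : Finite (PSU n F q) := Quotient.finite _
  have hD := normal_diagU hF hn hs
  have hβp : β ^ p = 1 := by rw [← hord, pow_orderOf_eq_one]
  obtain ⟨g, σ, hβ, hσp⟩ := semilinear_of_oddU hF hn hs hβp
  have hσ1 : σ ≠ 1 := by
    rintro rfl
    apply hnot
    rw [hβ]
    exact innDiag_cAutU g
  have hσ : orderOf σ = p := orderOf_eq_prime hσp hσ1
  have hβ' : β = diagU n F q g * cAutU 1 σ := by rw [hβ, cAutU_eq]; rfl
  refine criterion (r := r) hK (fun k => conjU_eq_one hF hn) hp hD 𝒢 hinn (mem_of_powU hF hn r 𝒢 hinn) hord ?_ ?_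
  · intro hP
    exfalso
    apply hP
    exact ⟨diagU n F q g, cAutU 1 σ, innDiag_cAutU g, ⟨σ, field_cAutU σ⟩, hβ'⟩
  · rintro - hdvd
    rcases Nat.even_or_odd p with hev | hodd
    · have hp2 : p = 2 := (Nat.Prime.even_iff hp).1 hev
      subst hp2
      have hσq : σ = frobQ hF := by
        obtain ⟨m, -, hcard⟩ := FiniteField.card F r
        obtain ⟨hcyc, _⟩ := ringAut_cyclic_card F hcard
        have hfin := finite_ringAut (F := F)
        exact order2_unique hσ (orderOf_eq_prime (frobQ_sq hF) (frobQ_ne_one hF))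
      rw [hβ', hσq] at hβp ⊢
      exact good_graphU hF hn hs r (Ne.symm hpr) hβp
    · have hσodd : Odd (orderOf σ) := by rw [hσ]; exact hodd
      rw [hβ'] at hβp hdvd ⊢
      obtain ⟨B, hB⟩ := field_langU hF hn σ hσodd g (by rw [hσ]; exact hβp)
      rw [hB, card_fix_conj] at hdvd
      apply Good.conj hD (α := (diagU n F q B)⁻¹)
      rw [hB, show (diagU n F q B)⁻¹ * (diagU n F q B * cAutU 1 σ * (diagU n F q B)⁻¹) * ((diagU n F q B)⁻¹)⁻¹ =
        cAutU 1 σ by group]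
      exact good_fieldU' hF hn hs r hp hodd hpr hσ hdvd

end Cfsg.Agent.LB
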