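import Mathlib

/-!
Normal subgroups of odd order modulo scalars in orthogonal groups are scalar (odd characteristic): reflections.
-/

set_option autoImplicit false

namespace Cfsg.Agent.LB

open Matrix

/-- a symmetric bilinear form over a subfield on a spanning set of vectors -/
structure RS (F : Type*) [Field F] (n : ℕ) where
  φ : (Fin n → F) → (Fin n → F)
  k : Subfield F
  V : AddSubgroup (Fin n → F)
  smul_mem : ∀ {c : F} {v : Fin n → F}, c ∈ k → v ∈ V → c • v ∈ V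
  mem_k : ∀ {x y : Fin n → F}, x ∈ V → y ∈ V → x ⬝ᵥ φ y ∈ k
  symm : ∀ {x y : Fin n → F}, x ∈ V → y ∈ V → x ⬝ᵥ φ y = y ⬝ᵥ φ x
  nondeg : ∀ {x : Fin n → F}, x ∈ V → x ≠ 0 → ∃ y ∈ V, x ⬝ᵥ φ y ≠ 0
  span : Submodule.span F (V : Set (Fin n → F)) = ⊤

variable {F : Type*} [Field F] {n : ℕ}

namespace RS

variable (S : RS F n)

/-- the form -/
def h (x y : Fin n → F) : F := x ⬝ᵥ S.φ y

variable {S}

theorem h_add_left (x x' y : Fin n → F) : S.h (x + x') y = S.h x y + S.h x' y := add_dotProduct _ _ _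
theorem h_smul_left (c : F) (x y : Fin n → F) : S.h (c • x) y = c * S.h x y := by
  rw [h, smul_dotProduct, smul_eq_mul]; rfl
theorem h_sub_left (x x' y : Fin n → F) : S.h (x - x') y = S.h x y - S.h x' y := sub_dotProduct _ _ _
theorem h_neg_left (x y : Fin n → F) : S.h (-x) y = - S.h x y := neg_dotProduct _ _
theorem h_zero_left (y : Fin n → F) : S.h 0 y = 0 := zero_dotProduct _

theorem h_symm {x y : Fin n → F} (hx : x ∈ S.V) (hy : y ∈ S.V) : S.h x y = S.h y x := S.symm hx hy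
theorem h_mem {x y : Fin n → F} (hx : x ∈ S.V) (hy : y ∈ S.V) : S.h x y ∈ S.k := S.mem_k hx hy

theorem h_add_right {x y y' : Fin n → F} (hx : x ∈ S.V) (hy : y ∈ S.V) (hy' : y' ∈ S.V) :
    S.h x (y + y') = S.h x y + S.h x y' := by
  rw [h_symm hx (S.V.add_mem hy hy'), h_add_left, h_symm hy hx, h_symm hy' hx]
theorem h_sub_right {x y y' : Fin n → F} (hx : x ∈ S.V) (hy : y ∈ S.V) (hy' : y' ∈ S.V) :
    S.h x (y - y') = S.h x y - S.h x y' := by
  rw [h_symm hx (S.V.sub_mem hy hy'), h_sub_left, h_symm hy hx, h_symm hy' hx]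
theorem h_smul_right {c : F} {x y : Fin n → F} (hc : c ∈ S.k) (hx : x ∈ S.V) (hy : y ∈ S.V) :
    S.h x (c • y) = c * S.h x y := by
  rw [h_symm hx (S.smul_mem hc hy), h_smul_left, h_symm hy hx]

theorem ext_V {g g' : GL (Fin n) F} (he : ∀ x ∈ S.V, (g : Matrix (Fin n) (Fin n) F) *ᵥ x = (g' : Matrix _ _ F) *ᵥ x) : g = g' := by
  apply Units.ext
  have h1 : ∀ x : Fin n → F, (g : Matrix (Fin n) (Fin n) F) *ᵥ x = (g' : Matrix _ _ F) *ᵥ x := by
    intro x
    have hx : x ∈ Submodule.span F (S.V : Set (Fin n → F)) := by rw [S.span]; trivial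
    induction hx using Submodule.span_induction with
    | mem x hx => exact he x hx
    | zero => rw [Matrix.mulVec_zero, Matrix.mulVec_zero]
    | add x y _ _ hx hy => rw [Matrix.mulVec_add, Matrix.mulVec_add, hx, hy]
    | smul c x _ hx => rw [Matrix.mulVec_smul, Matrix.mulVec_smul, hx]
  exact Matrix.mulVec_injective (funext h1)

variable (S) in
/-- the matrix of a reflection -/
def rm (v : Fin n → F) : Matrix (Fin n) (Fin n) F := 1 - (2 / S.h v v) • Matrix.vecMulVec v (S.φ v)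

theorem rm_mulVec (v x : Fin n → F) : S.rm v *ᵥ x = x - (2 / S.h v v * S.h x v) • v := by
  rw [rm, Matrix.sub_mulVec, Matrix.one_mulVec, Matrix.smul_mulVec, Matrix.vecMulVec_mulVec, h, h, dotProduct_comm (S.φ v) x]
  congr 1
  ext i
  simp [Pi.smul_apply, mul_assoc]

theorem rm_mul_self {v : Fin n → F} (hv : S.h v v ≠ 0) : S.rm v * S.rm v = 1 := by
  apply Matrix.mulVec_injective
  funext x
  rw [← Matrix.mulVec_mulVec, rm_mulVec, rm_mulVec, h_sub_left, h_smul_left, Matrix.one_mulVec, sub_sub, ← add_smul]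
  have : 2 / S.h v v * S.h x v + 2 / S.h v v * (S.h x v - 2 / S.h v v * S.h x v * S.h v v) = 0 := by
    field_simp
    ring
  rw [this, zero_smul, sub_zero]

variable (S) in
/-- the reflection -/
def R (v : Fin n → F) (hv : S.h v v ≠ 0) : GL (Fin n) F := ⟨S.rm v, S.rm v, rm_mul_self hv, rm_mul_self hv⟩

theorem R_mulVec {v : Fin n → F} (hv : S.h v v ≠ 0) (x : Fin n → F) :
    (S.R v hv : Matrix (Fin n) (Fin n) F) *ᵥ x = x - (2 / S.h v v * S.h x v) • v := rm_mulVec v x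

theorem R_mul_self {v : Fin n → F} (hv : S.h v v ≠ 0) : S.R v hv * S.R v hv = 1 := Units.ext (rm_mul_self hv)

theorem R_inv {v : Fin n → F} (hv : S.h v v ≠ 0) : (S.R v hv)⁻¹ = S.R v hv := inv_eq_of_mul_eq_one_left (R_mul_self hv)

theorem two_mem : (2 : F) ∈ S.k := by
  have := S.k.add_mem S.k.one_mem S.k.one_mem
  rwa [one_add_one_eq_two] at this

theorem R_mem {v x : Fin n → F} (hvV : v ∈ S.V) (hv : S.h v v ≠ 0) (hx : x ∈ S.V) :
    (S.R v hv : Matrix (Fin n) (Fin n) F) *ᵥ x ∈ S.V := by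
  rw [R_mulVec]
  exact S.V.sub_mem hx (S.smul_mem (S.k.mul_mem (S.k.div_mem two_mem (h_mem hvV hvV)) (h_mem hx hvV)) hvV)

/-- isometries of the space -/
def Isom (S : RS F n) (g : GL (Fin n) F) : Prop :=
  (∀ x ∈ S.V, (g : Matrix (Fin n) (Fin n) F) *ᵥ x ∈ S.V) ∧
  ∀ x ∈ S.V, ∀ y ∈ S.V, S.h ((g : Matrix (Fin n) (Fin n) F) *ᵥ x) ((g : Matrix (Fin n) (Fin n) F) *ᵥ y) = S.h x y

theorem Isom.mul {g g' : GL (Fin n) F} (hg : Isom S g) (hg' : Isom S g') : Isom S (g * g') := by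
  constructor
  · intro x hx
    rw [Units.val_mul, ← Matrix.mulVec_mulVec]
    exact hg.1 _ (hg'.1 _ hx)
  · intro x hx y hy
    rw [Units.val_mul, ← Matrix.mulVec_mulVec, ← Matrix.mulVec_mulVec, hg.2 _ (hg'.1 _ hx) _ (hg'.1 _ hy), hg'.2 _ hx _ hy]

theorem isom_R {v : Fin n → F} (hvV : v ∈ S.V) (hv : S.h v v ≠ 0) : Isom S (S.R v hv) := by
  refine ⟨fun x hx => R_mem hvV hv hx, fun x hx y hy => ?_⟩
  have hk : ∀ z ∈ S.V, 2 / S.h v v * S.h z v ∈ S.k := fun z hz =>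
    S.k.mul_mem (S.k.div_mem two_mem (h_mem hvV hvV)) (h_mem hz hvV)
  rw [R_mulVec, R_mulVec, h_sub_left, h_smul_left, h_sub_right hx hy (S.smul_mem (hk y hy) hvV),
    h_sub_right hvV hy (S.smul_mem (hk y hy) hvV), h_smul_right (hk y hy) hx hvV, h_smul_right (hk y hy) hvV hvV,
    h_symm hvV hy]
  field_simp
  ring

/-- conjugates of reflections -/
theorem conj_R {g : GL (Fin n) F} (hg : Isom S g) {v : Fin n → F} (hvV : v ∈ S.V) (hv : S.h v v ≠ 0)
    (hgv : S.h ((g : Matrix (Fin n) (Fin n) F) *ᵥ v) ((g : Matrix (Fin n) (Fin n) F) *ᵥ v) ≠ 0) :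
    g * S.R v hv = S.R ((g : Matrix (Fin n) (Fin n) F) *ᵥ v) hgv * g := by
  apply ext_V (S := S)
  intro x hx
  rw [Units.val_mul, Units.val_mul, ← Matrix.mulVec_mulVec, ← Matrix.mulVec_mulVec, R_mulVec, R_mulVec,
    Matrix.mulVec_sub, Matrix.mulVec_smul, hg.2 _ hvV _ hvV, hg.2 _ hx _ hvV]

theorem hgv_ne {g : GL (Fin n) F} (hg : Isom S g) {v : Fin n → F} (hvV : v ∈ S.V) (hv : S.h v v ≠ 0) :
    S.h ((g : Matrix (Fin n) (Fin n) F) *ᵥ v) ((g : Matrix (Fin n) (Fin n) F) *ᵥ v) ≠ 0 := by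
  rw [hg.2 _ hvV _ hvV]; exact hv

section main

variable [Finite F] (h2 : (2 : F) ≠ 0)
  (h3 : ∀ v w : Fin n → F, ∃ x ∈ S.V, ∀ a b : F, x ≠ a • v + b • w)
  {𝒩 : Subgroup (GL (Fin n) F)}
  (hN : ∀ (v : Fin n → F) (hv : S.h v v ≠ 0), v ∈ S.V → ∀ g ∈ 𝒩, S.R v hv * g * (S.R v hv)⁻¹ ∈ 𝒩)
  (hodd : ∀ g ∈ 𝒩, ∃ m : ℕ, Odd m ∧ ∃ c : F, ((g ^ m : GL (Fin n) F) : Matrix (Fin n) (Fin n) F) = c • (1 : Matrix _ _ F))

/-- binary forms over finite fields are universal -/
theorem universal (k : Subfield F) (h2 : (2 : F) ≠ 0) {a b c : F} (ha : a ∈ k) (hb : b ∈ k) (hc : c ∈ k) (ha0 : a ≠ 0) (hb0 : b ≠ 0) :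
    ∃ x ∈ k, ∃ y ∈ k, a * x ^ 2 + b * y ^ 2 = c := by
  classical
  have : Fintype F := Fintype.ofFinite F
  have : Fintype ↥k := Fintype.ofFinite ↥k
  have hodd : Fintype.card ↥k % 2 = 1 := by
    have h2' : ringChar ↥k ≠ 2 := by
      intro h
      have h3 := ringChar.spec ↥k 2
      rw [h] at h3
      have h4 : ((2 : ℕ) : ↥k) = 0 := h3.2 dvd_rfl
      apply h2
      have h5 : (((2 : ℕ) : ↥k) : F) = 0 := by rw [h4]; rfl
      push_cast at h5
      exact h5
    exact FiniteField.odd_card_of_char_ne_two h2'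
  let a' : ↥k := ⟨a, ha⟩
  let b' : ↥k := ⟨b, hb⟩
  let c' : ↥k := ⟨c, hc⟩
  have ha' : a' ≠ 0 := fun h => ha0 (congrArg Subtype.val h)
  have hb' : b' ≠ 0 := fun h => hb0 (congrArg Subtype.val h)
  obtain ⟨x, y, hxy⟩ := FiniteField.exists_root_sum_quadratic (f := Polynomial.C a' * Polynomial.X ^ 2 - Polynomial.C c')
    (g := Polynomial.C b' * Polynomial.X ^ 2)
    (by
      rw [Polynomial.degree_sub_eq_left_of_degree_lt]
      · rw [Polynomial.degree_C_mul_X_pow 2 ha']; rfl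
      · rw [Polynomial.degree_C_mul_X_pow 2 ha']
        exact lt_of_le_of_lt Polynomial.degree_C_le (by decide))
    (by rw [Polynomial.degree_C_mul_X_pow 2 hb']; rfl) hodd
  refine ⟨x, x.2, y, y.2, ?_⟩
  simp only [Polynomial.eval_sub, Polynomial.eval_mul, Polynomial.eval_C, Polynomial.eval_pow, Polynomial.eval_X] at hxy
  have h5 := congrArg (Subtype.val) hxy
  have h6 : a * (x : F) ^ 2 - c + b * (y : F) ^ 2 = 0 := h5
  linear_combination h6

include h2 h3 in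
omit [Finite F] in
/-- a nonisotropic vector perpendicular to a nondegenerate plane -/
theorem exists_perp {v w : Fin n → F} (hv : v ∈ S.V) (hw : w ∈ S.V) (hv0 : S.h v v ≠ 0)
    (hd : S.h v v * S.h w w - S.h v w ^ 2 ≠ 0) : ∃ a ∈ S.V, S.h a v = 0 ∧ S.h a w = 0 ∧ S.h a a ≠ 0 := by
  set c := S.h v v with hc
  set w' := w - (S.h w v / c) • v with hw'
  have hvk : S.h w v / c ∈ S.k := S.k.div_mem (h_mem hw hv) (h_mem hv hv)
  have hw'V : w' ∈ S.V := S.V.sub_mem hw (S.smul_mem hvk hv)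
  have hw'v : S.h w' v = 0 := by
    rw [hw', h_sub_left, h_smul_left, ← hc]; field_simp; ring
  have hw'w' : S.h w' w' ≠ 0 := by
    have h5 : S.h w' w' = S.h w' w := by
      conv_lhs => rw [hw']
      rw [← hw', h_sub_right hw'V hw (S.smul_mem hvk hv), h_smul_right hvk hw'V hv, hw'v, mul_zero, sub_zero]
    rw [h5, hw', h_sub_left, h_smul_left, h_symm hw hv]
    intro h6
    apply hd
    field_simp at h6
    linear_combination h6
  -- projection
  have proj : ∀ x ∈ S.V, ∃ a ∈ S.V, S.h a v = 0 ∧ S.h a w' = 0 ∧ ∃ s t : F, s ∈ S.k ∧ t ∈ S.k ∧ x = a + s • v + t • w' := by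
    intro x hx
    have hs : S.h x v / c ∈ S.k := S.k.div_mem (h_mem hx hv) (h_mem hv hv)
    have ht : S.h x w' / S.h w' w' ∈ S.k := S.k.div_mem (h_mem hx hw'V) (h_mem hw'V hw'V)
    refine ⟨x - (S.h x v / c) • v - (S.h x w' / S.h w' w') • w', ?_, ?_, ?_, S.h x v / c, S.h x w' / S.h w' w', hs, ht, ?_⟩
    · exact S.V.sub_mem (S.V.sub_mem hx (S.smul_mem hs hv)) (S.smul_mem ht hw'V)
    · rw [h_sub_left, h_sub_left, h_smul_left, h_smul_left, hw'v, ← hc]; field_simp; ring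
    · rw [h_sub_left, h_sub_left, h_smul_left, h_smul_left, h_symm hv hw'V, hw'v]; field_simp; ring
    · abel
  have hww : ∀ a ∈ S.V, S.h a v = 0 → S.h a w' = 0 → S.h a w = 0 := by
    intro a ha h5 h6
    rw [hw', h_sub_right ha hw (S.smul_mem hvk hv), h_smul_right hvk ha hv, h5, mul_zero, sub_zero] at h6
    exact h6
  obtain ⟨x, hx, hxs⟩ := h3 v w'
  obtain ⟨a, ha, hav, haw, s, t, hs, ht, hxa⟩ := proj x hx
  have ha0 : a ≠ 0 := by
    rintro rfl
    apply hxs s t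
    rw [hxa, zero_add]
  by_cases haa : S.h a a = 0
  · obtain ⟨y, hy, hay⟩ := S.nondeg ha ha0
    obtain ⟨b, hb, hbv, hbw, s', t', hs', ht', hyb⟩ := proj y hy
    have hab : S.h a b ≠ 0 := by
      have h5 : S.h a y = S.h a b := by
        rw [hyb, h_add_right ha (S.V.add_mem hb (S.smul_mem hs' hv)) (S.smul_mem ht' hw'V),
          h_add_right ha hb (S.smul_mem hs' hv), h_smul_right hs' ha hv, h_smul_right ht' ha hw'V, hav, haw, mul_zero,
          mul_zero, add_zero, add_zero]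
      rw [← h5]; exact hay
    by_cases hbb : S.h b b = 0
    · refine ⟨a + b, S.V.add_mem ha hb, by rw [h_add_left, hav, hbv, add_zero], ?_, ?_⟩
      · rw [h_add_left, hww a ha hav haw, hww b hb hbv hbw, add_zero]
      · rw [h_add_left, h_add_right ha ha hb, h_add_right hb ha hb, haa, hbb, h_symm hb ha, zero_add, add_zero, ← two_mul]
        exact mul_ne_zero h2 hab
    · exact ⟨b, hb, hbv, hww b hb hbv hbw, hbb⟩
  · exact ⟨a, ha, hav, hww a ha hav haw, haa⟩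

include h2 h3 hodd in
/-- the final contradiction -/
theorem not_perp {v u : Fin n → F} (hv : v ∈ S.V) (hu : u ∈ S.V) (hv0 : S.h v v ≠ 0) (hu0 : S.h u u ≠ 0)
    (hvu : S.h v u = 0) : S.R v hv0 * S.R u hu0 ∉ 𝒩 := by
  intro hmem
  have huv : S.h u v = 0 := by rw [h_symm hu hv]; exact hvu
  obtain ⟨a, ha, hav, hau, haa⟩ := exists_perp h2 h3 hv hu hv0 (by rw [hvu]; simpa using mul_ne_zero hv0 hu0)
  have hsq : (S.R v hv0 * S.R u hu0) ^ 2 = 1 := by
    apply ext_V (S := S)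
    intro x hx
    rw [pow_two, Units.val_mul, Units.val_mul, Units.val_one, Matrix.one_mulVec]
    simp only [← Matrix.mulVec_mulVec, R_mulVec, h_sub_left, h_smul_left, hvu, huv, mul_zero, sub_zero]
    have e1 : 2 / S.h v v * (S.h x v - 2 / S.h v v * S.h x v * S.h v v) = - (2 / S.h v v * S.h x v) := by
      field_simp; ring
    have e2 : 2 / S.h u u * (S.h x u - 2 / S.h u u * S.h x u * S.h u u) = - (2 / S.h u u * S.h x u) := by
      field_simp; ring
    rw [e1, e2, neg_smul, neg_smul]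
    abel
  obtain ⟨m, ⟨j, hj⟩, c, hc⟩ := hodd _ hmem
  rw [hj, pow_succ, pow_mul, hsq, one_pow, one_mul] at hc
  have h5 := congrArg (fun M : Matrix (Fin n) (Fin n) F => M *ᵥ v) hc
  have h6 := congrArg (fun M : Matrix (Fin n) (Fin n) F => M *ᵥ a) hc
  simp only [Units.val_mul, ← Matrix.mulVec_mulVec, R_mulVec, h_sub_left, h_smul_left, hvu, hau, hav, mul_zero, zero_smul,
    sub_zero, Matrix.smul_mulVec, Matrix.one_mulVec] at h5 h6
  have hv' : v ≠ 0 := by rintro rfl; exact hv0 (h_zero_left _)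
  have ha' : a ≠ 0 := by rintro rfl; exact haa (h_zero_left _)
  have hc1 : c = 1 := by
    have : (1 - c) • a = 0 := by rw [sub_smul, one_smul, ← h6, sub_self]
    rcases smul_eq_zero.1 this with h | h
    · exact (sub_eq_zero.1 h).symm
    · exact absurd h ha'
  rw [hc1, one_smul, div_mul_cancel₀ _ hv0, sub_eq_self] at h5
  rcases smul_eq_zero.1 h5 with h | h
  · exact h2 h
  · exact hv' h

include hN in
theorem comm_mem {g : GL (Fin n) F} (hg : g ∈ 𝒩) (hgi : Isom S g) {v : Fin n → F} (hv : v ∈ S.V) (hv0 : S.h v v ≠ 0) :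
    S.R v hv0 * S.R ((g : Matrix (Fin n) (Fin n) F) *ᵥ v) (hgv_ne hgi hv hv0) ∈ 𝒩 := by
  have h5 := 𝒩.mul_mem (hN v hv0 hv g hg) (𝒩.inv_mem hg)
  have h6 := conj_R hgi hv hv0 (hgv_ne hgi hv hv0)
  have h7 : S.R v hv0 * S.R ((g : Matrix (Fin n) (Fin n) F) *ᵥ v) (hgv_ne hgi hv hv0) = S.R v hv0 * g * (S.R v hv0)⁻¹ * g⁻¹ := by
    rw [R_inv, mul_assoc (S.R v hv0) g, h6, mul_assoc, mul_inv_cancel_right]
  rw [h7]; exact h5

include h2 h3 hN hodd in
/-- a good third vector is impossible -/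
theorem no_third {v w u : Fin n → F} (hv : v ∈ S.V) (hw : w ∈ S.V) (hu : u ∈ S.V) (hv0 : S.h v v ≠ 0) (hw0 : S.h w w ≠ 0)
    (hmem : S.R v hv0 * S.R w hw0 ∈ 𝒩) (huv : S.h v u = 0) (hwu : S.h w u = S.h w v) (huu : S.h u u = S.h v v) : False := by
  have hu0 : S.h u u ≠ 0 := by rw [huu]; exact hv0
  have hd : S.h (v - u) (v - u) = 2 * S.h v v := by
    rw [h_sub_left, h_sub_right hv hv hu, h_sub_right hu hv hu, huv, h_symm hu hv, huv, huu]; ring
  have hd0 : S.h (v - u) (v - u) ≠ 0 := by rw [hd]; exact mul_ne_zero h2 hv0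
  have hvu : v - u ∈ S.V := S.V.sub_mem hv hu
  have hRi := isom_R hvu hd0
  have e1 : (S.R (v - u) hd0 : Matrix (Fin n) (Fin n) F) *ᵥ w = w := by
    rw [R_mulVec, h_sub_right hw hv hu, hwu, sub_self, mul_zero, zero_smul, sub_zero]
  have e2 : (S.R (v - u) hd0 : Matrix (Fin n) (Fin n) F) *ᵥ v = u := by
    rw [R_mulVec, h_sub_right hv hv hu, huv, sub_zero, hd]
    have : 2 / (2 * S.h v v) * S.h v v = 1 := by field_simp
    rw [this, one_smul, sub_sub_cancel]
  have c1 : S.R (v - u) hd0 * S.R w hw0 = S.R w hw0 * S.R (v - u) hd0 := by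
    have := conj_R hRi hw hw0 (hgv_ne hRi hw hw0)
    rw [this]
    congr 1
    apply Units.ext
    change S.rm _ = S.rm _
    rw [e1]
  have c2 : S.R (v - u) hd0 * S.R v hv0 = S.R u hu0 * S.R (v - u) hd0 := by
    have := conj_R hRi hv hv0 (hgv_ne hRi hv hv0)
    rw [this]
    congr 1
    apply Units.ext
    change S.rm _ = S.rm _
    rw [e2]
  -- `R_w R_v` is in `𝒩`
  have m1 : S.R w hw0 * S.R v hv0 ∈ 𝒩 := by
    have := 𝒩.inv_mem hmem
    rwa [_root_.mul_inv_rev, R_inv, R_inv] at this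
  have m2 := hN (v - u) hd0 hvu _ m1
  have m3 : S.R (v - u) hd0 * (S.R w hw0 * S.R v hv0) * (S.R (v - u) hd0)⁻¹ = S.R w hw0 * S.R u hu0 := by
    rw [← mul_assoc, c1, mul_assoc (S.R w hw0), c2, ← mul_assoc, mul_inv_cancel_right]
  rw [m3] at m2
  have m4 := 𝒩.mul_mem hmem m2
  have m5 : S.R v hv0 * S.R w hw0 * (S.R w hw0 * S.R u hu0) = S.R v hv0 * S.R u hu0 := by
    rw [mul_assoc, ← mul_assoc (S.R w hw0), R_mul_self, one_mul]
  rw [m5] at m4
  exact not_perp h2 h3 hodd hv hu hv0 hu0 huv m4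

include h2 h3 hN hodd in
/-- degenerate pairs are impossible -/
theorem no_deg {v w : Fin n → F} (hv : v ∈ S.V) (hw : w ∈ S.V) (hv0 : S.h v v ≠ 0) (hw0 : S.h w w ≠ 0)
    (hmem : S.R v hv0 * S.R w hw0 ∈ 𝒩) (hww : S.h w w = S.h v v) {ε : F} (hεk : ε ∈ S.k) (hε : ε * ε = 1)
    (hvw : S.h v w = ε * S.h v v) (hne : w ≠ ε • v) : False := by
  set c := S.h v v with hc
  have hε0 : ε ≠ 0 := by rintro rfl; rw [mul_zero] at hε; exact zero_ne_one hε
  set e := w - ε • v with he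
  have heV : e ∈ S.V := S.V.sub_mem hw (S.smul_mem hεk hv)
  have he0 : e ≠ 0 := sub_ne_zero.2 hne
  have hwv : S.h w v = ε * c := by rw [h_symm hw hv, hvw]
  have hev : S.h e v = 0 := by rw [he, h_sub_left, h_smul_left, hwv, ← hc]; ring
  have hve : S.h v e = 0 := by rw [h_symm hv heV, hev]
  have hee : S.h e e = 0 := by
    have h5 : S.h e e = S.h e w := by
      conv_lhs => rw [he]
      rw [← he, h_sub_right heV hw (S.smul_mem hεk hv), h_smul_right hεk heV hv, hev, mul_zero, sub_zero]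
    rw [h5, he, h_sub_left, h_smul_left, hww, hvw]
    linear_combination -c * hε
  obtain ⟨f0, hf0, hef0⟩ := S.nondeg heV he0
  change S.h e f0 ≠ 0 at hef0
  have hck : c ∈ S.k := h_mem hv hv
  obtain ⟨f1, hf1⟩ : ∃ f1, f1 = f0 - (S.h f0 v / c) • v := ⟨_, rfl⟩
  have hs1 : S.h f0 v / c ∈ S.k := S.k.div_mem (h_mem hf0 hv) hck
  have hf1V : f1 ∈ S.V := by rw [hf1]; exact S.V.sub_mem hf0 (S.smul_mem hs1 hv)
  have hf1v : S.h f1 v = 0 := by rw [hf1, h_sub_left, h_smul_left, ← hc]; field_simp; ring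
  have hef1 : S.h e f1 ≠ 0 := by
    rw [hf1, h_sub_right heV hf0 (S.smul_mem hs1 hv), h_smul_right hs1 heV hv, hev, mul_zero, sub_zero]; exact hef0
  obtain ⟨s2, hs2⟩ : ∃ s2, s2 = ε * c / S.h e f1 := ⟨_, rfl⟩
  have hs2k : s2 ∈ S.k := by rw [hs2]; exact S.k.div_mem (S.k.mul_mem hεk hck) (h_mem heV hf1V)
  obtain ⟨f, hf⟩ : ∃ f, f = s2 • f1 := ⟨_, rfl⟩
  have hfV : f ∈ S.V := by rw [hf]; exact S.smul_mem hs2k hf1V
  have hfv : S.h f v = 0 := by rw [hf, h_smul_left, hf1v, mul_zero]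
  have hef : S.h e f = ε * c := by rw [hf, h_smul_right hs2k heV hf1V, hs2]; field_simp
  have h2k : (2 : F) ∈ S.k := two_mem
  obtain ⟨s, hs⟩ : ∃ s, s = (c - S.h f f) / (2 * (ε * c)) := ⟨_, rfl⟩
  have hsk : s ∈ S.k := by rw [hs]; exact S.k.div_mem (S.k.sub_mem hck (h_mem hfV hfV)) (S.k.mul_mem h2k (S.k.mul_mem hεk hck))
  obtain ⟨u, hu⟩ : ∃ u, u = f + s • e := ⟨_, rfl⟩
  have huV : u ∈ S.V := by rw [hu]; exact S.V.add_mem hfV (S.smul_mem hsk heV)
  have hvu : S.h v u = 0 := by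
    rw [h_symm hv huV, hu, h_add_left, h_smul_left, hfv, hev]; ring
  have heu : S.h e u = ε * c := by
    rw [hu, h_add_right heV hfV (S.smul_mem hsk heV), h_smul_right hsk heV heV, hee, hef]; ring
  have hwu : S.h w u = S.h w v := by
    have h5 : w = e + ε • v := by rw [he]; abel
    rw [hwv]
    conv_lhs => rw [h5]
    rw [h_add_left, h_smul_left, hvu, heu]; ring
  have hfu : S.h f u = S.h f f + s * (ε * c) := by
    rw [hu, h_add_right hfV hfV (S.smul_mem hsk heV), h_smul_right hsk hfV heV, h_symm hfV heV, hef]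
  have huu : S.h u u = c := by
    have h5 : S.h u u = S.h f u + s * S.h e u := by
      conv_lhs => enter [2]; rw [hu]
      rw [h_add_left, h_smul_left]
    rw [h5, heu, hfu, hs]
    field_simp
    ring
  exact no_third h2 h3 hN hodd hv hw huV hv0 hw0 hmem hvu hwu (by rw [huu])

include h2 h3 hN hodd in
/-- **the reflection lemma** -/
theorem refl_lemma {g : GL (Fin n) F} (hg : g ∈ 𝒩) (hgi : Isom S g) {v : Fin n → F} (hv : v ∈ S.V) (hv0 : S.h v v ≠ 0) :
    ∃ c : F, (g : Matrix (Fin n) (Fin n) F) *ᵥ v = c • v := by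
  by_contra hcon
  push Not at hcon
  set w := (g : Matrix (Fin n) (Fin n) F) *ᵥ v with hw
  have hwV : w ∈ S.V := hgi.1 v hv
  have hww : S.h w w = S.h v v := hgi.2 v hv v hv
  have hw0 : S.h w w ≠ 0 := by rw [hww]; exact hv0
  have hmem : S.R v hv0 * S.R w hw0 ∈ 𝒩 := comm_mem hN hg hgi hv hv0
  have hck : S.h v v ∈ S.k := h_mem hv hv
  have hbk : S.h v w ∈ S.k := h_mem hv hwV
  by_cases hb : S.h v w = 0
  · exact not_perp h2 h3 hodd hv hwV hv0 hw0 hb hmem
  by_cases hdeg : S.h v w ^ 2 = S.h v v ^ 2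
  · refine no_deg h2 h3 hN hodd hv hwV hv0 hw0 hmem hww (ε := S.h v w / S.h v v) (S.k.div_mem hbk hck) ?_ ?_ (hcon _)
    · field_simp; linear_combination hdeg
    · field_simp
  -- nondegenerate
  set c := S.h v v with hc
  set b := S.h v w with hb'
  have hwv : S.h w v = b := by rw [h_symm hwV hv]
  obtain ⟨a, ha, hav, haw, haa⟩ := exists_perp h2 h3 hv hwV hv0 (by
    rw [hww]; intro h5; apply hdeg; linear_combination -h5)
  have hd : c - b ^ 2 / c ≠ 0 := by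
    intro h5; apply hdeg; field_simp at h5; linear_combination -h5
  have hak := h_mem ha ha
  obtain ⟨X, hX, y, hy, hXy⟩ := universal S.k h2 (a := c) (b := c - b ^ 2 / c) (c := - (c ^ 2 / b ^ 2) * S.h a a) hck
    (S.k.sub_mem hck (S.k.div_mem (S.k.pow_mem hbk 2) hck))
    (S.k.mul_mem (S.k.neg_mem (S.k.div_mem (S.k.pow_mem hck 2) (S.k.pow_mem hbk 2))) hak) hv0 hd
  obtain ⟨x, hx⟩ : ∃ x, x = X - b / c * y := ⟨_, rfl⟩
  have hxk : x ∈ S.k := by rw [hx]; exact S.k.sub_mem hX (S.k.mul_mem (S.k.div_mem hbk hck) hy)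
  obtain ⟨v1, hv1⟩ : ∃ v1, v1 = x • v + y • w := ⟨_, rfl⟩
  have hv1V : v1 ∈ S.V := by rw [hv1]; exact S.V.add_mem (S.smul_mem hxk hv) (S.smul_mem hy hwV)
  have q1 : c * x ^ 2 + 2 * x * y * b + c * y ^ 2 = - (c ^ 2 / b ^ 2) * S.h a a := by
    rw [← hXy, hx]; field_simp; ring
  have hv1v : S.h v1 v = x * c + y * b := by rw [hv1, h_add_left, h_smul_left, h_smul_left, hwv]
  have hv1w : S.h v1 w = x * b + y * c := by rw [hv1, h_add_left, h_smul_left, h_smul_left, hww]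
  have hv1v1 : S.h v1 v1 = - (c ^ 2 / b ^ 2) * S.h a a := by
    have h5 : S.h v1 v1 = x * S.h v v1 + y * S.h w v1 := by
      conv_lhs => enter [2]; rw [hv1]
      rw [h_add_left, h_smul_left, h_smul_left]
    rw [h5, h_symm hv hv1V, h_symm hwV hv1V, hv1v, hv1w, ← q1]
    ring
  set z := S.R v hv0 * S.R w hw0 with hz
  have hzi : Isom S z := (isom_R hv hv0).mul (isom_R hwV hw0)
  have zact : ∀ t : Fin n → F, (z : Matrix (Fin n) (Fin n) F) *ᵥ t =
      t - (2 / c * S.h t w) • w - (2 / c * (S.h t v - 2 / c * S.h t w * b)) • v := by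
    intro t
    rw [hz, Units.val_mul, ← Matrix.mulVec_mulVec, R_mulVec, R_mulVec, hww, h_sub_left, h_smul_left, hwv]
  obtain ⟨v', hv'⟩ : ∃ v', v' = a + v1 := ⟨_, rfl⟩
  have hv'V : v' ∈ S.V := by rw [hv']; exact S.V.add_mem ha hv1V
  have hva : S.h v a = 0 := by rw [h_symm hv ha, hav]
  have hwa : S.h w a = 0 := by rw [h_symm hwV ha, haw]
  have hv1a : S.h v1 a = 0 := by rw [hv1, h_add_left, h_smul_left, h_smul_left, hva, hwa]; ring
  have hav1 : S.h a v1 = 0 := by rw [h_symm ha hv1V, hv1a]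
  have hv'v' : S.h v' v' = S.h a a * (b ^ 2 - c ^ 2) / b ^ 2 := by
    rw [hv', h_add_left, h_add_right ha ha hv1V, h_add_right hv1V ha hv1V, hav1, hv1a, hv1v1]; field_simp; ring
  have hv'0 : S.h v' v' ≠ 0 := by
    rw [hv'v']
    refine div_ne_zero (mul_ne_zero haa ?_) (pow_ne_zero 2 hb)
    intro h5; apply hdeg; linear_combination h5
  set w' := (z : Matrix (Fin n) (Fin n) F) *ᵥ v' with hw'
  have hw'V : w' ∈ S.V := hzi.1 v' hv'V
  have hw'w' : S.h w' w' = S.h v' v' := hzi.2 v' hv'V v' hv'V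
  have hmem' := comm_mem hN hmem hzi hv'V hv'0
  have hv'v : S.h v' v = x * c + y * b := by rw [hv', h_add_left, hav, hv1v, zero_add]
  have hv'w : S.h v' w = x * b + y * c := by rw [hv', h_add_left, haw, hv1w, zero_add]
  have hpair : S.h v' w' = (-1 : F) * S.h v' v' := by
    rw [h_symm hv'V hw'V, hw', zact, h_sub_left, h_sub_left, h_smul_left, h_smul_left, h_symm hwV hv'V, h_symm hv hv'V,
      hv'v, hv'w, hv'v']
    have e1 : 2 / c * (x * b + y * c) * (x * b + y * c) + 2 / c * (x * c + y * b - 2 / c * (x * b + y * c) * b) * (x * c + y * b)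
        = 2 / c * ((c ^ 2 - b ^ 2) / c * (c * x ^ 2 + 2 * x * y * b + c * y ^ 2)) := by
      field_simp; ring
    rw [q1] at e1
    rw [sub_sub, e1]
    field_simp
    ring
  refine no_deg h2 h3 hN hodd hv'V hw'V hv'0 (hgv_ne hzi hv'V hv'0) hmem' hw'w' (ε := -1)
    (S.k.neg_mem S.k.one_mem) (by ring) hpair ?_
  intro h5
  rw [neg_one_smul] at h5
  have h6 : S.h (w' + v') a = 0 := by rw [h5, neg_add_cancel, h_zero_left]
  rw [hw', zact, h_add_left, h_sub_left, h_sub_left, h_smul_left, h_smul_left, hva, hwa, hv', h_add_left, hv1a] at h6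
  apply haa
  have h7 : 2 * S.h a a = 0 := by linear_combination h6
  exact (mul_eq_zero.1 h7).resolve_left h2

end main

end RS

end Cfsg.Agent.LB
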